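import Mathlib

/-!
# Burnside's theorem (Schur): regular cyclic subgroups of order `p ^ m`, `m ≥ 2`
-/

set_option autoImplicit false

namespace H69.BurnsideSchur

open Finset

variable {n : ℕ} [NeZero n] (G : Subgroup (Equiv.Perm (ZMod n)))

/-- `f (y - x)` is a `G`-invariant function of `(x, y)` -/
def InvF {R : Type*} (f : ZMod n → R) : Prop := ∀ g ∈ G, ∀ x y, f (g y - g x) = f (y - x)

theorem invF_mul {R : Type*} [CommSemiring R] (a b : AddMonoidAlgebra R (ZMod n))
    (ha : InvF G (fun x => a.coeff x)) (hb : InvF G (fun x => b.coeff x)) :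
    InvF G (fun x => (a * b).coeff x) := by
  intro g hg x y
  have key : ∀ z : ZMod n, (a * b).coeff z = ∑ w : ZMod n, a.coeff w * b.coeff (z - w) := by
    intro z
    rw [AddMonoidAlgebra.coeff_mul_apply_left, Finsupp.sum_fintype _ _ (by intro i; simp)]
    refine Finset.sum_congr rfl fun w _ => ?_
    rw [neg_add_eq_sub]
  have k2 : ∀ x y : ZMod n, (a * b).coeff (y - x) = ∑ u : ZMod n, a.coeff (u - x) * b.coeff (y - u) := by
    intro x y
    rw [key]
    refine (Fintype.sum_equiv (Equiv.subRight x) _ _ ?_).symm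
    intro u
    simp only [Equiv.subRight_apply]
    congr 2
    ring
  change (a * b).coeff (g y - g x) = (a * b).coeff (y - x)
  rw [k2, k2]
  refine (Fintype.sum_equiv g _ _ ?_).symm
  intro u
  have h1 := ha g hg x u
  have h2 := hb g hg u y
  simp only at h1 h2
  rw [h1, h2]

omit [NeZero n] in
theorem invF_one {R : Type*} [CommSemiring R] :
    InvF G (fun x => (1 : AddMonoidAlgebra R (ZMod n)).coeff x) := by
  intro g _ x y
  change (1 : AddMonoidAlgebra R (ZMod n)).coeff (g y - g x) = (1 : AddMonoidAlgebra R (ZMod n)).coeff (y - x)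
  rw [AddMonoidAlgebra.one_def]
  simp only [AddMonoidAlgebra.coeff_single]
  by_cases h : x = y
  · subst h; simp
  · have h1 : g y - g x ≠ 0 := fun h' => h (g.injective (sub_eq_zero.1 h')).symm
    have h2 : y - x ≠ 0 := fun h' => h (sub_eq_zero.1 h').symm
    rw [Finsupp.single_apply, Finsupp.single_apply, if_neg (Ne.symm h1), if_neg (Ne.symm h2)]

theorem invF_pow {R : Type*} [CommSemiring R] (a : AddMonoidAlgebra R (ZMod n))
    (ha : InvF G (fun x => a.coeff x)) (k : ℕ) : InvF G (fun x => (a ^ k).coeff x) := by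
  induction k with
  | zero => rw [pow_zero]; exact invF_one G
  | succ k ih => rw [pow_succ]; exact invF_mul G _ _ ih ha

omit [NeZero n] in
/-- the `p`-th power of the characteristic function of `T` counts `p`-th roots modulo `p` -/
theorem pow_char {p : ℕ} [hp : Fact p.Prime] (T : Finset (ZMod n)) (z : ZMod n) :
    ((∑ h ∈ T, AddMonoidAlgebra.single h (1 : ZMod p)) ^ p).coeff z =
      ((T.filter (fun h => p • h = z)).card : ZMod p) := by
  have : CharP (AddMonoidAlgebra (ZMod p) (ZMod n)) p :=
    charP_of_injective_algebraMap (algebraMap (ZMod p) (AddMonoidAlgebra (ZMod p) (ZMod n))).injective p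
  rw [sum_pow_char p]
  rw [AddMonoidAlgebra.coeff_sum, Finsupp.finsetSum_apply, Finset.card_filter]
  push_cast
  refine Finset.sum_congr rfl fun h _ => ?_
  rw [AddMonoidAlgebra.single_pow, one_pow, AddMonoidAlgebra.coeff_single, Finsupp.single_apply]

/-- points in the same orbit of the stabilizer of `0` -/
def Orb (x y : ZMod n) : Prop := ∃ g ∈ G, g 0 = 0 ∧ g x = y

omit [NeZero n] in
theorem Orb.refl (x : ZMod n) : Orb G x x := ⟨1, G.one_mem, rfl, rfl⟩

omit [NeZero n] in
theorem Orb.symm {x y : ZMod n} (h : Orb G x y) : Orb G y x := by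
  obtain ⟨g, hg, h0, hx⟩ := h
  refine ⟨g⁻¹, G.inv_mem hg, ?_, ?_⟩
  · rw [Equiv.Perm.inv_eq_iff_eq, h0]
  · rw [Equiv.Perm.inv_eq_iff_eq, hx]

omit [NeZero n] in
theorem Orb.trans {x y z : ZMod n} (h : Orb G x y) (h' : Orb G y z) : Orb G x z := by
  obtain ⟨g, hg, h0, hx⟩ := h
  obtain ⟨g', hg', h0', hx'⟩ := h'
  exact ⟨g' * g, G.mul_mem hg' hg, by rw [Equiv.Perm.mul_apply, h0, h0'],
    by rw [Equiv.Perm.mul_apply, hx, hx']⟩

omit [NeZero n] in
/-- functions constant on the orbits of the stabilizer of `0` give invariant functions -/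
theorem invF_of_orb (htr : ∀ c : ZMod n, Equiv.addRight c ∈ G) {R : Type*} (f : ZMod n → R)
    (hf : ∀ x y, Orb G x y → f x = f y) : InvF G f := by
  intro g hg x y
  symm
  apply hf
  refine ⟨Equiv.addRight (-(g x)) * g * Equiv.addRight x, ?_, ?_, ?_⟩
  · exact G.mul_mem (G.mul_mem (htr _) hg) (htr _)
  · simp
  · simp [sub_eq_add_neg]

omit [NeZero n] in
theorem InvF.orb {R : Type*} {f : ZMod n → R} (hf : InvF G f) {x y : ZMod n} (h : Orb G x y) :
    f x = f y := by
  obtain ⟨g, hg, h0, hx⟩ := h
  have := hf g hg 0 x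
  rw [h0, hx, sub_zero, sub_zero] at this
  exact this.symm

/-- primitivity, in terms of invariant equivalence relations -/
def Prim : Prop := ∀ r : ZMod n → ZMod n → Prop, Equivalence r →
  (∀ g ∈ G, ∀ x y, r x y → r (g x) (g y)) → (∀ x y, r x y → x = y) ∨ (∀ x y, r x y)

omit [NeZero n] in
/-- an invariant set contained in a proper subgroup is trivial -/
theorem eq_zero_of_subgroup (hprim : Prim G) {P : ZMod n → Prop} (hP : InvF G P)
    (H : AddSubgroup (ZMod n)) (hH : H ≠ ⊤) (hPH : ∀ z, P z → z ∈ H) : ∀ z, P z → z = 0 := by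
  have hinv : ∀ g ∈ G, ∀ x y, Relation.EqvGen (fun x y => P (y - x)) x y →
      Relation.EqvGen (fun x y => P (y - x)) (g x) (g y) := by
    intro g hg x y h
    induction h with
    | rel x y h => exact Relation.EqvGen.rel _ _ (by rw [hP g hg]; exact h)
    | refl x => exact Relation.EqvGen.refl _
    | symm x y _ ih => exact Relation.EqvGen.symm _ _ ih
    | trans x y z _ _ ih1 ih2 => exact Relation.EqvGen.trans _ _ _ ih1 ih2
  have hsub : ∀ x y, Relation.EqvGen (fun x y => P (y - x)) x y → y - x ∈ H := by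
    intro x y h
    induction h with
    | rel x y h => exact hPH _ h
    | refl x => rw [sub_self]; exact H.zero_mem
    | symm x y _ ih =>
      have := H.neg_mem ih
      rwa [neg_sub] at this
    | trans x y z _ _ ih1 ih2 =>
      have := H.add_mem ih2 ih1
      rwa [sub_add_sub_cancel] at this
  rcases hprim _ (Relation.EqvGen.is_equivalence _) hinv with h | h
  · intro z hz
    exact (h 0 z (Relation.EqvGen.rel _ _ (by simpa using hz))).symm
  · exfalso
    apply hH
    rw [eq_top_iff]
    intro c _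
    have := hsub 0 c (h 0 c)
    rwa [sub_zero] at this

/-- off the `p`-torsion, invariant sets are unions of cosets of the `p`-torsion -/
theorem add_mem_of_torsion {p : ℕ} [hp : Fact p.Prime] (hpn : p ∣ n) (hprim : Prim G)
    (T : Finset (ZMod n)) (hT : InvF G (fun x => x ∈ T)) {h u : ZMod n} (hh : h ∈ T)
    (hph : p • h ≠ 0) (hu : p • u = 0) : h + u ∈ T := by
  classical
  set τ : AddMonoidAlgebra (ZMod p) (ZMod n) := ∑ h ∈ T, AddMonoidAlgebra.single h (1 : ZMod p) with hτ
  have h1 : ∀ z, τ.coeff z = if z ∈ T then 1 else 0 := by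
    intro z
    rw [hτ, AddMonoidAlgebra.coeff_sum, Finsupp.finsetSum_apply]
    simp only [AddMonoidAlgebra.coeff_single, Finsupp.single_apply]
    rw [Finset.sum_ite_eq']
  have h2 : InvF G (fun x => τ.coeff x) := by
    intro g hg x y
    change τ.coeff (g y - g x) = τ.coeff (y - x)
    rw [h1, h1]
    have := hT g hg x y
    simp only at this
    by_cases h : y - x ∈ T
    · rw [if_pos h, if_pos (by rw [this]; exact h)]
    · rw [if_neg h, if_neg (by rw [this]; exact h)]
  have h3 := invF_pow G τ h2 p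
  have h4 : InvF G (fun z => (τ ^ p).coeff z ≠ 0) := by
    intro g hg x y
    have := h3 g hg x y
    simp only at this ⊢
    rw [this]
  have hpn1 : (nsmulAddMonoidHom p : ZMod n →+ ZMod n).range ≠ ⊤ := by
    intro h
    have h5 : (1 : ZMod n) ∈ (nsmulAddMonoidHom p : ZMod n →+ ZMod n).range := by
      rw [h]; exact AddSubgroup.mem_top _
    obtain ⟨x, hx⟩ := h5
    change p • x = 1 at hx
    rw [nsmul_eq_mul] at hx
    have h6 : IsUnit ((p : ℕ) : ZMod n) := IsUnit.of_mul_eq_one _ hx
    rw [ZMod.isUnit_iff_coprime] at h6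
    have h7 := Nat.Coprime.eq_one_of_dvd h6 hpn
    exact hp.out.one_lt.ne' h7
  have h5 := eq_zero_of_subgroup G hprim h4 (nsmulAddMonoidHom p : ZMod n →+ ZMod n).range hpn1
    (by
      intro z hz
      rw [hτ, pow_char] at hz
      have h6 : (T.filter (fun h => p • h = z)).card ≠ 0 := by
        intro h0; apply hz; rw [h0]; simp
      obtain ⟨w, hw⟩ := Finset.card_pos.1 (Nat.pos_of_ne_zero h6)
      exact ⟨w, (Finset.mem_filter.1 hw).2⟩)
  have h6 : (((T.filter (fun w => p • w = p • h)).card : ℕ) : ZMod p) = 0 := by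
    by_contra hne
    apply hph
    apply h5
    rw [hτ, pow_char]
    exact hne
  rw [ZMod.natCast_eq_zero_iff] at h6
  set S := T.filter (fun w => p • w = p • h) with hS
  have h7 : S ⊆ (univ.filter (fun u : ZMod n => p • u = 0)).image (fun u => h + u) := by
    intro w hw
    rw [Finset.mem_image]
    refine ⟨w - h, ?_, by abel⟩
    rw [Finset.mem_filter]
    refine ⟨Finset.mem_univ _, ?_⟩
    rw [nsmul_sub, (Finset.mem_filter.1 hw).2, sub_self]
  have h8 : ((univ.filter (fun u : ZMod n => p • u = 0)).image (fun u => h + u)).card ≤ p := by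
    refine Finset.card_image_le.trans ?_
    exact IsAddCyclic.card_nsmul_eq_zero_le hp.out.pos
  have h9 : 0 < S.card := Finset.card_pos.2 ⟨h, Finset.mem_filter.2 ⟨hh, rfl⟩⟩
  have h10 : p ≤ S.card := Nat.le_of_dvd h9 h6
  have h11 := Finset.eq_of_subset_of_card_le h7 (h8.trans h10)
  have h12 : h + u ∈ S := by
    rw [h11, Finset.mem_image]
    exact ⟨u, Finset.mem_filter.2 ⟨Finset.mem_univ _, hu⟩, rfl⟩
  exact (Finset.mem_filter.1 h12).1

/-- the autocorrelation of an invariant set is invariant -/
theorem invF_corr (T : Finset (ZMod n)) (hT : InvF G (fun x => x ∈ T)) :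
    InvF G (fun z => (T.filter (fun y => y + z ∈ T)).card) := by
  classical
  have key : ∀ x y : ZMod n, (T.filter (fun w => w + (y - x) ∈ T)).card =
      (univ.filter (fun u : ZMod n => x - u ∈ T ∧ y - u ∈ T)).card := by
    intro x y
    refine Finset.card_bij' (fun w _ => x - w) (fun u _ => x - u) ?_ ?_ ?_ ?_
    · intro w hw
      rw [Finset.mem_filter] at hw ⊢
      refine ⟨Finset.mem_univ _, ?_, ?_⟩
      · rw [sub_sub_cancel]; exact hw.1
      · have : y - (x - w) = w + (y - x) := by ring
        rw [this]; exact hw.2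
    · intro u hu
      rw [Finset.mem_filter] at hu ⊢
      refine ⟨hu.2.1, ?_⟩
      have : x - u + (y - x) = y - u := by ring
      rw [this]; exact hu.2.2
    · intro w _; ring
    · intro u _; ring
  intro g hg x y
  simp only
  rw [key, key]
  symm
  refine Finset.card_bij (fun u _ => g u) ?_ (fun a _ b _ h => g.injective h) ?_
  · intro u hu
    rw [Finset.mem_filter] at hu ⊢
    refine ⟨Finset.mem_univ _, ?_, ?_⟩
    · have := hT g hg u x
      simp only at this
      rw [this]; exact hu.2.1
    · have := hT g hg u y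
      simp only at this
      rw [this]; exact hu.2.2
  · intro v hv
    rw [Finset.mem_filter] at hv
    obtain ⟨u, rfl⟩ := g.surjective v
    refine ⟨u, ?_, rfl⟩
    rw [Finset.mem_filter]
    refine ⟨Finset.mem_univ _, ?_, ?_⟩
    · have := hT g hg u x
      simp only at this
      rw [← this]; exact hv.2.1
    · have := hT g hg u y
      simp only at this
      rw [← this]; exact hv.2.2

omit [NeZero n] in
/-- total mass of the autocorrelation -/
theorem sum_corr [Fintype (ZMod n)] (T : Finset (ZMod n)) :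
    ∑ z : ZMod n, (T.filter (fun y => y + z ∈ T)).card = T.card ^ 2 := by
  classical
  simp only [Finset.card_filter]
  rw [Finset.sum_comm]
  have : ∀ y ∈ T, ∑ z : ZMod n, (if y + z ∈ T then 1 else 0) = T.card := by
    intro y _
    rw [← Finset.card_filter]
    refine Finset.card_bij (fun z _ => y + z) ?_ (fun a _ b _ h => add_left_cancel h) ?_
    · intro z hz; exact (Finset.mem_filter.1 hz).2
    · intro w hw
      refine ⟨w - y, ?_, by ring⟩
      rw [Finset.mem_filter]
      refine ⟨Finset.mem_univ _, ?_⟩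
      rw [add_sub_cancel]; exact hw
  rw [Finset.sum_congr rfl this, Finset.sum_const, smul_eq_mul, pow_two]

/-- the counting inequality -/
theorem count {p : ℕ} (T T' : Finset (ZMod n)) (hT : InvF G (fun x => x ∈ T))
    (hcoset : ∀ h ∈ T, p • h ≠ 0 → ∀ u : ZMod n, p • u = 0 → h + u ∈ T)
    (h0 : (0 : ZMod n) ∉ T) (h0' : (0 : ZMod n) ∉ T') (hdis : Disjoint T T')
    (x x' : ZMod n) (hx : p • x = 0) (hx' : p • x' = 0)
    (hTx : ∀ y ∈ T, Orb G x y) (hTx' : ∀ y ∈ T', Orb G x' y) :
    T.card + T.card * (T.filter (fun h => p • h ≠ 0)).card +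
      T'.card * (T.filter (fun h => p • h ≠ 0)).card ≤ T.card ^ 2 := by
  classical
  set N : ZMod n → ℕ := fun z => (T.filter (fun y => y + z ∈ T)).card with hN
  have hNinv : InvF G N := invF_corr G T hT
  set b := (T.filter (fun h => p • h ≠ 0)).card with hb
  have hNx : ∀ x : ZMod n, p • x = 0 → b ≤ N x := by
    intro x hx
    apply Finset.card_le_card
    intro y hy
    rw [Finset.mem_filter] at hy ⊢
    exact ⟨hy.1, hcoset y hy.1 hy.2 x hx⟩
  have h1 : ∀ y ∈ T, b ≤ N y := by
    intro y hy
    rw [← hNinv.orb G (hTx y hy)]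
    exact hNx x hx
  have h2 : ∀ y ∈ T', b ≤ N y := by
    intro y hy
    rw [← hNinv.orb G (hTx' y hy)]
    exact hNx x' hx'
  have hN0 : N 0 = T.card := by
    simp only [hN, add_zero]
    rw [Finset.filter_true_of_mem (fun y hy => hy)]
  rw [← sum_corr T]
  have hdis0 : Disjoint {(0 : ZMod n)} (T ∪ T') := by
    rw [Finset.disjoint_singleton_left, Finset.mem_union]
    push Not
    exact ⟨h0, h0'⟩
  calc T.card + T.card * b + T'.card * b ≤ N 0 + (∑ y ∈ T, N y + ∑ y ∈ T', N y) := by
        rw [hN0, add_assoc]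
        apply Nat.add_le_add_left
        apply Nat.add_le_add
        · rw [← smul_eq_mul, ← Finset.sum_const]
          exact Finset.sum_le_sum h1
        · rw [← smul_eq_mul, ← Finset.sum_const]
          exact Finset.sum_le_sum h2
    _ = ∑ y ∈ {(0 : ZMod n)} ∪ (T ∪ T'), N y := by
        rw [Finset.sum_union hdis0, Finset.sum_singleton, Finset.sum_union hdis]
    _ ≤ ∑ y : ZMod n, N y := Finset.sum_le_sum_of_subset (Finset.subset_univ _)

/-- Schur's theorem in the cyclic case: a primitive group containing the translations of `ZMod n`,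
with `p ∣ n`, `n ≠ p`, is doubly transitive.  -/
theorem orb_of_prim {p : ℕ} [hp : Fact p.Prime] (hpn : p ∣ n) (hne : ¬ n ∣ p)
    (htr : ∀ c : ZMod n, Equiv.addRight c ∈ G) (hprim : Prim G) :
    ∀ x y : ZMod n, x ≠ 0 → y ≠ 0 → Orb G x y := by
  classical
  -- the torsion subgroup is proper
  have hker : (nsmulAddMonoidHom p : ZMod n →+ ZMod n).ker ≠ ⊤ := by
    intro h
    have h1 : (1 : ZMod n) ∈ (nsmulAddMonoidHom p : ZMod n →+ ZMod n).ker := by
      rw [h]; exact AddSubgroup.mem_top _
    have h2 : p • (1 : ZMod n) = 0 := h1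
    rw [nsmul_eq_mul, mul_one, ZMod.natCast_eq_zero_iff] at h2
    exact hne h2
  -- basic sets
  set T : ZMod n → Finset (ZMod n) := fun x => univ.filter (fun y => Orb G x y) with hT
  have hTm : ∀ x y, y ∈ T x ↔ Orb G x y := fun x y => by
    simp only [hT, Finset.mem_filter, Finset.mem_univ, true_and]
  have hTinv : ∀ x, InvF G (fun y => y ∈ T x) := by
    intro x
    apply invF_of_orb G htr
    intro y z hyz
    simp only [hTm, eq_iff_iff]
    exact ⟨fun h => h.trans G hyz, fun h => h.trans G (hyz.symm G)⟩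
  have h0 : ∀ x, x ≠ 0 → (0 : ZMod n) ∉ T x := by
    intro x hx h
    rw [hTm] at h
    obtain ⟨g, _, hg0, hg⟩ := h
    apply hx
    apply g.injective
    rw [hg, hg0]
  have hcoset : ∀ x, ∀ h ∈ T x, p • h ≠ 0 → ∀ u : ZMod n, p • u = 0 → h + u ∈ T x :=
    fun x h hh hph u hu => add_mem_of_torsion G hpn hprim (T x) (hTinv x) hh hph hu
  have hnot : ∀ x, x ≠ 0 → ∃ h ∈ T x, p • h ≠ 0 := by
    intro x hx
    by_contra hcon
    push Not at hcon
    exact hx (eq_zero_of_subgroup G hprim (hTinv x) _ hker (fun z hz => hcon z hz) x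
      ((hTm x x).2 (Orb.refl G x)))
  -- numbers
  set P : Finset (ZMod n) := univ.filter (fun u => p • u = 0) with hP
  have hb : ∀ x, x ≠ 0 → P.card ≤ ((T x).filter (fun h => p • h ≠ 0)).card := by
    intro x hx
    obtain ⟨h, hh, hph⟩ := hnot x hx
    apply Finset.card_le_card_of_injOn (fun u => h + u)
    · intro u hu
      have hu' : p • u = 0 := (Finset.mem_filter.1 hu).2
      refine Finset.mem_coe.2 (Finset.mem_filter.2 ⟨hcoset x h hh hph u hu', ?_⟩)
      rw [nsmul_add, hu', add_zero]; exact hph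
    · intro a _ b _ hab; exact add_left_cancel hab
  have ha : ∀ x, x ≠ 0 → ((T x).filter (fun h => ¬ p • h ≠ 0)).card < P.card := by
    intro x hx
    apply Finset.card_lt_card
    rw [Finset.ssubset_iff_of_subset]
    · refine ⟨0, ?_, ?_⟩
      · rw [hP, Finset.mem_filter]; exact ⟨Finset.mem_univ _, nsmul_zero p⟩
      · rw [Finset.mem_filter]
        intro h
        exact h0 x hx h.1
    · intro u hu
      rw [Finset.mem_filter] at hu
      rw [hP, Finset.mem_filter]
      exact ⟨Finset.mem_univ _, not_not.1 hu.2⟩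
  have hsplit : ∀ x, (T x).card = ((T x).filter (fun h => p • h ≠ 0)).card +
      ((T x).filter (fun h => ¬ p • h ≠ 0)).card := fun x =>
    (Finset.card_filter_add_card_filter_not (fun h => p • h ≠ 0)).symm
  -- all torsion elements are in one basic set
  have htors : ∀ x y : ZMod n, x ≠ 0 → y ≠ 0 → p • x = 0 → p • y = 0 → Orb G x y := by
    intro x y hx hy hpx hpy
    by_contra hxy
    have hdis : Disjoint (T x) (T y) := by
      rw [Finset.disjoint_left]
      intro z hz hz'
      rw [hTm] at hz hz'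
      exact hxy (hz.trans G (hz'.symm G))
    have e1 := count G (p := p) (T x) (T y) (hTinv x) (hcoset x) (h0 x hx) (h0 y hy) hdis x y hpx hpy
      (fun z hz => (hTm x z).1 hz) (fun z hz => (hTm y z).1 hz)
    have e2 := count G (p := p) (T y) (T x) (hTinv y) (hcoset y) (h0 y hy) (h0 x hx) hdis.symm y x hpy hpx
      (fun z hz => (hTm y z).1 hz) (fun z hz => (hTm x z).1 hz)
    have hbx := hb x hx
    have hby := hb y hy
    have hax := ha x hx
    have hay := ha y hy
    have hsx := hsplit x
    have hsy := hsplit y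
    set bx := ((T x).filter (fun h => p • h ≠ 0)).card
    set by' := ((T y).filter (fun h => p • h ≠ 0)).card
    set ax := ((T x).filter (fun h => ¬ p • h ≠ 0)).card
    set ay := ((T y).filter (fun h => ¬ p • h ≠ 0)).card
    rw [hsx, hsy] at e1 e2
    have hax1 : 1 ≤ ax := Finset.card_pos.2 ⟨x, Finset.mem_filter.2 ⟨(hTm x x).2 (Orb.refl G x),
      by rw [not_not]; exact hpx⟩⟩
    have hay1 : 1 ≤ ay := Finset.card_pos.2 ⟨y, Finset.mem_filter.2 ⟨(hTm y y).2 (Orb.refl G y),
      by rw [not_not]; exact hpy⟩⟩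
    -- b_x s_y ≤ s_x (a_x - 1), b_y s_x ≤ s_y (a_y - 1)
    have f1 : bx * (by' + ay) + (bx + ax) ≤ (bx + ax) * ax := by nlinarith
    have f2 : by' * (bx + ax) + (by' + ay) ≤ (by' + ay) * ay := by nlinarith
    have k1 : (bx + ax) * ax ≤ (bx + ax) * by' := Nat.mul_le_mul_left _ (by omega)
    have k2 : (by' + ay) * ay ≤ (by' + ay) * bx := Nat.mul_le_mul_left _ (by omega)
    have k3 : (bx + ax) * by' = by' * (bx + ax) := mul_comm _ _
    have k4 : (by' + ay) * bx = bx * (by' + ay) := mul_comm _ _
    omega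
  -- a nonzero torsion element
  obtain ⟨k, hk⟩ := hpn
  have hx0 : ((k : ℕ) : ZMod n) ≠ 0 := by
    rw [Ne, ZMod.natCast_eq_zero_iff]
    intro h
    have hk0 : k ≠ 0 := by
      rintro rfl
      rw [mul_zero] at hk
      exact NeZero.ne n hk
    have := Nat.le_of_dvd (Nat.pos_of_ne_zero hk0) h
    rw [hk] at this
    have h2 := hp.out.two_le
    have h3 := Nat.pos_of_ne_zero hk0
    nlinarith
  have hpx0 : p • ((k : ℕ) : ZMod n) = 0 := by
    rw [nsmul_eq_mul, ← Nat.cast_mul, ← hk, ZMod.natCast_self]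
  set x₀ : ZMod n := ((k : ℕ) : ZMod n) with hx₀
  have hPT : ∀ u : ZMod n, u ≠ 0 → p • u = 0 → u ∈ T x₀ := fun u hu hpu =>
    (hTm _ _).2 (htors x₀ u hx0 hu hpx0 hpu)
  -- V = T ∪ {0} is stable under torsion
  set V : Finset (ZMod n) := insert 0 (T x₀) with hV
  have hVstab : ∀ v ∈ V, ∀ u : ZMod n, p • u = 0 → v + u ∈ V := by
    intro v hv u hu
    by_cases hpv : p • v = 0
    · by_cases hvu : v + u = 0
      · rw [hvu]; exact Finset.mem_insert_self _ _
      · exact Finset.mem_insert_of_mem (hPT _ hvu (by rw [nsmul_add, hpv, hu, add_zero]))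
    · have hv' : v ∈ T x₀ := by
        rcases Finset.mem_insert.1 hv with h | h
        · exact absurd (by rw [h, nsmul_zero]) hpv
        · exact h
      exact Finset.mem_insert_of_mem (hcoset x₀ v hv' hpv u hu)
  have hVinv : InvF G (fun y => y ∈ V) := by
    apply invF_of_orb G htr
    have key : ∀ y z, Orb G y z → y ∈ V → z ∈ V := by
      intro y z hyz hy
      rcases Finset.mem_insert.1 hy with h | h
      · obtain ⟨g, _, hg0, hg⟩ := hyz
        rw [h, hg0] at hg
        rw [← hg]; exact Finset.mem_insert_self _ _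
      · exact Finset.mem_insert_of_mem ((hTm _ _).2 (((hTm _ _).1 h).trans G hyz))
    intro y z hyz
    simp only [eq_iff_iff]
    exact ⟨key y z hyz, key z y (hyz.symm G)⟩
  have hall := hprim (fun x y => ∀ u, (x - u ∈ V ↔ y - u ∈ V))
    ⟨fun x u => Iff.rfl, fun h u => (h u).symm, fun h h' u => (h u).trans (h' u)⟩
    (by
      intro g hg x y hxy u
      obtain ⟨w, rfl⟩ := g.surjective u
      have e1 := hVinv g hg w x
      have e2 := hVinv g hg w y
      simp only at e1 e2
      rw [e1, e2]
      exact hxy w)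
  have hVtop : ∀ z, z ∈ V := by
    rcases hall with h | h
    · exfalso
      apply hx0
      refine (h 0 x₀ ?_).symm
      intro u
      constructor
      · intro h1
        have := hVstab _ h1 x₀ hpx0
        rwa [show (0 : ZMod n) - u + x₀ = x₀ - u by ring] at this
      · intro h1
        have := hVstab _ h1 (-x₀) (by rw [smul_neg, hpx0, neg_zero])
        rwa [show x₀ - u + -x₀ = 0 - u by ring] at this
    · intro z
      have h1 := (h 0 z 0).1 (by rw [sub_zero]; exact Finset.mem_insert_self _ _)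
      rwa [sub_zero] at h1
  intro x y hx hy
  have h1 : ∀ z, z ≠ 0 → Orb G x₀ z := by
    intro z hz
    rcases Finset.mem_insert.1 (hVtop z) with h | h
    · exact absurd h hz
    · exact (hTm _ _).1 h
  exact ((h1 x hx).symm G).trans G (h1 y hy)

end H69.BurnsideSchur
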