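import Cfsg.Prelude
import Cfsg.Agent.Lib.H2.NPC
import Cfsg.Agent.Lib.H72.ClassSize
import Cfsg.Agent.Lib.H1.Cores

/-!
If `p` is the smallest prime divisor of `|G|` and no class size is divisible by `p ^ 2`, then `G`
has a normal `p`-complement (elementary, no transfer beyond the transfer into `P ⧸ T`).
-/

set_option autoImplicit false
open Cfsg
open scoped Pointwise

namespace H69.ClassP

universe u

variable {G : Type u} [Group G]

/-- `u` is isolated in `P`: its only conjugate in `P` is `u` itself. -/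
def Iso (P : Subgroup G) (u : G) : Prop := ∀ g : G, g⁻¹ * u * g ∈ P → g⁻¹ * u * g = u

theorem iso_pow [Finite G] {p : ℕ} [Fact p.Prime] (P : Sylow p G) {u : G} (hu : u ∈ (P : Subgroup G))
    (hiso : Iso (P : Subgroup G) u) (k : ℕ) : Iso (P : Subgroup G) (u ^ k) := by
  intro g hg
  set w' := g⁻¹ * u ^ k * g with hw'
  set C := Subgroup.centralizer ({w'} : Set G) with hC
  have hcent : ∀ x ∈ (P : Subgroup G), x * u = u * x := by
    intro x hx
    have h1 := hiso x⁻¹ (by
      rw [inv_inv]
      exact mul_mem (mul_mem hx hu) (inv_mem hx))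
    rw [inv_inv] at h1
    calc x * u = (x * u * x⁻¹) * x := by group
      _ = u * x := by rw [h1]
  have huC : u ∈ C := by
    rw [hC, Subgroup.mem_centralizer_singleton_iff]
    exact (hcent w' hg).symm
  have hugC : g⁻¹ * u * g ∈ C := by
    rw [hC, Subgroup.mem_centralizer_singleton_iff, hw']
    have : g⁻¹ * u * g * (g⁻¹ * u ^ k * g) = g⁻¹ * (u * u ^ k) * g := by group
    rw [this, ← pow_succ', pow_succ]
    group
  -- Sylow subgroup of C containing u
  have hup : IsPGroup p (Subgroup.zpowers u) :=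
    P.2.to_le (by rw [Subgroup.zpowers_le]; exact hu)
  have hugp : IsPGroup p (Subgroup.zpowers (g⁻¹ * u * g)) := by
    intro x
    obtain ⟨x, hx⟩ := x
    obtain ⟨j, rfl⟩ := Subgroup.mem_zpowers_iff.1 hx
    obtain ⟨m, hm⟩ := P.2 ⟨u, hu⟩
    refine ⟨m, ?_⟩
    have hm' : u ^ p ^ m = 1 := by
      have := congrArg Subtype.val hm
      simpa using this
    apply Subtype.ext
    change ((g⁻¹ * u * g) ^ j) ^ p ^ m = 1
    have h2 : g⁻¹ * u * g = g⁻¹ * u * (g⁻¹)⁻¹ := by rw [inv_inv]
    rw [h2, ← zpow_natCast, ← zpow_mul, mul_comm, zpow_mul, zpow_natCast, conj_pow, hm']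
    simp
  have hpC1 : IsPGroup p (Subgroup.zpowers (⟨u, huC⟩ : C)) := by
    intro x
    obtain ⟨x, hx⟩ := x
    obtain ⟨j, rfl⟩ := Subgroup.mem_zpowers_iff.1 hx
    obtain ⟨m, hm⟩ := hup ⟨u ^ j, Subgroup.mem_zpowers_iff.2 ⟨j, rfl⟩⟩
    refine ⟨m, ?_⟩
    apply Subtype.ext
    apply Subtype.ext
    have := congrArg Subtype.val hm
    simpa using this
  have hpC2 : IsPGroup p (Subgroup.zpowers (⟨g⁻¹ * u * g, hugC⟩ : C)) := by
    intro x
    obtain ⟨x, hx⟩ := x
    obtain ⟨j, rfl⟩ := Subgroup.mem_zpowers_iff.1 hx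
    obtain ⟨m, hm⟩ := hugp ⟨(g⁻¹ * u * g) ^ j, Subgroup.mem_zpowers_iff.2 ⟨j, rfl⟩⟩
    refine ⟨m, ?_⟩
    apply Subtype.ext
    apply Subtype.ext
    have := congrArg Subtype.val hm
    simpa using this
  obtain ⟨S, hS⟩ := hpC1.exists_le_sylow
  obtain ⟨S', hS'⟩ := hpC2.exists_le_sylow
  obtain ⟨c, hc⟩ := MulAction.exists_smul_eq C S' S
  have hSp : IsPGroup p ((S : Subgroup C).map C.subtype) := S.2.map _
  obtain ⟨P', hP'⟩ := hSp.exists_le_sylow
  obtain ⟨h, hh⟩ := MulAction.exists_smul_eq G P P'
  have hmemP' : ∀ x : G, x ∈ (P' : Subgroup G) → h⁻¹ * x * h ∈ (P : Subgroup G) := by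
    intro x hx
    rw [← hh] at hx
    have hx' : x ∈ (MulAut.conj h • (P : Subgroup G)) := hx
    rw [Subgroup.mem_pointwise_smul_iff_inv_smul_mem] at hx'
    simpa [MulAut.smul_def, MulAut.conj_inv_apply] using hx'
  have h1 : u ∈ (P' : Subgroup G) := by
    apply hP'
    refine ⟨⟨u, huC⟩, hS (Subgroup.mem_zpowers _), rfl⟩
  have h2 : (c : G) * (g⁻¹ * u * g) * (c : G)⁻¹ ∈ (P' : Subgroup G) := by
    apply hP'
    refine ⟨c * ⟨g⁻¹ * u * g, hugC⟩ * c⁻¹, ?_, rfl⟩
    have h3 : (c • S' : Sylow p C) = S := hc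
    have h4 : c * ⟨g⁻¹ * u * g, hugC⟩ * c⁻¹ ∈ ((c • S' : Sylow p C) : Subgroup C) := by
      change _ ∈ MulAut.conj c • (S' : Subgroup C)
      rw [Subgroup.mem_pointwise_smul_iff_inv_smul_mem]
      have : (MulAut.conj c)⁻¹ • (c * (⟨g⁻¹ * u * g, hugC⟩ : C) * c⁻¹) = (⟨g⁻¹ * u * g, hugC⟩ : C) := by
        rw [MulAut.smul_def, MulAut.conj_inv_apply]; group
      rw [this]
      exact hS' (Subgroup.mem_zpowers _)
    rw [h3] at h4
    exact h4
  have h5 := hiso h (hmemP' u h1)
  have h6 := hiso (g * (c : G)⁻¹ * h) (by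
    have := hmemP' _ h2
    have e : (g * (c : G)⁻¹ * h)⁻¹ * u * (g * (c : G)⁻¹ * h) = h⁻¹ * ((c : G) * (g⁻¹ * u * g) * (c : G)⁻¹) * h := by
      group
    rw [e]; exact this)
  have h7 : (c : G) * (g⁻¹ * u * g) * (c : G)⁻¹ = u := by
    have e : (g * (c : G)⁻¹ * h)⁻¹ * u * (g * (c : G)⁻¹ * h) = h⁻¹ * ((c : G) * (g⁻¹ * u * g) * (c : G)⁻¹) * h := by
      group
    rw [e] at h6
    have : h⁻¹ * ((c : G) * (g⁻¹ * u * g) * (c : G)⁻¹) * h = h⁻¹ * u * h := by rw [h6, h5]
    exact mul_left_cancel (mul_right_cancel this)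
  have h8 : (c : G) * w' * (c : G)⁻¹ = u ^ k := by
    have : (c : G) * w' * (c : G)⁻¹ = ((c : G) * (g⁻¹ * u * g) * (c : G)⁻¹) ^ k := by
      rw [hw', conj_pow]
      have : (g⁻¹ * u * g) ^ k = g⁻¹ * u ^ k * g := by
        have e : g⁻¹ * u * g = g⁻¹ * u * (g⁻¹)⁻¹ := by rw [inv_inv]
        rw [e, conj_pow, inv_inv]
      rw [this]
    rw [this, h7]
  have h9 : (c : G) * w' = w' * (c : G) := Subgroup.mem_centralizer_singleton_iff.1 c.2
  rw [h9] at h8
  rw [← h8]; group

/-- transfer into `P ⧸ T` is nontrivial at an isolated element outside `T`. -/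
theorem exists_hom [Finite G] {p : ℕ} [Fact p.Prime] (P : Sylow p G) {u : G} (hu : u ∈ (P : Subgroup G))
    (hiso : Iso (P : Subgroup G) u) (T : Subgroup P) (hT : T.index = p)
    (huT : (⟨u, hu⟩ : P) ∉ T) : ∃ (A : Type u) (_ : CommGroup A) (f : G →* A), Nat.card A = p ∧ f u ≠ 1 := by
  classical
  have hp : p.Prime := Fact.out
  have hTn : T.Normal := by
    apply Subgroup.normal_of_index_eq_minFac_card
    rw [hT]
    obtain ⟨n, hn⟩ := IsPGroup.iff_card.1 P.2
    rw [hn]
    have hn0 : n ≠ 0 := by
      rintro rfl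
      have h1 : Nat.card P = 1 := by rw [hn, pow_zero]
      have h2 := T.index_dvd_card
      rw [h1, hT] at h2
      exact hp.one_lt.ne' (Nat.dvd_one.1 h2)
    exact (Nat.Prime.pow_minFac hp hn0).symm
  have hcard : Nat.card (P ⧸ T) = p := by rw [← Subgroup.index_eq_card, hT]
  have : IsCyclic (P ⧸ T) := isCyclic_of_prime_card hcard
  let _i : CommGroup (P ⧸ T) := IsCyclic.commGroup
  refine ⟨P ⧸ T, inferInstance, MonoidHom.transfer (QuotientGroup.mk' T), hcard, ?_⟩
  rw [MonoidHom.transfer_eq_pow (QuotientGroup.mk' T) u]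
  · intro h1
    have h2 : (⟨u, hu⟩ : P) ^ (P : Subgroup G).index ∈ T := by
      rw [← QuotientGroup.eq_one_iff]
      exact h1
    have h3 : (QuotientGroup.mk' T ⟨u, hu⟩) ^ (P : Subgroup G).index = 1 := by
      rw [← map_pow]; exact h1
    have h4 : (QuotientGroup.mk' T ⟨u, hu⟩) ^ p = 1 := by
      have h5 : (QuotientGroup.mk' T ⟨u, hu⟩) ^ Nat.card (P ⧸ T) = 1 := pow_card_eq_one'
      have hd := orderOf_dvd_of_pow_eq_one h5
      exact orderOf_dvd_iff_pow_eq_one.1 (dvd_trans hd (dvd_of_eq hcard))
    have h5 : Nat.Coprime ((P : Subgroup G).index) p :=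
      ((Nat.Prime.coprime_iff_not_dvd hp).2 P.not_dvd_index).symm
    have h6 : orderOf (QuotientGroup.mk' T ⟨u, hu⟩) = 1 := by
      apply Nat.dvd_one.1
      rw [← h5]
      exact Nat.dvd_gcd (orderOf_dvd_of_pow_eq_one h3) (orderOf_dvd_of_pow_eq_one h4)
    rw [orderOf_eq_one_iff] at h6
    exact huT ((QuotientGroup.eq_one_iff _).1 h6)
  · intro k g hg
    exact iso_pow P hu hiso k g hg

/-- the `p`-elements of `G` -/
abbrev PElt (p : ℕ) (G : Type u) [Group G] : Type u := {u : G // ∃ k : ℕ, u ^ p ^ k = 1}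

instance (p : ℕ) : MulAction G (PElt p G) where
  smul g u := ⟨g * u.1 * g⁻¹, by
    obtain ⟨k, hk⟩ := u.2
    exact ⟨k, by rw [conj_pow, hk]; simp⟩⟩
  one_smul u := Subtype.ext (by change 1 * u.1 * 1⁻¹ = u.1; simp)
  mul_smul a b u := Subtype.ext (by
    change a * b * u.1 * (a * b)⁻¹ = a * (b * u.1 * b⁻¹) * a⁻¹
    group)

theorem smul_val (p : ℕ) (g : G) (u : PElt p G) : (g • u).1 = g * u.1 * g⁻¹ := rfl

theorem pow_of_mem {p : ℕ} {P : Subgroup G} (hP : IsPGroup p P) {x : G} (hx : x ∈ P) :
    ∃ k : ℕ, x ^ p ^ k = 1 := by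
  obtain ⟨k, hk⟩ := hP ⟨x, hx⟩
  refine ⟨k, ?_⟩
  have := congrArg Subtype.val hk
  simpa using this

/-- centralizers contain a `p`-subgroup of index at most `p` in a Sylow subgroup. -/
theorem exists_index_le [Finite G] {p : ℕ} [Fact p.Prime] (x : G)
    (h : ¬ p ^ 2 ∣ (Subgroup.centralizer ({x} : Set G)).index) :
    ∃ (Q : Subgroup G) (P : Sylow p G), Q ≤ (P : Subgroup G) ∧ Q ≤ Subgroup.centralizer ({x} : Set G) ∧
      (Nat.card P ∣ p * Nat.card Q) := by
  have hp : p.Prime := Fact.out
  set C := Subgroup.centralizer ({x} : Set G) with hC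
  obtain ⟨R⟩ : Nonempty (Sylow p C) := inferInstance
  have hQp : IsPGroup p ((R : Subgroup C).map C.subtype) := R.2.map _
  obtain ⟨P, hP⟩ := hQp.exists_le_sylow
  refine ⟨(R : Subgroup C).map C.subtype, P, hP, Subgroup.map_subtype_le _, ?_⟩
  have h1 : Nat.card ((R : Subgroup C).map C.subtype) = Nat.card R :=
    Subgroup.card_map_of_injective C.subtype_injective
  rw [h1, R.card_eq_multiplicity, P.card_eq_multiplicity, ← pow_succ']
  apply pow_dvd_pow
  have h2 : Nat.card G = Nat.card C * C.index := (Subgroup.card_mul_index C).symm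
  have h3 : C.index ≠ 0 := Subgroup.index_ne_zero_of_finite
  rw [h2, Nat.factorization_mul Nat.card_pos.ne' h3]
  have h4 : (C.index).factorization p ≤ 1 := by
    by_contra hlt
    push Not at hlt
    exact h (dvd_trans (pow_dvd_pow p hlt) (Nat.ordProj_dvd _ _))
  simp only [Finsupp.coe_add, Pi.add_apply]
  omega

/-- if each nontrivial class of `p`-elements meets `P` in at least `p` elements and all centralizers
contain a large `p`-subgroup then contradiction. -/
theorem exists_small_class [Finite G] {p : ℕ} [Fact p.Prime] (P : Sylow p G) (hpG : p ∣ Nat.card G)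
    (h : ∀ x : G, ¬ p ^ 2 ∣ (Subgroup.centralizer ({x} : Set G)).index) :
    ∃ u : G, u ∈ (P : Subgroup G) ∧ u ≠ 1 ∧
      Nat.card {v : G // v ∈ (P : Subgroup G) ∧ ∃ g : G, g * u * g⁻¹ = v} < p := by
  classical
  have hp : p.Prime := Fact.out
  have := Fintype.ofFinite G
  have := Fintype.ofFinite (PElt p G)
  by_contra hcon
  push Not at hcon
  let Ω := Quotient (MulAction.orbitRel G (PElt p G))
  have : Fintype Ω := Fintype.ofFinite Ω
  have hB := MulAction.sum_card_fixedBy_eq_card_orbits_mul_card_group G (PElt p G)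
  -- lower bound for fixed points
  obtain ⟨a, ha⟩ := IsPGroup.iff_card.1 P.2
  have ha0 : a ≠ 0 := by
    rintro rfl
    have h1 : Nat.card P = 1 := by rw [ha, pow_zero]
    have h2 := P.dvd_card_of_dvd_card hpG
    rw [h1] at h2
    exact hp.one_lt.ne' (Nat.dvd_one.1 h2)
  have hfix : ∀ g : G, p ^ (a - 1) ≤ Fintype.card (MulAction.fixedBy (PElt p G) g) := by
    intro g
    obtain ⟨Q, P', hQP, hQC, hcard⟩ := exists_index_le (p := p) g (h g)
    have hPP : Nat.card P' = Nat.card P := by rw [P'.card_eq_multiplicity, P.card_eq_multiplicity]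
    rw [hPP, ha] at hcard
    have h1 : p ^ (a - 1) ∣ Nat.card Q := by
      have : p ^ a = p * p ^ (a - 1) := by rw [← pow_succ']; congr 1; omega
      rw [this] at hcard
      exact Nat.dvd_of_mul_dvd_mul_left hp.pos hcard
    have h2 : Nat.card Q ≤ Nat.card (MulAction.fixedBy (PElt p G) g) := by
      let f : Q → MulAction.fixedBy (PElt p G) g := fun x => ⟨⟨x.1, pow_of_mem P'.2 (hQP x.2)⟩, by
        rw [MulAction.mem_fixedBy]
        apply Subtype.ext
        rw [smul_val]
        have := Subgroup.mem_centralizer_singleton_iff.1 (hQC x.2)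
        change g * x.1 * g⁻¹ = x.1
        rw [← this]; group⟩
      apply Nat.card_le_card_of_injective f
      intro x y hxy
      have := congrArg (fun z => z.1.1) hxy
      exact Subtype.ext this
    rw [← Nat.card_eq_fintype_card]
    exact le_trans (Nat.le_of_dvd Nat.card_pos h1) h2
  have hfix1 : p ^ a ≤ Fintype.card (MulAction.fixedBy (PElt p G) (1 : G)) := by
    rw [← ha, ← Nat.card_eq_fintype_card]
    let f : P → MulAction.fixedBy (PElt p G) (1 : G) := fun x => ⟨⟨x.1, pow_of_mem P.2 x.2⟩, by
        rw [MulAction.mem_fixedBy, one_smul]⟩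
    apply Nat.card_le_card_of_injective f
    intro x y hxy
    have := congrArg (fun z => z.1.1) hxy
    exact Subtype.ext this
  have hsum : p ^ (a - 1) * Fintype.card G < ∑ g : G, Fintype.card (MulAction.fixedBy (PElt p G) g) := by
    have h1 : p ^ (a - 1) * Fintype.card G = ∑ _g : G, p ^ (a - 1) := by
      rw [Finset.sum_const, Finset.card_univ, smul_eq_mul, mul_comm]
    rw [h1]
    apply Finset.sum_lt_sum (fun g _ => hfix g)
    refine ⟨1, Finset.mem_univ _, lt_of_lt_of_le ?_ hfix1⟩
    exact Nat.pow_lt_pow_right hp.one_lt (by omega)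
  rw [hB] at hsum
  have hΩ : p ^ (a - 1) < Fintype.card Ω := Nat.lt_of_mul_lt_mul_right hsum
  -- fibres
  let f : P → Ω := fun x => Quotient.mk _ (⟨x.1, pow_of_mem P.2 x.2⟩ : PElt p G)
  have hfib : ∀ o : Ω, (o = f 1 → 1 ≤ (Finset.univ.filter (fun x : P => f x = o)).card) ∧
      (o ≠ f 1 → p ≤ (Finset.univ.filter (fun x : P => f x = o)).card) := by
    intro o
    constructor
    · intro ho
      apply Finset.card_pos.2
      exact ⟨1, by rw [Finset.mem_filter]; exact ⟨Finset.mem_univ _, ho.symm⟩⟩
    · intro ho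
      -- representative in P
      obtain ⟨w, rfl⟩ := Quotient.exists_rep o
      obtain ⟨k, hk⟩ := w.2
      have hwp : IsPGroup p (Subgroup.zpowers w.1) := by
        intro x
        obtain ⟨x, hx⟩ := x
        obtain ⟨j, rfl⟩ := Subgroup.mem_zpowers_iff.1 hx
        refine ⟨k, ?_⟩
        apply Subtype.ext
        change (w.1 ^ j) ^ p ^ k = 1
        rw [← zpow_natCast, ← zpow_mul, mul_comm, zpow_mul, zpow_natCast, hk, one_zpow]
      obtain ⟨P', hP'⟩ := hwp.exists_le_sylow
      obtain ⟨c, hc⟩ := MulAction.exists_smul_eq G P' P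
      have hmem : c * w.1 * c⁻¹ ∈ (P : Subgroup G) := by
        rw [← hc]
        change _ ∈ MulAut.conj c • (P' : Subgroup G)
        rw [Subgroup.mem_pointwise_smul_iff_inv_smul_mem]
        have : (MulAut.conj c)⁻¹ • (c * w.1 * c⁻¹) = w.1 := by
          rw [MulAut.smul_def, MulAut.conj_inv_apply]; group
        rw [this]
        exact hP' (Subgroup.mem_zpowers _)
      have hne : c * w.1 * c⁻¹ ≠ 1 := by
        intro h1
        apply ho
        have hw1 : w.1 = 1 := by
          have : w.1 = c⁻¹ * (c * w.1 * c⁻¹) * c := by group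
          rw [this, h1]; simp
        change Quotient.mk _ w = Quotient.mk _ _
        congr 1
        apply Subtype.ext
        rw [hw1]; rfl
      have hle := hcon (c * w.1 * c⁻¹) hmem hne
      refine le_trans hle ?_
      rw [← Fintype.card_coe, ← Nat.card_eq_fintype_card]
      let e : {v : G // v ∈ (P : Subgroup G) ∧ ∃ g : G, g * (c * w.1 * c⁻¹) * g⁻¹ = v} →
          ((Finset.univ.filter (fun x : P => f x = Quotient.mk _ w) : Finset P) : Type _) := fun v =>
        ⟨⟨v.1, v.2.1⟩, by
          rw [Finset.mem_filter]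
          refine ⟨Finset.mem_univ _, ?_⟩
          obtain ⟨g, hg⟩ := v.2.2
          apply Quotient.sound
          change MulAction.orbitRel G (PElt p G) _ _
          rw [MulAction.orbitRel_apply]
          refine ⟨g * c, ?_⟩
          apply Subtype.ext
          change (g * c) * w.1 * (g * c)⁻¹ = v.1
          rw [← hg]; group⟩
      apply Nat.card_le_card_of_injective e
      intro x y hxy
      have := congrArg (fun z => z.1.1) hxy
      exact Subtype.ext this
  have hcardP : Nat.card P = ∑ o : Ω, (Finset.univ.filter (fun x : P => f x = o)).card := by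
    rw [Nat.card_eq_fintype_card, ← Finset.card_univ]
    exact Finset.card_eq_sum_card_fiberwise (fun x _ => Finset.mem_univ (f x))
  have hlow : p * (Fintype.card Ω - 1) + 1 ≤ Nat.card P := by
    rw [hcardP, ← Finset.add_sum_erase _ _ (Finset.mem_univ (f 1)), add_comm]
    apply add_le_add ((hfib (f 1)).1 rfl)
    have h1 : p * (Fintype.card Ω - 1) = ∑ _o ∈ (Finset.univ : Finset Ω).erase (f 1), p := by
      rw [Finset.sum_const, smul_eq_mul, Finset.card_erase_of_mem (Finset.mem_univ _), Finset.card_univ, mul_comm]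
    rw [h1]
    apply Finset.sum_le_sum
    intro o ho
    exact (hfib o).2 (Finset.ne_of_mem_erase ho)
  have h5 : p ^ a = p * p ^ (a - 1) := by rw [← pow_succ']; congr 1; omega
  rw [ha, h5] at hlow
  have h6 : p ^ (a - 1) ≤ Fintype.card Ω - 1 := by omega
  have h7 : p * p ^ (a - 1) ≤ p * (Fintype.card Ω - 1) := Nat.mul_le_mul_left _ h6
  omega

/-- an isolated nontrivial element exists. -/
theorem exists_isolated [Finite G] {p : ℕ} [Fact p.Prime] (P : Sylow p G) (hpG : p ∣ Nat.card G)
    (hmin : ∀ r : ℕ, r.Prime → r ∣ Nat.card G → p ≤ r)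
    (h : ∀ x : G, ¬ p ^ 2 ∣ (Subgroup.centralizer ({x} : Set G)).index) :
    ∃ u : G, u ∈ (P : Subgroup G) ∧ u ≠ 1 ∧ Iso (P : Subgroup G) u := by
  classical
  have hp : p.Prime := Fact.out
  obtain ⟨u, huP, hu1, hcard⟩ := exists_small_class P hpG h
  refine ⟨u, huP, hu1, ?_⟩
  -- subgroup version: classes inside a subgroup L ≥ P
  have key : ∀ (L : Subgroup G) (v : G) (hvL : v ∈ L), v ∈ (P : Subgroup G) →
      (∃ g : G, g * u * g⁻¹ = v) → (∀ l ∈ L, l * v * l⁻¹ ∈ (P : Subgroup G)) →
      ∀ l ∈ L, l * v * l⁻¹ = v := by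
    intro L v hvL hvP hv hL
    have h1 : (Subgroup.centralizer ({(⟨v, hvL⟩ : L)} : Set L)).index < p := by
      refine lt_of_le_of_lt ?_ hcard
      rw [H72.ClassSize.index_eq_card_conj]
      let e : {y : L // ∃ g : L, g * ⟨v, hvL⟩ * g⁻¹ = y} →
          {w : G // w ∈ (P : Subgroup G) ∧ ∃ g : G, g * u * g⁻¹ = w} := fun y =>
        ⟨y.1.1, by
          obtain ⟨g, hg⟩ := y.2
          obtain ⟨g₀, hg₀⟩ := hv
          have hg' : (g : G) * v * (g : G)⁻¹ = y.1.1 := congrArg Subtype.val hg
          refine ⟨?_, g * g₀, ?_⟩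
          · rw [← hg']; exact hL g g.2
          · rw [← hg', ← hg₀]; group⟩
      apply Nat.card_le_card_of_injective e
      intro x y hxy
      have := congrArg (fun z => z.1) hxy
      exact Subtype.ext (Subtype.ext this)
    have h2 : (Subgroup.centralizer ({(⟨v, hvL⟩ : L)} : Set L)).index = 1 := by
      by_contra hne
      obtain ⟨r, hr, hrd⟩ := Nat.exists_prime_and_dvd hne
      have hr2 : r ∣ Nat.card G :=
        dvd_trans hrd (dvd_trans (Subgroup.index_dvd_card _) (Subgroup.card_subgroup_dvd_card L))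
      have hr3 := hmin r hr hr2
      have hr4 : r ≤ (Subgroup.centralizer ({(⟨v, hvL⟩ : L)} : Set L)).index :=
        Nat.le_of_dvd (Nat.pos_of_ne_zero Subgroup.index_ne_zero_of_finite) hrd
      omega
    rw [H72.ClassSize.index_eq_one_iff, Subgroup.mem_center_iff] at h2
    intro l hl
    have := congrArg Subtype.val (h2 ⟨l, hl⟩)
    simp only [Subgroup.coe_mul] at this
    rw [this]; group
  have hcent : ∀ v ∈ (P : Subgroup G), (∃ g : G, g * u * g⁻¹ = v) → v ∈ Subgroup.centralizer ((P : Subgroup G) : Set G) := by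
    intro v hv hg
    rw [Subgroup.mem_centralizer_iff]
    intro l hl
    have := key (P : Subgroup G) v hv hv hg (fun l hl => mul_mem (mul_mem hl hv) (inv_mem hl)) l hl
    calc l * v = (l * v * l⁻¹) * l := by group
      _ = v * l := by rw [this]
  intro g hg
  have hug : u ∈ Subgroup.centralizer ((P : Subgroup G) : Set G) := hcent u huP ⟨1, by simp⟩
  have hvg : g⁻¹ * u * g ∈ Subgroup.centralizer ((P : Subgroup G) : Set G) := hcent _ hg ⟨g⁻¹, by group⟩
  obtain ⟨n, hn, hne⟩ := P.conj_eq_normalizer_conj_of_mem_centralizer u g hug hvg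
  rw [hne]
  have h3 := key (Subgroup.normalizer ((P : Subgroup G) : Set G)) u (Subgroup.le_normalizer huP) huP ⟨1, by simp⟩
    (fun l hl => (Subgroup.mem_normalizer_iff.1 hl u).1 huP) n⁻¹ (inv_mem hn)
  rw [inv_inv] at h3
  exact h3

/-- A simple group with these properties is cyclic of order `p` or has trivial... -/
theorem simple_false [Finite G] {p : ℕ} [Fact p.Prime] (hs : IsSimpleGroup G) (hpG : p ∣ Nat.card G)
    (hmin : ∀ r : ℕ, r.Prime → r ∣ Nat.card G → p ≤ r)
    (h : ∀ x : G, ¬ p ^ 2 ∣ (Subgroup.centralizer ({x} : Set G)).index) : HasNormalPComplement p G := by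
  classical
  have hp : p.Prime := Fact.out
  obtain ⟨P⟩ : Nonempty (Sylow p G) := inferInstance
  obtain ⟨u, huP, hu1, hiso⟩ := exists_isolated P hpG hmin h
  by_cases hall : ∀ x : G, ∃ g : G, g * x * g⁻¹ ∈ Subgroup.centralizer ({u} : Set G)
  · -- u central
    have h1 := H72.ClassSize.eq_top_of_forall_conj_mem _ hall
    have h2 : u ∈ Subgroup.center G := by
      rw [Subgroup.mem_center_iff]
      intro g
      have : g ∈ Subgroup.centralizer ({u} : Set G) := by rw [h1]; trivial
      exact Subgroup.mem_centralizer_singleton_iff.1 this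
    have h3 : Subgroup.center G = ⊤ := by
      rcases hs.eq_bot_or_eq_top_of_normal (Subgroup.center G) inferInstance with h4 | h4
      · rw [h4, Subgroup.mem_bot] at h2
        exact absurd h2 hu1
      · exact h4
    have hPn : (P : Subgroup G).Normal := by
      constructor
      intro n hn g
      have : n * g = g * n := by
        have := Subgroup.mem_center_iff.1 (show n ∈ Subgroup.center G by rw [h3]; trivial) g
        exact this.symm
      rw [← this]; simpa using hn
    have hPtop : (P : Subgroup G) = ⊤ := by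
      rcases hs.eq_bot_or_eq_top_of_normal (P : Subgroup G) hPn with h4 | h4
      · exact absurd h4 (P.ne_bot_of_dvd_card hpG)
      · exact h4
    obtain ⟨k, hk⟩ := IsPGroup.iff_card.1 P.2
    apply H2.NPC.of_card_index (⊥ : Subgroup G) (k := k)
    · rw [Subgroup.card_bot]; exact hp.one_lt.ne' ∘ Nat.dvd_one.1
    · rw [Subgroup.index_bot, ← hk, hPtop, Subgroup.card_top]
  · push Not at hall
    obtain ⟨x, hx⟩ := hall
    obtain ⟨Q, P', hQP, hQC, hcard⟩ := exists_index_le (p := p) x (h x)
    obtain ⟨c, hc⟩ := MulAction.exists_smul_eq G P' P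
    have hmem : ∀ y : G, y ∈ (P' : Subgroup G) ↔ c * y * c⁻¹ ∈ (P : Subgroup G) := by
      intro y
      rw [← hc]
      change _ ↔ _ ∈ MulAut.conj c • (P' : Subgroup G)
      rw [Subgroup.mem_pointwise_smul_iff_inv_smul_mem]
      have : (MulAut.conj c)⁻¹ • (c * y * c⁻¹) = y := by
        rw [MulAut.smul_def, MulAut.conj_inv_apply]; group
      rw [this]
    -- T = conj of Q in P
    let T0 : Subgroup G := Q.map (MulAut.conj c).toMonoidHom
    have hT0 : T0 ≤ (P : Subgroup G) := by
      rintro _ ⟨y, hy, rfl⟩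
      exact (hmem y).1 (hQP hy)
    have huT0 : u ∉ T0 := by
      rintro ⟨y, hy, hyu⟩
      have hyu' : c * y * c⁻¹ = u := hyu
      apply hx c
      rw [Subgroup.mem_centralizer_singleton_iff]
      have h1 : y * x = x * y := Subgroup.mem_centralizer_singleton_iff.1 (hQC hy)
      rw [← hyu']
      calc c * x * c⁻¹ * (c * y * c⁻¹) = c * (x * y) * c⁻¹ := by group
        _ = c * (y * x) * c⁻¹ := by rw [h1]
        _ = c * y * c⁻¹ * (c * x * c⁻¹) := by group
    let T : Subgroup P := T0.subgroupOf P
    have huT : (⟨u, huP⟩ : P) ∉ T := by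
      intro hmem'
      exact huT0 (Subgroup.mem_subgroupOf.1 hmem')
    have hcT : Nat.card T = Nat.card Q := by
      have h1 : Nat.card T = Nat.card T0 := Nat.card_congr (Subgroup.subgroupOfEquivOfLe hT0).toEquiv
      rw [h1]
      exact Subgroup.card_map_of_injective (MulAut.conj c).injective
    have hPP : Nat.card P' = Nat.card P := by rw [P'.card_eq_multiplicity, P.card_eq_multiplicity]
    have hTi : T.index = p := by
      have h1 : Nat.card T * T.index = Nat.card P := T.card_mul_index
      have h2 : T.index ∣ p := by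
        rw [hPP, ← h1, hcT, mul_comm p] at hcard
        exact Nat.dvd_of_mul_dvd_mul_left Nat.card_pos hcard
      rcases (Nat.dvd_prime hp).1 h2 with h3 | h3
      · exfalso
        apply huT
        rw [Subgroup.index_eq_one.1 h3]; trivial
      · exact h3
    obtain ⟨A, hA, f, hAc, hfu⟩ := exists_hom P huP hiso T hTi huT
    have hker : f.ker = ⊥ := by
      rcases hs.eq_bot_or_eq_top_of_normal f.ker inferInstance with h4 | h4
      · exact h4
      · exfalso
        apply hfu
        have : u ∈ f.ker := by rw [h4]; trivial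
        exact this
    have hinj : Function.Injective f := (MonoidHom.ker_eq_bot_iff f).1 hker
    have hdvd : Nat.card G ∣ p := by
      rw [← hAc]
      exact Subgroup.card_dvd_of_injective f hinj
    have hGp : Nat.card G = p := by
      rcases (Nat.dvd_prime hp).1 hdvd with h4 | h4
      · rw [h4] at hpG
        exact absurd (Nat.dvd_one.1 hpG) hp.one_lt.ne'
      · exact h4
    apply H2.NPC.of_card_index (⊥ : Subgroup G) (k := 1)
    · rw [Subgroup.card_bot]; exact hp.one_lt.ne' ∘ Nat.dvd_one.1
    · rw [Subgroup.index_bot, hGp, pow_one]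

/-- `x` of order prime to `p`, all whose prime divisors exceed `p`, centralizes a normal
`p`-subgroup `N` whenever `|N : C_N(x)|` divides `p`. -/
theorem commute_of_relIndex [Finite G] {p : ℕ} [Fact p.Prime] (N : Subgroup G) [N.Normal] (hNp : IsPGroup p N)
    (x : G) (hx : ∀ r : ℕ, r.Prime → r ∣ orderOf x → p < r)
    (hidx : (Subgroup.centralizer ({x} : Set G)).relIndex N ∣ p) :
    ∀ y ∈ N, x * y = y * x := by
  classical
  have hp : p.Prime := Fact.out
  set D : Subgroup N := (Subgroup.centralizer ({x} : Set G)).subgroupOf N with hD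
  have hDi : D.index ∣ p := hidx
  have hDx : ∀ d : N, d ∈ D → x * (d : G) = d * x := by
    intro d hd
    have := Subgroup.mem_centralizer_singleton_iff.1 (Subgroup.mem_subgroupOf.1 hd)
    exact this.symm
  rcases (Nat.dvd_prime hp).1 hDi with h1 | h1
  · intro y hy
    have : (⟨y, hy⟩ : N) ∈ D := by rw [Subgroup.index_eq_one.1 h1]; trivial
    exact hDx _ this
  · -- index p
    have hDn : D.Normal := by
      apply Subgroup.normal_of_index_eq_minFac_card
      rw [h1]
      obtain ⟨n, hn⟩ := IsPGroup.iff_card.1 hNp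
      rw [hn]
      have hn0 : n ≠ 0 := by
        rintro rfl
        have h3 := D.index_dvd_card
        rw [hn, pow_zero, h1] at h3
        exact hp.one_lt.ne' (Nat.dvd_one.1 h3)
      exact (Nat.Prime.pow_minFac hp hn0).symm
    have hval : ∀ (k : ℕ) (y : N), (((MulAut.conjNormal x : MulAut N) ^ k) y : G) = x ^ k * y * (x ^ k)⁻¹ := by
      intro k y
      rw [← map_pow, MulAut.conjNormal_apply]
    have hmap : D.map (MulAut.conjNormal x : MulAut N).toMonoidHom = D := by
      ext d
      constructor
      · rintro ⟨e, he, rfl⟩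
        have : (MulAut.conjNormal x : MulAut N).toMonoidHom e = e := by
          apply Subtype.ext
          change ((MulAut.conjNormal x : MulAut N) e : G) = e
          rw [MulAut.conjNormal_apply, hDx e he]; group
        rw [this]; exact he
      · intro hd
        refine ⟨d, hd, ?_⟩
        apply Subtype.ext
        change ((MulAut.conjNormal x : MulAut N) d : G) = d
        rw [MulAut.conjNormal_apply, hDx d hd]; group
    let σ : (N ⧸ D) ≃* (N ⧸ D) := QuotientGroup.congr D D (MulAut.conjNormal x : MulAut N) hmap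
    have hσ : ∀ y : N, σ (QuotientGroup.mk y) = QuotientGroup.mk ((MulAut.conjNormal x : MulAut N) y) := fun y => rfl
    let τ : Equiv.Perm (N ⧸ D) := σ.toEquiv
    have hτ : ∀ (k : ℕ) (y : N), (τ ^ k) (QuotientGroup.mk y) =
        QuotientGroup.mk (((MulAut.conjNormal x : MulAut N) ^ k) y) := by
      intro k
      induction k with
      | zero => intro y; rfl
      | succ k ih =>
        intro y
        rw [pow_succ, Equiv.Perm.mul_apply, pow_succ, MulAut.mul_apply]
        have : τ (QuotientGroup.mk y) = QuotientGroup.mk ((MulAut.conjNormal x : MulAut N) y) := rfl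
        rw [this, ih]
    have hτm : τ ^ orderOf x = 1 := by
      ext q
      obtain ⟨y, rfl⟩ := QuotientGroup.mk_surjective q
      rw [hτ]
      have : ((MulAut.conjNormal x : MulAut N) ^ orderOf x) y = y := by
        apply Subtype.ext
        rw [hval, pow_orderOf_eq_one]; simp
      rw [this]; rfl
    have hcardq : Nat.card (N ⧸ D) = p := by rw [← Subgroup.index_eq_card, h1]
    have hτ1 : τ = 1 := by
      rw [← orderOf_eq_one_iff]
      have h3 : orderOf τ ∣ orderOf x := orderOf_dvd_of_pow_eq_one hτm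
      have h4 : orderOf τ ∣ p.factorial := by
        have := orderOf_dvd_natCard τ
        rw [Nat.card_perm, hcardq] at this
        exact this
      by_contra hne
      obtain ⟨r, hr, hrd⟩ := Nat.exists_prime_and_dvd hne
      have h5 := hx r hr (dvd_trans hrd h3)
      have h6 := (Nat.Prime.dvd_factorial hr).1 (dvd_trans hrd h4)
      omega
    intro y hy
    set y' : N := ⟨y, hy⟩
    have h3 : (QuotientGroup.mk y' : N ⧸ D) = QuotientGroup.mk ((MulAut.conjNormal x : MulAut N) y') := by
      have : τ (QuotientGroup.mk y') = QuotientGroup.mk y' := by rw [hτ1]; rfl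
      rw [← this]; rfl
    rw [QuotientGroup.eq] at h3
    set d : N := y'⁻¹ * (MulAut.conjNormal x : MulAut N) y' with hd
    have hd1 : (d : G) = y⁻¹ * (x * y * x⁻¹) := by
      rw [hd, Subgroup.coe_mul, MulAut.conjNormal_apply]; rfl
    have hdx := hDx d h3
    have hpow : ∀ k : ℕ, x ^ k * y * (x ^ k)⁻¹ = y * (d : G) ^ k := by
      intro k
      induction k with
      | zero => simp
      | succ k ih =>
        have e1 : x ^ (k + 1) * y * (x ^ (k + 1))⁻¹ = x * (x ^ k * y * (x ^ k)⁻¹) * x⁻¹ := by
          rw [pow_succ']; group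
        have hc : x * (d : G) ^ k = (d : G) ^ k * x := (Commute.pow_right (show Commute x (d : G) from hdx) k)
        have e2 : x * y = y * (d : G) * x := by rw [hd1]; group
        rw [e1, ih]
        calc x * (y * (d : G) ^ k) * x⁻¹ = x * y * (d : G) ^ k * x⁻¹ := by group
          _ = y * (d : G) * x * (d : G) ^ k * x⁻¹ := by rw [e2]
          _ = y * (d : G) * (x * (d : G) ^ k) * x⁻¹ := by group
          _ = y * (d : G) * ((d : G) ^ k * x) * x⁻¹ := by rw [hc]
          _ = y * (d : G) ^ (k + 1) := by rw [pow_succ']; group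
    have hdm : (d : G) ^ orderOf x = 1 := by
      have := hpow (orderOf x)
      rw [pow_orderOf_eq_one] at this
      have h7 : y = y * (d : G) ^ orderOf x := by simpa using this
      exact (mul_eq_left.1 h7.symm)
    have hd0 : (d : G) = 1 := by
      obtain ⟨j, hj⟩ := pow_of_mem hNp d.2
      rw [← orderOf_eq_one_iff]
      by_contra hne
      obtain ⟨r, hr, hrd⟩ := Nat.exists_prime_and_dvd hne
      have h8 : r ∣ orderOf x := dvd_trans hrd (orderOf_dvd_of_pow_eq_one hdm)
      have h9 : r ∣ p ^ j := dvd_trans hrd (orderOf_dvd_of_pow_eq_one hj)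
      have h10 := (Nat.prime_dvd_prime_iff_eq hr hp).1 (hr.dvd_of_dvd_pow h9)
      have h11 := hx r hr h8
      omega
    rw [hd1] at hd0
    have h12 : x * y * x⁻¹ = y := by
      have := congrArg (fun z => y * z) hd0
      simpa [mul_assoc] using this
    calc x * y = (x * y * x⁻¹) * x := by group
      _ = y * x := by rw [h12]

/-- the class-size hypothesis. -/
def Hyp (p : ℕ) (G : Type u) [Group G] : Prop :=
  ∀ x : G, ¬ p ^ 2 ∣ (Subgroup.centralizer ({x} : Set G)).index

theorem Hyp.sub [Finite G] {p : ℕ} (h : Hyp p G) (N : Subgroup G) [N.Normal] : Hyp p N := fun x hd =>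
  h (x : G) (dvd_trans hd (H72.ClassSize.index_subgroup_dvd N x))

theorem Hyp.quot {p : ℕ} (h : Hyp p G) (N : Subgroup G) [N.Normal] : Hyp p (G ⧸ N) := by
  intro x hd
  obtain ⟨x, rfl⟩ := QuotientGroup.mk_surjective x
  exact h x (dvd_trans hd (H72.ClassSize.index_quotient_dvd N x))

theorem hasNPC_aux {p : ℕ} [Fact p.Prime] (n : ℕ) : ∀ (G : Type u) [Group G] [Finite G], Nat.card G = n →
    p ∣ Nat.card G → (∀ r : ℕ, r.Prime → r ∣ Nat.card G → p ≤ r) → Hyp p G → HasNormalPComplement p G := by
  induction n using Nat.strong_induction_on with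
  | _ n ih =>
  intro G _ _ hn hpG hmin h
  have hp : p.Prime := Fact.out
  by_cases hs : IsSimpleGroup G
  · exact simple_false hs hpG hmin h
  by_cases hcore : pPrimeCore p G = ⊥
  · -- all proper normal subgroups are p-groups
    have hprop : ∀ M : Subgroup G, M.Normal → M ≠ ⊤ → IsPGroup p M := by
      intro M hM hMt
      by_cases hpM : p ∣ Nat.card M
      · have hlt : Nat.card M < n := by
          rw [← hn]
          exact lt_of_le_of_ne (Nat.le_of_dvd Nat.card_pos (Subgroup.card_subgroup_dvd_card M))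
            (fun e => hMt (Subgroup.eq_top_of_card_eq M e))
        have hNPC := ih _ hlt M rfl hpM
          (fun r hr hrd => hmin r hr (dvd_trans hrd (Subgroup.card_subgroup_dvd_card M))) (Hyp.sub h M)
        rw [H2.NPC.iff_not_dvd_card_residual] at hNPC
        have h1 : ((pResidual p M).map M.subtype).Normal := inferInstance
        have h2 : (pResidual p M).map M.subtype ≤ pPrimeCore p G := by
          apply H1.Cores.le_pPrimeCore h1
          rw [Subgroup.card_map_of_injective M.subtype_injective]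
          exact ((Nat.Prime.coprime_iff_not_dvd hp).2 hNPC).symm
        rw [hcore, le_bot_iff, Subgroup.map_eq_bot_iff_of_injective _ M.subtype_injective] at h2
        obtain ⟨k, hk⟩ := H2.Residual.exists_index_residual (G := M) (p := p)
        rw [h2, Subgroup.index_bot] at hk
        exact IsPGroup.of_card hk
      · have h2 : M ≤ pPrimeCore p G := by
          apply H1.Cores.le_pPrimeCore hM
          exact ((Nat.Prime.coprime_iff_not_dvd hp).2 hpM).symm
        rw [hcore, le_bot_iff] at h2
        subst h2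
        exact IsPGroup.of_bot
    have hnt : Nontrivial G := by
      rw [← Finite.one_lt_card_iff_nontrivial]
      exact lt_of_lt_of_le hp.one_lt (Nat.le_of_dvd Nat.card_pos hpG)
    have hex : ∃ N : Subgroup G, N.Normal ∧ N ≠ ⊥ ∧ N ≠ ⊤ := by
      by_contra hcon
      push Not at hcon
      apply hs
      refine { eq_bot_or_eq_top_of_normal := ?_ }
      intro N hN
      by_cases hNb : N = ⊥
      · exact Or.inl hNb
      · exact Or.inr (hcon N hN hNb)
    obtain ⟨N, hN, hNb, hNt⟩ := hex
    have hNp := hprop N hN hNt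
    by_cases hq : p ∣ Nat.card (G ⧸ N)
    · have hlt : Nat.card (G ⧸ N) < n := by
        rw [← hn, Subgroup.card_eq_card_quotient_mul_card_subgroup N]
        have : 1 < Nat.card N := by
          rw [Finite.one_lt_card_iff_nontrivial]
          exact (Subgroup.nontrivial_iff_ne_bot N).2 hNb
        exact lt_mul_of_one_lt_right Nat.card_pos this
      have hNPC := ih _ hlt (G ⧸ N) rfl hq
        (fun r hr hrd => hmin r hr (dvd_trans hrd (Subgroup.card_quotient_dvd_card N))) (Hyp.quot h N)
      rw [H2.NPC.iff_not_dvd_card_residual] at hNPC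
      obtain ⟨k, hk⟩ := H2.Residual.exists_index_residual (G := G ⧸ N) (p := p)
      set K := (pResidual p (G ⧸ N)).comap (QuotientGroup.mk' N) with hK
      have hKn : K.Normal := inferInstance
      have hKi : K.index = p ^ k := by
        rw [hK, Subgroup.index_comap_of_surjective _ (QuotientGroup.mk'_surjective N), hk]
      have hKc := H2.NPC.card_comap_mk N (pResidual p (G ⧸ N))
      by_cases hKt : K = ⊤
      · exfalso
        apply hNPC
        have h3 : pResidual p (G ⧸ N) = ⊤ := by
          rw [eq_top_iff]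
          intro q _
          obtain ⟨g, rfl⟩ := QuotientGroup.mk_surjective q
          have : g ∈ K := by rw [hKt]; trivial
          exact this
        rw [h3, Subgroup.card_top]; exact hq
      · have hKp := hprop K hKn hKt
        obtain ⟨m, hm⟩ := IsPGroup.iff_card.1 hKp
        have hG : IsPGroup p G := by
          apply IsPGroup.of_card (n := m + k)
          rw [← Subgroup.card_mul_index K, hm, hKi, pow_add]
        obtain ⟨a, ha⟩ := IsPGroup.iff_card.1 hG
        apply H2.NPC.of_card_index (⊥ : Subgroup G) (k := a)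
        · rw [Subgroup.card_bot]; exact hp.one_lt.ne' ∘ Nat.dvd_one.1
        · rw [Subgroup.index_bot, ha]
    · -- N is a normal Sylow subgroup
      obtain ⟨m, hm⟩ := IsPGroup.iff_card.1 hNp
      have hco : Nat.Coprime (Nat.card N) N.index := by
        rw [hm, Subgroup.index_eq_card]
        exact Nat.Coprime.pow_left m ((Nat.Prime.coprime_iff_not_dvd hp).2 hq)
      obtain ⟨K, hK⟩ := Subgroup.exists_right_complement'_of_coprime hco
      have hKc : Nat.card K = N.index := by
        have := hK.symm.index_eq_card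
        exact this.symm
      have hcomm : ∀ k ∈ K, ∀ y ∈ N, k * y = y * k := by
        intro k hk
        apply commute_of_relIndex N hNp k
        · intro r hr hrd
          have h1 : orderOf k ∣ Nat.card K := by
            rw [← Subgroup.orderOf_mk k hk]; exact orderOf_dvd_natCard _
          have h2 : r ∣ N.index := by rw [← hKc]; exact dvd_trans hrd h1
          have h3 := hmin r hr (dvd_trans h2 (Subgroup.index_dvd_card N))
          rcases h3.lt_or_eq with h4 | h4
          · exact h4
          · exfalso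
            rw [← h4, Subgroup.index_eq_card] at h2
            exact hq h2
        · have h1 := H72.ClassSize.relIndex_normal_dvd_index N (Subgroup.centralizer ({k} : Set G))
          have h2 : (Subgroup.centralizer ({k} : Set G)).relIndex N ∣ Nat.card N := Subgroup.relIndex_dvd_card _ _
          rw [hm] at h2
          obtain ⟨j, -, hj⟩ := (Nat.dvd_prime_pow hp).1 h2
          rw [hj] at h1 ⊢
          have : j ≤ 1 := by
            by_contra hlt
            push Not at hlt
            exact h k (dvd_trans (pow_dvd_pow p hlt) h1)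
          calc p ^ j ∣ p ^ 1 := pow_dvd_pow p this
            _ = p := pow_one p
      have hKn : K.Normal := by
        constructor
        intro k hk g
        obtain ⟨⟨a, b⟩, hab⟩ := hK.2 g
        have hab' : (a : G) * (b : G) = g := hab
        rw [← hab']
        have h1 : (b : G) * k * (b : G)⁻¹ ∈ K := mul_mem (mul_mem b.2 hk) (inv_mem b.2)
        have h2 : (a : G) * b * k * ((a : G) * b)⁻¹ = (b : G) * k * (b : G)⁻¹ := by
          have h3 := hcomm _ h1 a a.2
          calc (a : G) * b * k * ((a : G) * b)⁻¹ = a * ((b : G) * k * (b : G)⁻¹) * (a : G)⁻¹ := by group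
            _ = (b : G) * k * (b : G)⁻¹ * a * (a : G)⁻¹ := by rw [h3]
            _ = (b : G) * k * (b : G)⁻¹ := by group
        rw [h2]; exact h1
      have hKi : K.index = p ^ m := by
        have := hK.index_eq_card
        rw [this, hm]
      apply H2.NPC.of_card_index K (k := m) _ hKi
      rw [hKc, Subgroup.index_eq_card]; exact hq
  · -- quotient by the p'-core
    have hc := H1.Cores.coprime_card_pPrimeCore (G := G) p
    have hnd : ¬ p ∣ Nat.card (pPrimeCore p G) := (Nat.Prime.coprime_iff_not_dvd hp).1 hc.symm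
    have hN : (pPrimeCore p G).Normal := by
      have := H1.Cores.pPrimeCore_characteristic (G := G) p
      infer_instance
    have hlt : Nat.card (G ⧸ pPrimeCore p G) < n := by
      rw [← hn, Subgroup.card_eq_card_quotient_mul_card_subgroup (pPrimeCore p G)]
      have : 1 < Nat.card (pPrimeCore p G) := by
        rw [Finite.one_lt_card_iff_nontrivial]
        exact (Subgroup.nontrivial_iff_ne_bot _).2 hcore
      exact lt_mul_of_one_lt_right Nat.card_pos this
    have hq : p ∣ Nat.card (G ⧸ pPrimeCore p G) := by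
      rw [Subgroup.card_eq_card_quotient_mul_card_subgroup (pPrimeCore p G)] at hpG
      rcases hp.dvd_mul.1 hpG with h1 | h1
      · exact h1
      · exact absurd h1 hnd
    apply H2.NPC.of_quotient (pPrimeCore p G) hnd
    exact ih _ hlt (G ⧸ pPrimeCore p G) rfl hq
        (fun r hr hrd => hmin r hr (dvd_trans hrd (Subgroup.card_quotient_dvd_card _))) (Hyp.quot h _)

/-- **Main theorem**: smallest prime, no class size divisible by `p ^ 2`, then `p`-nilpotent. -/
theorem hasNPC {G : Type u} [Group G] [Finite G] {p : ℕ} [Fact p.Prime]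
    (hmin : ∀ r : ℕ, r.Prime → r ∣ Nat.card G → p ≤ r) (h : Hyp p G) : HasNormalPComplement p G := by
  by_cases hpG : p ∣ Nat.card G
  · exact hasNPC_aux _ G rfl hpG hmin h
  · apply H2.NPC.of_card_index (⊤ : Subgroup G) (k := 0)
    · rw [Subgroup.card_top]; exact hpG
    · simp

end H69.ClassP
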