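import Cfsg.Agent.Lib.H69.ClassP

set_option autoImplicit false
open Cfsg
open scoped Pointwise

namespace H69.ClassP

universe u

variable {G : Type u} [Group G]

/-- a central element of an abelian Sylow subgroup that lies in the derived group is trivial. -/
theorem eq_one_of_transfer [Finite G] {p : ℕ} [Fact p.Prime] (P : Sylow p G)
    (hab : ∀ a ∈ (P : Subgroup G), ∀ b ∈ (P : Subgroup G), a * b = b * a)
    {t : G} (ht : t ∈ (P : Subgroup G)) (htc : t ∈ Subgroup.center G) (htG : t ∈ commutator G) : t = 1 := by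
  have hp : p.Prime := Fact.out
  let _i : CommGroup P := { (inferInstance : Group P) with
    mul_comm := fun a b => Subtype.ext (hab a a.2 b b.2) }
  have h1 := MonoidHom.transfer_eq_pow (MonoidHom.id P) t (by
    intro k g hg
    have h2 : t ^ k ∈ Subgroup.center G := Subgroup.pow_mem _ htc k
    have h3 : g * t ^ k = t ^ k * g := (Subgroup.mem_center_iff.1 h2 g)
    rw [mul_assoc, ← h3, inv_mul_cancel_left])
  have h2 : MonoidHom.transfer (MonoidHom.id P) t = 1 :=
    Abelianization.commutator_subset_ker _ htG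
  rw [h2] at h1
  have h3 : t ^ (P : Subgroup G).index = 1 := by
    have := congrArg Subtype.val h1
    exact this.symm
  obtain ⟨k, hk⟩ := pow_of_mem P.2 ht
  have h4 : Nat.Coprime ((P : Subgroup G).index) (p ^ k) :=
    Nat.Coprime.pow_right k ((Nat.Prime.coprime_iff_not_dvd hp).2 P.not_dvd_index).symm
  rw [← orderOf_eq_one_iff]
  apply Nat.dvd_one.1
  rw [← h4]
  exact Nat.dvd_gcd (orderOf_dvd_of_pow_eq_one h3) (orderOf_dvd_of_pow_eq_one hk)

theorem card_range_eq_index {P X : Type*} [Group P] (D : Subgroup P) (f : P → X)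
    (h : ∀ x y, f x = f y ↔ x⁻¹ * y ∈ D) : Nat.card (Set.range f) = D.index := by
  rw [Subgroup.index_eq_card]
  symm
  apply Nat.card_congr
  refine Equiv.ofBijective (Quotient.lift (fun x => (⟨f x, x, rfl⟩ : Set.range f)) ?_) ⟨?_, ?_⟩
  · intro a b hab
    apply Subtype.ext
    exact (h a b).2 (QuotientGroup.leftRel_apply.1 hab)
  · intro a b
    refine Quotient.inductionOn₂ a b ?_
    intro x y hxy
    apply Quotient.sound
    change QuotientGroup.leftRel D x y
    rw [QuotientGroup.leftRel_apply]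
    exact (h x y).1 (congrArg Subtype.val hxy)
  · rintro ⟨_, x, rfl⟩
    exact ⟨Quotient.mk _ x, rfl⟩

/-- commutators with `g` -/
def S (P : Subgroup G) (g : G) : Set G := {s | ∃ x ∈ P, x * g * x⁻¹ * g⁻¹ = s}

theorem card_S (P : Subgroup G) (g : G) :
    Nat.card (S P g) = (Subgroup.centralizer ({g} : Set G)).relIndex P := by
  have h1 := card_range_eq_index ((Subgroup.centralizer ({g} : Set G)).subgroupOf P)
    (fun x : P => (x : G) * g * (x : G)⁻¹ * g⁻¹) (by
      intro x y
      rw [Subgroup.mem_subgroupOf, Subgroup.mem_centralizer_singleton_iff]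
      constructor
      · intro e
        have e1 : (x : G) * g * (x : G)⁻¹ = y * g * (y : G)⁻¹ := mul_right_cancel e
        simp only [Subgroup.coe_mul, Subgroup.coe_inv]
        calc (x : G)⁻¹ * y * g = (x : G)⁻¹ * (y * g * (y : G)⁻¹) * y := by group
          _ = (x : G)⁻¹ * (x * g * (x : G)⁻¹) * y := by rw [e1]
          _ = g * ((x : G)⁻¹ * y) := by group
      · intro e
        simp only [Subgroup.coe_mul, Subgroup.coe_inv] at e
        congr 1
        calc (x : G) * g * (x : G)⁻¹ = x * (g * ((x : G)⁻¹ * y)) * (y : G)⁻¹ := by group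
          _ = x * ((x : G)⁻¹ * y * g) * (y : G)⁻¹ := by rw [e]
          _ = y * g * (y : G)⁻¹ := by group)
  rw [Subgroup.relIndex, ← h1]
  congr 2
  ext s
  constructor
  · rintro ⟨x, hx, rfl⟩
    exact ⟨⟨x, hx⟩, rfl⟩
  · rintro ⟨x, rfl⟩
    exact ⟨x, x.2, rfl⟩

theorem exists_mul [Finite G] {p : ℕ} [Fact p.Prime] (P A B : Subgroup G) (hP : IsPGroup p P)
    (hB : B ≤ P) (hAi : A.relIndex P = p) (hBA : ¬ B ≤ A) :
    ∀ z ∈ P, ∃ x ∈ A, x ∈ P ∧ ∃ d ∈ B, x * d = z := by
  have hp : p.Prime := Fact.out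
  have hn : (A.subgroupOf P).Normal := by
    apply Subgroup.normal_of_index_eq_minFac_card
    have h1 : (A.subgroupOf P).index = p := hAi
    rw [h1]
    obtain ⟨n, hn⟩ := IsPGroup.iff_card.1 hP
    rw [hn]
    have hn0 : n ≠ 0 := by
      rintro rfl
      have h3 := (A.subgroupOf P).index_dvd_card
      rw [hn, pow_zero, h1] at h3
      exact hp.one_lt.ne' (Nat.dvd_one.1 h3)
    exact (Nat.Prime.pow_minFac hp hn0).symm
  have htop : A.subgroupOf P ⊔ B.subgroupOf P = ⊤ := by
    have h1 : (A.subgroupOf P ⊔ B.subgroupOf P).index ∣ p := by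
      have : (A.subgroupOf P).index = p := hAi
      rw [← this]
      exact Subgroup.index_dvd_of_le le_sup_left
    rcases (Nat.dvd_prime hp).1 h1 with h2 | h2
    · exact Subgroup.index_eq_one.1 h2
    · exfalso
      apply hBA
      have h3 : A.subgroupOf P = A.subgroupOf P ⊔ B.subgroupOf P := by
        apply Subgroup.eq_of_le_of_card_ge le_sup_left
        have h4 := (A.subgroupOf P).card_mul_index
        have h5 := (A.subgroupOf P ⊔ B.subgroupOf P).card_mul_index
        have h6 : (A.subgroupOf P).index = p := hAi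
        rw [h6] at h4
        rw [h2] at h5
        exact le_of_eq (Nat.eq_of_mul_eq_mul_right hp.pos (h5.trans h4.symm))
      intro b hb
      have h4 : (⟨b, hB hb⟩ : P) ∈ B.subgroupOf P := Subgroup.mem_subgroupOf.2 hb
      have h5 : (⟨b, hB hb⟩ : P) ∈ A.subgroupOf P := by rw [h3]; exact Subgroup.mem_sup_right h4
      exact Subgroup.mem_subgroupOf.1 h5
  intro z hz
  have h1 : (⟨z, hz⟩ : P) ∈ A.subgroupOf P ⊔ B.subgroupOf P := by rw [htop]; trivial
  rw [Subgroup.mem_sup_of_normal_left] at h1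
  obtain ⟨x, hx, d, hd, hxd⟩ := h1
  exact ⟨x, Subgroup.mem_subgroupOf.1 hx, x.2, d, Subgroup.mem_subgroupOf.1 hd, congrArg Subtype.val hxd⟩

section

variable [Finite G] {p : ℕ} [Fact p.Prime]

theorem relIndex_dvd (P : Subgroup G) [P.Normal] (hP : IsPGroup p P) (h : Hyp p G) (g : G) :
    (Subgroup.centralizer ({g} : Set G)).relIndex P ∣ p := by
  have hp : p.Prime := Fact.out
  obtain ⟨m, hm⟩ := IsPGroup.iff_card.1 hP
  have h1 := H72.ClassSize.relIndex_normal_dvd_index P (Subgroup.centralizer ({g} : Set G))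
  have h2 : (Subgroup.centralizer ({g} : Set G)).relIndex P ∣ Nat.card P := Subgroup.relIndex_dvd_card _ _
  rw [hm] at h2
  obtain ⟨j, -, hj⟩ := (Nat.dvd_prime_pow hp).1 h2
  rw [hj] at h1 ⊢
  have : j ≤ 1 := by
    by_contra hlt
    push Not at hlt
    exact h g (dvd_trans (pow_dvd_pow p hlt) h1)
  calc p ^ j ∣ p ^ 1 := pow_dvd_pow p this
    _ = p := pow_one p

theorem S_subset (P : Subgroup G) {g h : G} (hgh : ∀ z ∈ P, ∃ x ∈ Subgroup.centralizer ({g} : Set G), x ∈ P ∧
      ∃ d ∈ Subgroup.centralizer ({h} : Set G) ⊓ P, x * d = z) (s : G) (hs : s ∈ S P h) :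
    g * s * g⁻¹ ∈ S P (g * h) := by
  obtain ⟨z, hz, rfl⟩ := hs
  obtain ⟨x, hx, hxP, d, hd, rfl⟩ := hgh z hz
  have hx' : x * g = g * x := Subgroup.mem_centralizer_singleton_iff.1 hx
  have hd' : d * h = h * d := Subgroup.mem_centralizer_singleton_iff.1 hd.1
  refine ⟨x, hxP, ?_⟩
  calc x * (g * h) * x⁻¹ * (g * h)⁻¹ = x * g * h * x⁻¹ * h⁻¹ * g⁻¹ := by group
    _ = g * x * h * x⁻¹ * h⁻¹ * g⁻¹ := by rw [hx']
    _ = g * (x * (h * d) * d⁻¹ * x⁻¹ * h⁻¹) * g⁻¹ := by group
    _ = g * (x * (d * h) * d⁻¹ * x⁻¹ * h⁻¹) * g⁻¹ := by rw [hd']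
    _ = g * (x * d * h * (x * d)⁻¹ * h⁻¹) * g⁻¹ := by group

theorem S_subset' (P : Subgroup G) {g h : G} (hgh : ∀ z ∈ P, ∃ x ∈ Subgroup.centralizer ({h} : Set G), x ∈ P ∧
      ∃ d ∈ Subgroup.centralizer ({g} : Set G) ⊓ P, x * d = z) (s : G) (hs : s ∈ S P g) :
    s ∈ S P (g * h) := by
  obtain ⟨z, hz, rfl⟩ := hs
  obtain ⟨x, hx, hxP, d, hd, rfl⟩ := hgh z hz
  have hx' : x * h = h * x := Subgroup.mem_centralizer_singleton_iff.1 hx
  have hd' : d * g = g * d := Subgroup.mem_centralizer_singleton_iff.1 hd.1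
  refine ⟨x, hxP, ?_⟩
  calc x * (g * h) * x⁻¹ * (g * h)⁻¹ = x * g * (h * x⁻¹ * h⁻¹) * g⁻¹ := by group
    _ = x * g * (x⁻¹ * (x * h) * x⁻¹ * h⁻¹) * g⁻¹ := by group
    _ = x * g * (x⁻¹ * (h * x) * x⁻¹ * h⁻¹) * g⁻¹ := by rw [hx']
    _ = x * (g * d) * d⁻¹ * x⁻¹ * g⁻¹ := by group
    _ = x * (d * g) * d⁻¹ * x⁻¹ * g⁻¹ := by rw [hd']
    _ = x * d * g * (x * d)⁻¹ * g⁻¹ := by group

theorem finite_S (P : Subgroup G) (g : G) : (S P g).Finite := Set.toFinite _

theorem S_conj_self (P : Subgroup G) [P.Normal] {g : G} (s : G) (hs : s ∈ S P g) (k : G) :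
    k * s * k⁻¹ ∈ S P (k * g * k⁻¹) := by
  obtain ⟨x, hx, rfl⟩ := hs
  refine ⟨k * x * k⁻¹, Subgroup.Normal.conj_mem inferInstance x hx k, ?_⟩
  group

/-- the key equality -/
theorem S_eq (P : Subgroup G) [P.Normal] (hP : IsPGroup p P) (h : Hyp p G) {g k : G}
    (hg : (Subgroup.centralizer ({g} : Set G)).relIndex P = p)
    (hk : (Subgroup.centralizer ({k} : Set G)).relIndex P = p)
    (hne : Subgroup.centralizer ({g} : Set G) ⊓ P ≠ Subgroup.centralizer ({k} : Set G) ⊓ P) :
    S P g = S P k := by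
  have hp : p.Prime := Fact.out
  have hcard : ∀ a : G, (Subgroup.centralizer ({a} : Set G)).relIndex P = p →
      Nat.card (Subgroup.centralizer ({a} : Set G) ⊓ P : Subgroup G) * p = Nat.card P := by
    intro a ha
    have h1 := Subgroup.card_mul_index ((Subgroup.centralizer ({a} : Set G)).subgroupOf P)
    have h2 : ((Subgroup.centralizer ({a} : Set G)).subgroupOf P).index = p := ha
    rw [h2] at h1
    rw [← h1]
    congr 1
    rw [← Subgroup.subgroupOf_map_subtype]
    exact Subgroup.card_map_of_injective P.subtype_injective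
  have hceq : Nat.card (Subgroup.centralizer ({g} : Set G) ⊓ P : Subgroup G) =
      Nat.card (Subgroup.centralizer ({k} : Set G) ⊓ P : Subgroup G) :=
    Nat.eq_of_mul_eq_mul_right hp.pos ((hcard g hg).trans (hcard k hk).symm)
  have hn1 : ¬ (Subgroup.centralizer ({k} : Set G) ⊓ P) ≤ Subgroup.centralizer ({g} : Set G) := by
    intro hle
    apply hne
    symm
    apply Subgroup.eq_of_le_of_card_ge (le_inf hle inf_le_right)
    rw [hceq]
  have hn2 : ¬ (Subgroup.centralizer ({g} : Set G) ⊓ P) ≤ Subgroup.centralizer ({k} : Set G) := by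
    intro hle
    apply hne
    apply Subgroup.eq_of_le_of_card_ge (le_inf hle inf_le_right)
    rw [hceq]
  have e1 := exists_mul P _ _ hP inf_le_right hg hn1
  have e2 := exists_mul P _ _ hP inf_le_right hk hn2
  have hle : Nat.card (S P (g * k)) ≤ p := by
    rw [card_S]
    exact Nat.le_of_dvd hp.pos (relIndex_dvd P hP h _)
  -- S P g ⊆ S P (g k), g S P k g⁻¹ ⊆ S P (g k)
  have f1 : S P g = S P (g * k) := by
    apply Set.eq_of_subset_of_ncard_le (fun s hs => S_subset' P e2 s hs) _ (finite_S P _)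
    rw [← Nat.card_coe_set_eq, ← Nat.card_coe_set_eq, card_S P g, hg]
    exact hle
  have f2 : ∀ s ∈ S P k, g * s * g⁻¹ ∈ S P g := by
    intro s hs
    rw [f1]
    exact S_subset P e1 s hs
  -- conj by g⁻¹ preserves S P g
  have f3 : ∀ s ∈ S P k, s ∈ S P g := by
    intro s hs
    have h1 := S_conj_self P _ (f2 s hs) g⁻¹
    have e3 : g⁻¹ * (g * s * g⁻¹) * g⁻¹⁻¹ = s := by group
    have e4 : g⁻¹ * g * g⁻¹⁻¹ = g := by group
    rw [e3, e4] at h1
    exact h1
  symm
  apply Set.eq_of_subset_of_ncard_le f3 _ (finite_S P _)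
  rw [← Nat.card_coe_set_eq, ← Nat.card_coe_set_eq, card_S, card_S, hg, hk]

theorem card_inf_commutator (P : Sylow p G) [hPn : (P : Subgroup G).Normal] (h : Hyp p G) :
    Nat.card ((P : Subgroup G) ⊓ commutator G : Subgroup G) ∣ p := by
  classical
  have hp : p.Prime := Fact.out
  set T : Subgroup G := (P : Subgroup G) ⊓ Subgroup.center G with hT
  by_cases hTi : T.relIndex (P : Subgroup G) ∣ p
  · -- P is abelian
    have hcyc : IsCyclic ((P : Subgroup G) ⧸ T.subgroupOf (P : Subgroup G)) := by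
      have hc : Nat.card ((P : Subgroup G) ⧸ T.subgroupOf (P : Subgroup G)) ∣ p := by
        rw [← Subgroup.index_eq_card]; exact hTi
      rcases (Nat.dvd_prime hp).1 hc with h1 | h1
      · have : Subsingleton ((P : Subgroup G) ⧸ T.subgroupOf (P : Subgroup G)) :=
          (Nat.card_eq_one_iff_unique.1 h1).1
        exact isCyclic_of_subsingleton
      · exact isCyclic_of_prime_card h1
    have hab : ∀ a ∈ (P : Subgroup G), ∀ b ∈ (P : Subgroup G), a * b = b * a := by
      intro a ha b hb
      have h1 := commutative_of_cyclic_center_quotient (QuotientGroup.mk' (T.subgroupOf (P : Subgroup G))) (by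
        rw [QuotientGroup.ker_mk']
        intro x hx
        rw [Subgroup.mem_center_iff]
        intro y
        apply Subtype.ext
        exact Subgroup.mem_center_iff.1 (Subgroup.mem_subgroupOf.1 hx).2 y) ⟨a, ha⟩ ⟨b, hb⟩
      exact congrArg Subtype.val h1
    have hinf : T ⊓ ((P : Subgroup G) ⊓ commutator G) = ⊥ := by
      rw [eq_bot_iff]
      intro t ht
      rw [Subgroup.mem_bot]
      exact eq_one_of_transfer P hab ht.2.1 ht.1.2 ht.2.2
    have h1 : T.relIndex ((P : Subgroup G) ⊓ commutator G) = Nat.card ((P : Subgroup G) ⊓ commutator G : Subgroup G) := by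
      have : T.subgroupOf ((P : Subgroup G) ⊓ commutator G) = ⊥ := by
        rw [Subgroup.subgroupOf_eq_bot, disjoint_iff, hinf]
      rw [Subgroup.relIndex, this, Subgroup.index_bot]
    rw [← h1]
    refine dvd_trans ?_ hTi
    rw [← Subgroup.relIndex_subgroupOf (inf_le_left : (P : Subgroup G) ⊓ commutator G ≤ P)]
    exact Subgroup.relIndex_dvd_index_of_normal _ _
  · -- the set argument
    have hbad : ∀ g : G, ¬ (P : Subgroup G) ≤ Subgroup.centralizer ({g} : Set G) →
        (Subgroup.centralizer ({g} : Set G)).relIndex (P : Subgroup G) = p := by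
      intro g hg
      rcases (Nat.dvd_prime hp).1 (relIndex_dvd (P : Subgroup G) P.2 h g) with h1 | h1
      · exfalso
        exact hg (Subgroup.relIndex_eq_one.1 h1)
      · exact h1
    have hTne : T.relIndex (P : Subgroup G) ≠ 1 := fun e => hTi (by rw [e]; exact one_dvd p)
    have hnc : ∃ g : G, ¬ (P : Subgroup G) ≤ Subgroup.centralizer ({g} : Set G) := by
      by_contra hcon
      push Not at hcon
      apply hTne
      rw [Subgroup.relIndex_eq_one]
      intro x hx
      refine Subgroup.mem_inf.2 ⟨hx, ?_⟩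
      rw [Subgroup.mem_center_iff]
      intro g
      exact (Subgroup.mem_centralizer_singleton_iff.1 (hcon g hx)).symm
    obtain ⟨g, hg⟩ := hnc
    have hother : ∀ a : G, ¬ (P : Subgroup G) ≤ Subgroup.centralizer ({a} : Set G) →
        ∃ k : G, ¬ (P : Subgroup G) ≤ Subgroup.centralizer ({k} : Set G) ∧
        Subgroup.centralizer ({a} : Set G) ⊓ (P : Subgroup G) ≠ Subgroup.centralizer ({k} : Set G) ⊓ (P : Subgroup G) := by
      intro a ha
      by_contra hcon
      push Not at hcon
      apply hTi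
      have : T = Subgroup.centralizer ({a} : Set G) ⊓ (P : Subgroup G) := by
        apply le_antisymm
        · intro x hx
          refine Subgroup.mem_inf.2 ⟨?_, hx.1⟩
          rw [Subgroup.mem_centralizer_singleton_iff]
          exact (Subgroup.mem_center_iff.1 hx.2 a).symm
        · intro x hx
          refine Subgroup.mem_inf.2 ⟨hx.2, ?_⟩
          rw [Subgroup.mem_center_iff]
          intro k
          by_cases hk : (P : Subgroup G) ≤ Subgroup.centralizer ({k} : Set G)
          · exact (Subgroup.mem_centralizer_singleton_iff.1 (hk hx.2)).symm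
          · have := hcon k hk
            rw [this] at hx
            exact (Subgroup.mem_centralizer_singleton_iff.1 hx.1).symm
      rw [this, Subgroup.inf_relIndex_right, hbad a ha]
    have hall : ∀ a : G, ¬ (P : Subgroup G) ≤ Subgroup.centralizer ({a} : Set G) → S (P : Subgroup G) a = S (P : Subgroup G) g := by
      intro a ha
      by_cases hne : Subgroup.centralizer ({a} : Set G) ⊓ (P : Subgroup G) = Subgroup.centralizer ({g} : Set G) ⊓ (P : Subgroup G)
      · obtain ⟨k, hk, hk2⟩ := hother a ha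
        rw [S_eq (P : Subgroup G) P.2 h (hbad a ha) (hbad k hk) hk2]
        symm
        apply S_eq (P : Subgroup G) P.2 h (hbad g hg) (hbad k hk)
        rw [← hne]; exact hk2
      · exact S_eq (P : Subgroup G) P.2 h (hbad a ha) (hbad g hg) hne
    have hconj : ∀ (k s : G), s ∈ S (P : Subgroup G) g → k * s * k⁻¹ ∈ S (P : Subgroup G) g := by
      intro k s hs
      have h1 := S_conj_self (P : Subgroup G) s hs k
      rw [hall (k * g * k⁻¹)] at h1
      · exact h1
      · intro hle
        apply hg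
        intro x hx
        have h2 := hle (Subgroup.Normal.conj_mem hPn x hx k)
        rw [Subgroup.mem_centralizer_singleton_iff] at h2 ⊢
        calc x * g = k⁻¹ * (k * x * k⁻¹ * (k * g * k⁻¹)) * k := by group
          _ = k⁻¹ * (k * g * k⁻¹ * (k * x * k⁻¹)) * k := by rw [h2]
          _ = g * x := by group
    have hmul : ∀ s ∈ S (P : Subgroup G) g, ∀ t ∈ S (P : Subgroup G) g, t * s ∈ S (P : Subgroup G) g := by
      intro s hs t ht
      obtain ⟨x, hx, hxs⟩ := hs
      have h1 := hconj x⁻¹ t ht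
      obtain ⟨y, hy, hyt⟩ := h1
      refine ⟨x * y, mul_mem hx hy, ?_⟩
      calc x * y * g * (x * y)⁻¹ * g⁻¹ = x * (y * g * y⁻¹ * g⁻¹) * x⁻¹ * (x * g * x⁻¹ * g⁻¹) := by group
        _ = x * (x⁻¹ * t * x⁻¹⁻¹) * x⁻¹ * s := by rw [hyt, hxs]
        _ = t * s := by group
    have hone : (1 : G) ∈ S (P : Subgroup G) g := ⟨1, one_mem _, by group⟩
    have hpow : ∀ s ∈ S (P : Subgroup G) g, ∀ n : ℕ, s ^ n ∈ S (P : Subgroup G) g := by
      intro s hs n
      induction n with
      | zero => simpa using hone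
      | succ n ih => rw [pow_succ]; exact hmul _ hs _ ih
    let Z : Subgroup G :=
      { carrier := S (P : Subgroup G) g
        mul_mem' := fun {a b} ha hb => hmul b hb a ha
        one_mem' := hone
        inv_mem' := fun {a} ha => by
          have h1 : a⁻¹ = a ^ (orderOf a - 1) := by
            rw [inv_eq_iff_mul_eq_one, ← pow_succ', Nat.sub_add_cancel (orderOf_pos a), pow_orderOf_eq_one]
          change a⁻¹ ∈ S (P : Subgroup G) g
          rw [h1]
          exact hpow a ha _ }
    have hZn : Z.Normal := ⟨fun s hs k => hconj k s hs⟩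
    have hZc : Nat.card Z = p := by
      have : Nat.card Z = Nat.card (S (P : Subgroup G) g) := rfl
      rw [this, card_S, hbad g hg]
    have hcomm : ∀ x ∈ (P : Subgroup G), ∀ k : G, x * k * x⁻¹ * k⁻¹ ∈ Z := by
      intro x hx k
      by_cases hk : (P : Subgroup G) ≤ Subgroup.centralizer ({k} : Set G)
      · have h1 := Subgroup.mem_centralizer_singleton_iff.1 (hk hx)
        rw [h1, mul_assoc k, mul_inv_cancel, mul_one, mul_inv_cancel]
        exact one_mem _
      · have : x * k * x⁻¹ * k⁻¹ ∈ S (P : Subgroup G) k := ⟨x, hx, rfl⟩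
        rw [hall k hk] at this
        exact this
    -- pass to the quotient
    let Q : Sylow p (G ⧸ Z) := P.mapSurjective (QuotientGroup.mk'_surjective Z)
    have hQ : ∀ q ∈ (Q : Subgroup (G ⧸ Z)), ∃ x ∈ (P : Subgroup G), QuotientGroup.mk' Z x = q := by
      intro q hq
      exact hq
    have hQc : ∀ q ∈ (Q : Subgroup (G ⧸ Z)), q ∈ Subgroup.center (G ⧸ Z) := by
      intro q hq
      obtain ⟨x, hx, rfl⟩ := hQ q hq
      rw [Subgroup.mem_center_iff]
      intro r
      obtain ⟨k, rfl⟩ := QuotientGroup.mk'_surjective Z r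
      rw [← map_mul, ← map_mul]
      change (QuotientGroup.mk (k * x) : G ⧸ Z) = QuotientGroup.mk (x * k)
      rw [QuotientGroup.eq]
      have h1 := hcomm x⁻¹ (inv_mem hx) k⁻¹
      have e : (k * x)⁻¹ * (x * k) = x⁻¹ * k⁻¹ * x⁻¹⁻¹ * k⁻¹⁻¹ := by group
      rw [e]; exact h1
    have hle : (P : Subgroup G) ⊓ commutator G ≤ Z := by
      intro x hx
      have h1 : QuotientGroup.mk' Z x = 1 := by
        apply eq_one_of_transfer Q (fun a ha b _ => (Subgroup.mem_center_iff.1 (hQc a ha) b).symm)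
        · exact ⟨x, hx.1, rfl⟩
        · exact hQc _ ⟨x, hx.1, rfl⟩
        · have h2 : (commutator G).map (QuotientGroup.mk' Z) ≤ commutator (G ⧸ Z) := by
            rw [commutator_def, Subgroup.map_commutator, commutator_def]
            exact Subgroup.commutator_mono le_top le_top
          exact h2 ⟨x, hx.2, rfl⟩
      exact (QuotientGroup.eq_one_iff x).1 h1
    exact dvd_trans (Subgroup.card_dvd_of_le hle) (dvd_of_eq hZc)

end

end H69.ClassP
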