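import Mathlib
import Cfsg.Agent.Lib.H69.BurnsideSchur

/-!
# Schur's theorem: groups containing a regular cyclic subgroup of composite order
-/

set_option autoImplicit false

namespace H69.CyclicReg

open H69.BurnsideSchur MulAction

variable {G Ω : Type*} [Group G] [MulAction G Ω] [Finite Ω]

/-- labelling of the points by `ZMod n` -/
theorem exists_equiv (g : G) (ω : Ω) (h : ∀ x : Ω, ∃ i : ℤ, g ^ i • ω = x) :
    ∃ e : ZMod (Nat.card Ω) ≃ Ω, (∀ x, e (x + 1) = g • e x) ∧ ∀ i : ℤ, e (i : ZMod (Nat.card Ω)) = g ^ i • ω := by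
  classical
  have := Fintype.ofFinite Ω
  have horb : ∀ x : Ω, x ∈ orbit (Subgroup.zpowers g) ω := by
    intro x
    obtain ⟨i, hi⟩ := h x
    exact ⟨⟨g ^ i, i, rfl⟩, hi⟩
  have hper : Function.minimalPeriod (g • ·) ω = Nat.card Ω := by
    rw [MulAction.minimalPeriod_eq_card, ← Nat.card_eq_fintype_card]
    exact Nat.card_congr (Equiv.subtypeUnivEquiv horb)
  have hpos : 0 < Nat.card Ω := by
    rw [← hper]
    have : Nonempty Ω := ⟨ω⟩
    rw [hper]; exact Nat.card_pos
  have hne : NeZero (Nat.card Ω) := ⟨hpos.ne'⟩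
  have hf : ∀ i j : ℤ, g ^ i • ω = g ^ j • ω ↔ (i : ZMod (Nat.card Ω)) = (j : ZMod (Nat.card Ω)) := by
    intro i j
    have h1 : (i : ZMod (Nat.card Ω)) = (j : ZMod (Nat.card Ω)) ↔ g ^ (j - i) • ω = ω := by
      rw [ZMod.intCast_eq_intCast_iff_dvd_sub, ← hper, zpow_smul_eq_iff_minimalPeriod_dvd]
    rw [h1]
    have h2 : g ^ (j - i) • ω = g ^ (-i) • g ^ j • ω := by
      rw [smul_smul, ← zpow_add]; congr 2; ring
    rw [h2, zpow_neg, inv_smul_eq_iff, eq_comm]
  let e₀ : ZMod (Nat.card Ω) → Ω := fun x => g ^ (x.val : ℤ) • ω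
  have he₀ : ∀ i : ℤ, e₀ (i : ZMod (Nat.card Ω)) = g ^ i • ω := by
    intro i
    rw [hf]
    simp
  have hbij : Function.Bijective e₀ := by
    constructor
    · intro x y hxy
      have := (hf _ _).1 hxy
      simpa using this
    · intro x
      obtain ⟨i, hi⟩ := h x
      exact ⟨(i : ZMod (Nat.card Ω)), by rw [he₀, hi]⟩
  refine ⟨Equiv.ofBijective e₀ hbij, ?_, he₀⟩
  intro x
  change e₀ (x + 1) = g • e₀ x
  have h1 : x + 1 = (((x.val : ℤ) + 1 : ℤ) : ZMod (Nat.card Ω)) := by simp
  rw [h1, he₀, add_comm, zpow_one_add, mul_smul]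

/-- Schur's theorem for groups with a regular cyclic subgroup of composite order -/
theorem two_transitive (g : G) (ω : Ω) (h : ∀ x : Ω, ∃ i : ℤ, g ^ i • ω = x) {p : ℕ}
    [hp : Fact p.Prime] (hpn : p ∣ Nat.card Ω) (hne : ¬ Nat.card Ω ∣ p)
    (hprim : ∀ r : Ω → Ω → Prop, Equivalence r → (∀ k : G, ∀ x y, r x y → r (k • x) (k • y)) →
      (∀ x y, r x y → x = y) ∨ ∀ x y, r x y) : IsMultiplyPretransitive G Ω 2 := by
  classical
  have : Nonempty Ω := ⟨ω⟩
  have hne0 : NeZero (Nat.card Ω) := ⟨Nat.card_pos.ne'⟩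
  obtain ⟨e, he1, he⟩ := exists_equiv g ω h
  let φ : G →* Equiv.Perm (ZMod (Nat.card Ω)) :=
    (e.symm.permCongrHom).toMonoidHom.comp (toPermHom G Ω)
  have hφ : ∀ k x, φ k x = e.symm (k • e x) := fun k x => rfl
  have htr : ∀ c : ZMod (Nat.card Ω), Equiv.addRight c ∈ φ.range := by
    intro c
    refine ⟨g ^ (c.val : ℤ), ?_⟩
    ext x
    rw [hφ]
    rw [Equiv.coe_addRight, Equiv.symm_apply_eq]
    change g ^ (c.val : ℤ) • e x = e (x + c)
    have h1 : e x = g ^ (x.val : ℤ) • ω := by rw [← he]; simp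
    have h2 : x + c = (((c.val : ℤ) + (x.val : ℤ) : ℤ) : ZMod (Nat.card Ω)) := by
      simp [add_comm]
    rw [h2, he, h1, zpow_add, mul_smul]
  have hprim' : Prim φ.range := by
    intro r hr hinv
    have h1 := hprim (fun x y => r (e.symm x) (e.symm y))
      ⟨fun x => hr.refl _, fun h => hr.symm h, fun h h' => hr.trans h h'⟩
      (by
        intro k x y hxy
        have := hinv (φ k) ⟨k, rfl⟩ _ _ hxy
        rwa [hφ, hφ, e.apply_symm_apply, e.apply_symm_apply] at this)
    rcases h1 with h1 | h1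
    · left
      intro x y hxy
      exact e.injective (h1 (e x) (e y) (by rwa [e.symm_apply_apply, e.symm_apply_apply]))
    · right
      intro x y
      have := h1 (e x) (e y)
      rwa [e.symm_apply_apply, e.symm_apply_apply] at this
  have horb := orb_of_prim φ.range hpn hne htr hprim'
  -- stabilizer of `ω` is transitive on the rest
  have h0 : e 0 = ω := by
    have := he 0
    simpa using this
  have hst : ∀ x y : Ω, x ≠ ω → y ≠ ω → ∃ k : G, k • ω = ω ∧ k • x = y := by
    intro x y hx hy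
    obtain ⟨f, ⟨k, rfl⟩, hk0, hkx⟩ := horb (e.symm x) (e.symm y)
      (fun h => hx (by rw [← h0, ← h, e.apply_symm_apply]))
      (fun h => hy (by rw [← h0, ← h, e.apply_symm_apply]))
    rw [hφ, e.symm_apply_eq] at hk0
    rw [hφ, e.apply_symm_apply] at hkx
    exact ⟨k, by rwa [h0] at hk0, e.symm.injective hkx⟩
  rw [is_two_pretransitive_iff]
  intro a b c d hab hcd
  obtain ⟨i, hi⟩ := h a
  obtain ⟨j, hj⟩ := h c
  obtain ⟨k, hk0, hk⟩ := hst (g ^ (-i) • b) (g ^ (-j) • d)
    (by
      intro h1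
      rw [zpow_neg, inv_smul_eq_iff, hi] at h1
      exact hab h1.symm)
    (by
      intro h1
      rw [zpow_neg, inv_smul_eq_iff, hj] at h1
      exact hcd h1.symm)
  refine ⟨g ^ j * k * g ^ (-i), ?_, ?_⟩
  · rw [mul_smul, mul_smul, ← hi, zpow_neg, inv_smul_smul, hk0, hj]
  · rw [mul_smul, mul_smul, hk, zpow_neg, smul_inv_smul]

omit [Finite Ω] in
/-- invariant equivalence relations under a preprimitive action are trivial -/
theorem prim_of_preprimitive [IsPreprimitive G Ω] (r : Ω → Ω → Prop) (hr : Equivalence r)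
    (hinv : ∀ k : G, ∀ x y, r x y → r (k • x) (k • y)) :
    (∀ x y, r x y → x = y) ∨ ∀ x y, r x y := by
  classical
  have hblock : ∀ a, IsBlock G {x | r a x} := by
    intro a
    rw [isBlock_iff_smul_eq_or_disjoint]
    intro k
    by_cases hk : r a (k • a)
    · left
      ext x
      rw [Set.mem_smul_set_iff_inv_smul_mem]
      simp only [Set.mem_ofPred_eq]
      constructor
      · intro h
        have := hinv k _ _ h
        rw [smul_inv_smul] at this
        exact hr.trans hk this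
      · intro h
        have := hinv k⁻¹ _ _ (hr.trans (hr.symm hk) h)
        rwa [inv_smul_smul] at this
    · right
      rw [Set.disjoint_left]
      rintro _ ⟨x, hx, rfl⟩ hx'
      simp only [Set.mem_ofPred_eq] at hx hx'
      exact hk (hr.trans hx' (hr.symm (hinv k _ _ hx)))
  by_cases hall : ∀ a, {x | r a x} = Set.univ
  · right
    intro x y
    have : y ∈ {y | r x y} := by rw [hall x]; exact Set.mem_univ _
    exact this
  · left
    push Not at hall
    obtain ⟨a, ha⟩ := hall
    have h1 := (IsPreprimitive.isTrivialBlock_of_isBlock (hblock a)).resolve_right ha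
    have h2 : ∀ x, r a x → a = x := fun x hx => h1 (hr.refl a) hx
    intro x y hxy
    obtain ⟨k, hk⟩ := exists_smul_eq G x a
    have h3 := hinv k _ _ hxy
    rw [hk] at h3
    have h4 := h2 _ h3
    rw [← hk] at h4
    exact smul_left_cancel k h4

end H69.CyclicReg
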