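import Cfsg.Prelude.Def_CaseTheorems
import Cfsg.Agent.Lib.H59.PCons
import Cfsg.Agent.Lib.H26.Components
import Cfsg.Agent.Lib.H11.FourConn

/-!
Consumers of S0504: groups with `2`-constrained involution centralizers and `SCN₃(2)` nonempty.
-/

set_option autoImplicit false

namespace H69.NonComp

open Cfsg Subgroup

/-- a group of characteristic `2` has no component -/
theorem not_hasComponent_of_char {X : Type*} [Group X] [Finite X]
    (h : centralizer (pCore 2 X : Set X) ≤ pCore 2 X) : ¬ HasComponent X := by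
  rintro ⟨K, hK⟩
  have hL : IsComponent K := hK
  have : Fact (Nat.Prime 2) := ⟨Nat.prime_two⟩
  have h0 : ⁅pCore 2 X, K⁆ = ⊥ := by
    rw [Subgroup.commutator_comm]
    exact eq_bot_iff.2 ((Subgroup.commutator_mono (H26.Components.le_layer hL) le_rfl).trans
      (H26.Components.commutator_layer_pCore 2).le)
  have h2 : K ≤ centralizer (pCore 2 X : Set X) := by
    intro k hk
    rw [Subgroup.mem_centralizer_iff]
    intro x hx
    have := (Subgroup.commutator_eq_bot_iff_le_centralizer.1 h0) hx
    exact ((Subgroup.mem_centralizer_iff.1 this) k hk).symm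
  have h3 : IsPGroup 2 ↥(pCore 2 X) := H1.Cores.isPGroup_pCore 2
  have : Group.IsNilpotent ↥(pCore 2 X) := h3.isNilpotent
  exact H26.Components.not_isSolvable_of_le hL (h2.trans h) inferInstance

/-- a solvable group has no component -/
theorem not_hasComponent_of_solvable {X : Type*} [Group X] (h : Group.IsSolvable X) :
    ¬ HasComponent X := by
  rintro ⟨K, hK⟩
  have hL : IsComponent K := hK
  exact H26.Quasisimple.not_isSolvable hL.2 inferInstance

/-- a `2`-constrained group has no component modulo its core -/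
theorem not_hasComponent_of_constrained {X : Type*} [Group X] [Finite X] (h : IsPConstrained 2 X) :
    ¬ HasComponent (X ⧸ oddCore X) := by
  have : Fact (Nat.Prime 2) := ⟨Nat.prime_two⟩
  exact not_hasComponent_of_char ((H59.PCons.isPConstrained_iff.1 h).centralizer_pCore_le)

/-- `C_H(O₂(H)) ≤ O₂(H)` gives `O(H) = 1` -/
theorem core_eq_bot_of_char {X : Type*} [Group X] [Finite X]
    (h : centralizer (pCore 2 X : Set X) ≤ pCore 2 X) : pPrimeCore 2 X = ⊥ := by
  have : Fact (Nat.Prime 2) := ⟨Nat.prime_two⟩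
  have hd := H1.Cores.pCore_inf_pPrimeCore (G := X) 2
  have h1 : (pCore 2 X).Normal := H1.Cores.pCore_normal 2
  have h2 : (pPrimeCore 2 X).Normal := Cfsg.pPrimeCore_normal 2 X
  have h3 : pPrimeCore 2 X ≤ centralizer (pCore 2 X : Set X) := by
    intro k hk
    rw [Subgroup.mem_centralizer_iff]
    intro x hx
    have hx' : x ∈ pCore 2 X := hx
    have h4 : x * k * x⁻¹ * k⁻¹ ∈ pCore 2 X ⊓ pPrimeCore 2 X := by
      constructor
      · have : x * k * x⁻¹ * k⁻¹ = x * (k * x⁻¹ * k⁻¹) := by group
        rw [this]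
        exact mul_mem hx' (h1.conj_mem _ ((pCore 2 X).inv_mem hx') k)
      · exact mul_mem (h2.conj_mem _ hk x) ((pPrimeCore 2 X).inv_mem hk)
    rw [hd, Subgroup.mem_bot] at h4
    have h5 : x * k * x⁻¹ * k⁻¹ * k * x = x * k := by group
    rw [h4] at h5
    rw [← h5]; group
  rw [eq_bot_iff, ← hd]
  exact le_inf (h3.trans h) le_rfl

/-- the normalizer of `⟨t⟩` is the centralizer of the involution `t` -/
theorem normalizer_zpowers_eq {G : Type*} [Group G] {t : G} (ht : orderOf t = 2) :
    normalizer (zpowers t : Set G) = centralizer ({t} : Set G) := by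
  have h2 : t ^ 2 = 1 := by rw [← ht]; exact pow_orderOf_eq_one t
  have hmem : ∀ x : G, x ∈ zpowers t → x = 1 ∨ x = t := by
    intro x hx
    obtain ⟨k, rfl⟩ := Subgroup.mem_zpowers_iff.1 hx
    rcases Int.even_or_odd' k with ⟨m, rfl | rfl⟩
    · left; rw [zpow_mul]; have : t ^ (2 : ℤ) = 1 := by exact_mod_cast h2
      rw [this, one_zpow]
    · right; rw [zpow_add, zpow_mul]; have : t ^ (2 : ℤ) = 1 := by exact_mod_cast h2
      rw [this, one_zpow, one_mul, zpow_one]
  have hne : t ≠ 1 := by rintro rfl; simp at ht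
  ext g
  rw [Subgroup.mem_normalizer_iff, Subgroup.mem_centralizer_singleton_iff]
  constructor
  · intro h
    rcases hmem _ ((h t).1 (Subgroup.mem_zpowers t)) with h1 | h1
    · exact absurd (by
        have h3 : g⁻¹ * (g * t * g⁻¹) * g = g⁻¹ * 1 * g := by rw [h1]
        have h4 : g⁻¹ * (g * t * g⁻¹) * g = t := by group
        rw [← h4, h3]; group) hne
    · exact mul_inv_eq_iff_eq_mul.1 h1
  · intro h x
    have hg : g * t * g⁻¹ = t := by rw [h]; group
    constructor
    · intro hx
      obtain ⟨k, rfl⟩ := Subgroup.mem_zpowers_iff.1 hx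
      rw [← conj_zpow, hg]
      exact Subgroup.zpow_mem_zpowers t k
    · intro hx
      obtain ⟨k, hk⟩ := Subgroup.mem_zpowers_iff.1 hx
      have : x = t ^ k := by
        have h3 : (g * t * g⁻¹) ^ k = g * x * g⁻¹ := by rw [hg]; exact hk
        rw [conj_zpow] at h3
        have h4 : x = g⁻¹ * (g * x * g⁻¹) * g := by group
        rw [h4, ← h3]; group
      rw [this]
      exact Subgroup.zpow_mem_zpowers t k

/-- characteristic `2` type groups have core free involution centralizers -/
theorem core_of_char_two_type {G : Type*} [Group G] [Finite G] (h : IsCharacteristicTwoType G)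
    {t : G} (ht : orderOf t = 2) : pPrimeCore 2 ↥(centralizer ({t} : Set G)) = ⊥ := by
  have h1 : IsPGroup 2 ↥(zpowers t) := by
    apply IsPGroup.of_card (n := 1)
    rw [Nat.card_zpowers, ht, pow_one]
  have h2 : zpowers t ≠ ⊥ := by
    rw [Ne, Subgroup.zpowers_eq_bot]
    rintro rfl; simp at ht
  have h3 := core_eq_bot_of_char (h.2 (zpowers t) h1 h2)
  rw [normalizer_zpowers_eq ht] at h3
  exact h3

/-- a Sylow `2`-subgroup with a normal abelian subgroup of rank at least `3` is four connected -/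
theorem fourConnected {P : Type*} [Group P] [Finite P] (hP : IsPGroup 2 P) (A : Subgroup P)
    (hAn : A.Normal) (hAab : IsMulCommutative ↥A) (hA3 : ¬ PRankLE 2 2 ↥A) :
    IsFourConnected P := by
  let E : Subgroup P :=
    { carrier := {x | x ∈ A ∧ x ^ 2 = 1}
      one_mem' := ⟨one_mem _, one_pow _⟩
      mul_mem' := by
        rintro x y ⟨hx, hx2⟩ ⟨hy, hy2⟩
        have hc : x * y = y * x := by
          have := hAab.is_comm.comm (⟨x, hx⟩ : A) ⟨y, hy⟩
          exact congrArg Subtype.val this
        refine ⟨mul_mem hx hy, ?_⟩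
        have : Commute x y := hc
        rw [this.mul_pow, hx2, hy2, one_mul]
      inv_mem' := by
        rintro x ⟨hx, hx2⟩
        exact ⟨inv_mem hx, by rw [inv_pow, hx2, inv_one]⟩ }
  have hE : ∀ x : P, x ∈ E ↔ x ∈ A ∧ x ^ 2 = 1 := fun x => Iff.rfl
  have hEn : E.Normal := by
    constructor
    intro n hn g
    rw [hE] at hn ⊢
    exact ⟨hAn.conj_mem _ hn.1 g, by rw [conj_pow, hn.2]; group⟩
  have hEc : IsMulCommutative ↥E := by
    refine ⟨⟨?_⟩⟩
    rintro ⟨x, hx⟩ ⟨y, hy⟩
    have := hAab.is_comm.comm (⟨x, ((hE x).1 hx).1⟩ : A) ⟨y, ((hE y).1 hy).1⟩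
    have h1 : x * y = y * x := congrArg Subtype.val this
    exact Subtype.ext h1
  have hE2 : ∀ e ∈ E, e ^ 2 = 1 := fun e he => ((hE e).1 he).2
  have hE8 : 8 ≤ Nat.card E := by
    unfold PRankLE at hA3
    push Not at hA3
    obtain ⟨B, hBc, hB2, hB4⟩ := hA3
    have hle : B.map A.subtype ≤ E := by
      rintro _ ⟨b, hb, rfl⟩
      exact (hE _).2 ⟨b.2, by
        rw [← map_pow, hB2 b hb, map_one]⟩
    have h1 : Nat.card ↥(B.map A.subtype) = Nat.card B :=
      Nat.card_congr (B.equivMapOfInjective A.subtype (Subgroup.subtype_injective A)).symm.toEquiv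
    have h2 : Nat.card B ≤ Nat.card E := h1 ▸ Nat.le_of_dvd Nat.card_pos (Subgroup.card_dvd_of_le hle)
    have h3 : 4 < Nat.card E := by norm_num at hB4; omega
    have hEp : IsPGroup 2 ↥E := hP.to_subgroup E
    obtain ⟨k, hk⟩ := IsPGroup.iff_card.1 hEp
    rw [hk] at h3 ⊢
    have hk3 : 3 ≤ k := by
      by_contra hcon
      have : k ≤ 2 := by omega
      have := Nat.pow_le_pow_right (n := 2) (by norm_num) this
      omega
    calc 8 = 2 ^ 3 := by norm_num
      _ ≤ 2 ^ k := Nat.pow_le_pow_right (by norm_num) hk3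
  exact H11.FourConn.fourConnected_of_normal hP E hEc hE2 hE8

/-- rank of an overgroup -/
theorem not_rank_of_le {G : Type*} [Group G] {n : ℕ} {A : Subgroup G} (h : ¬ PRankLE 2 n ↥A) :
    ¬ PRankLE 2 n G := by
  intro hG
  apply h
  intro B hBc hB2
  have h1 : Nat.card ↥(B.map A.subtype) = Nat.card B :=
    Nat.card_congr (B.equivMapOfInjective A.subtype (Subgroup.subtype_injective A)).symm.toEquiv
  rw [← h1]
  apply hG
  · refine ⟨⟨?_⟩⟩
    rintro ⟨_, x, hx, rfl⟩ ⟨_, y, hy, rfl⟩
    have := hBc.is_comm.comm (⟨x, hx⟩ : B) ⟨y, hy⟩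
    have h2 : x * y = y * x := congrArg Subtype.val this
    apply Subtype.ext
    show A.subtype x * A.subtype y = A.subtype y * A.subtype x
    rw [← map_mul, h2, map_mul]
  · rintro _ ⟨x, hx, rfl⟩
    rw [← map_pow, hB2 x hx, map_one]

end H69.NonComp
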