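import Cfsg.Agent.Lib.H69.NonComp

/-!
S3109 and S3332 from the statement of S0504.
-/

set_option autoImplicit false

open Cfsg

namespace H69.NonComp

universe u

/-- the statement of S0504 -/
def HypS0504 : Prop := ∀ {G : Type u} [Group G] [Finite G]
    (h3 : ¬ Cfsg.PRankLE 2 2 G) (hO : Cfsg.oddCore G = ⊥) (hc : ¬ Cfsg.IsComponentType G) (S : Sylow 2 G)
    (hS : Cfsg.IsFourConnected (S : Subgroup G)), Cfsg.IsCharacteristicTwoType G

/-- S3109 from S0504 -/
theorem r3109 (H : HypS0504.{u}) {G : Type u} [Group G] [Finite G] [IsSimpleGroup G] (hG : ¬ IsMulCommutative G)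
    (h2c : ∀ T : Subgroup G, IsPGroup 2 T → T ≠ ⊥ → Cfsg.IsPConstrained 2 ↥(Subgroup.normalizer (T : Set G)))
    (S : Sylow 2 G) (A : Subgroup ↥(S : Subgroup G)) (hAn : A.Normal) (hAab : IsMulCommutative ↥A)
    (hAC : Subgroup.centralizer (A : Set ↥(S : Subgroup G)) = A) (hA3 : ¬ Cfsg.PRankLE 2 2 ↥A) :
    ∀ t : G, orderOf t = 2 → Cfsg.centralizerPPrimeCore 2 t = ⊥ := by
  intro t ht
  have hS := fourConnected S.2 A hAn hAab hA3
  have h3 : ¬ PRankLE 2 2 G := not_rank_of_le (not_rank_of_le hA3)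
  have hO : oddCore G = ⊥ := by
    rcases (Cfsg.pPrimeCore_normal 2 G).eq_bot_or_eq_top with h | h
    · exact h
    · exfalso
      have h1 : (Nat.card ↥(pPrimeCore 2 G)).Coprime 2 := H1.Cores.coprime_card_pPrimeCore 2
      rw [h, Subgroup.card_top] at h1
      have h2 : 2 ∣ Nat.card G := ht ▸ orderOf_dvd_natCard t
      have := Nat.Coprime.eq_one_of_dvd h1.symm h2
      omega
  have hc : ¬ IsComponentType G := by
    rintro ⟨s, hs, hK⟩
    have h1 : IsPGroup 2 ↥(Subgroup.zpowers s) := by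
      apply IsPGroup.of_card (n := 1)
      rw [Nat.card_zpowers, hs, pow_one]
    have h2 : Subgroup.zpowers s ≠ ⊥ := by
      rw [Ne, Subgroup.zpowers_eq_bot]
      rintro rfl; simp at hs
    have h4 := h2c _ h1 h2
    rw [normalizer_zpowers_eq hs] at h4
    exact not_hasComponent_of_constrained h4 hK
  have h5 := H h3 hO hc S hS
  have h6 := core_of_char_two_type h5 ht
  unfold centralizerPPrimeCore
  rw [h6, Subgroup.map_bot]

/-- S3332 from S0504 -/
theorem r3332 (H : HypS0504.{u}) {G : Type u} [Group G] [Finite G]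
    (hrank : ¬ Cfsg.PRankLE 2 3 G) (hO : Cfsg.oddCore G = ⊥) (S : Sylow 2 G)
    (A : Subgroup G) (hAS : A ≤ S) (hAn : (A.subgroupOf S).Normal) (hAc : IsMulCommutative A)
    (hAself : (S : Subgroup G) ⊓ Subgroup.centralizer (A : Set G) = A) (hA3 : ¬ Cfsg.PRankLE 2 2 A)
    (hsol : ∀ t : G, orderOf t = 2 → Group.IsSolvable (Subgroup.centralizer ({t} : Set G))) :
    ∀ t : G, orderOf t = 2 → Cfsg.oddCore (Subgroup.centralizer ({t} : Set G)) = ⊥ := by
  intro t ht
  have e := Subgroup.subgroupOfEquivOfLe hAS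
  have hAab' : IsMulCommutative ↥(A.subgroupOf S) := by
    refine ⟨⟨fun x y => ?_⟩⟩
    apply e.injective
    rw [map_mul, map_mul]
    exact hAc.is_comm.comm _ _
  have hA3' : ¬ PRankLE 2 2 ↥(A.subgroupOf S) := by
    intro h
    apply hA3
    intro B hBc hB2
    have h1 : Nat.card ↥(B.map e.symm.toMonoidHom) = Nat.card B :=
      Nat.card_congr (B.equivMapOfInjective e.symm.toMonoidHom e.symm.injective).symm.toEquiv
    rw [← h1]
    apply h
    · refine ⟨⟨?_⟩⟩
      rintro ⟨_, x, hx, rfl⟩ ⟨_, y, hy, rfl⟩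
      have := hBc.is_comm.comm (⟨x, hx⟩ : B) ⟨y, hy⟩
      have h2 : x * y = y * x := congrArg Subtype.val this
      apply Subtype.ext
      show e.symm.toMonoidHom x * e.symm.toMonoidHom y = e.symm.toMonoidHom y * e.symm.toMonoidHom x
      rw [← map_mul, h2, map_mul]
    · rintro _ ⟨x, hx, rfl⟩
      rw [← map_pow, hB2 x hx, map_one]
  have hS := fourConnected S.2 (A.subgroupOf S) hAn hAab' hA3'
  have h3 : ¬ PRankLE 2 2 G := not_rank_of_le hA3
  have hc : ¬ IsComponentType G := by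
    rintro ⟨s, hs, hK⟩
    have := hsol s hs
    exact not_hasComponent_of_solvable inferInstance hK
  have h5 := H h3 hO hc S hS
  exact core_of_char_two_type h5 ht

end H69.NonComp
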