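import Cfsg.Agent.Lib.H2.GenCent
import Cfsg.Agent.Lib.H58.AbSyl
import Cfsg.Agent.Lib.H59.Invol
import Cfsg.Agent.Lib.H11.NormalRankOne
import Cfsg.Agent.Lib.H71.Basic
import Cfsg.Agent.Lib.H3.CardSup

/-!
Groups all of whose `p'`-subgroups are abelian (S1936), part 1: the setting, the action of the normalizer of
a Sylow 2-subgroup, and the nontrivial centralizers.
-/

set_option autoImplicit false
set_option linter.all false

namespace H69.PPA

open Subgroup

structure Ctx (p : ℕ) (G : Type*) [Group G] : Prop where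
  simple : IsSimpleGroup G
  nab : ¬ IsMulCommutative G
  p5 : 5 ≤ p
  ab : ∀ H : Subgroup G, (Nat.card H).Coprime p → IsMulCommutative H
  ex : ∀ H : Subgroup G, (Nat.card H).Coprime p → ∀ x ∈ H, x ^ (p - 1) = 1
  solv : ∀ H : Subgroup G, H ≠ ⊤ → Group.IsSolvable H
  even : 2 ∣ Nat.card G

variable {G : Type*} [Group G] [Finite G] {p : ℕ} [hp : Fact p.Prime]

theorem Ctx.comm (h : Ctx p G) {A B : Subgroup G} (hA : (Nat.card A).Coprime p)
    (hB : (Nat.card B).Coprime p) (hBA : B ≤ normalizer (A : Set G)) {a b : G} (ha : a ∈ A) (hb : b ∈ B) :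
    a * b = b * a := by
  have h1 := H3.CardSup.card_sup_mul_card_inf B A hBA
  have h2 : (Nat.card (B ⊔ A : Subgroup G)).Coprime p :=
    Nat.Coprime.coprime_dvd_left (Dvd.intro _ h1) (Nat.Coprime.mul_left hB hA)
  have h3 := h.ab _ h2
  have h4 := h3.is_comm.comm ⟨a, (le_sup_right : A ≤ B ⊔ A) ha⟩ ⟨b, (le_sup_left : B ≤ B ⊔ A) hb⟩
  exact congrArg Subtype.val h4

omit [Finite G] in
theorem Ctx.ne_two (h : Ctx p G) : p ≠ 2 := by
  have := h.p5
  omega

theorem Ctx.coprime_of_two (h : Ctx p G) {T : Subgroup G} (hT : IsPGroup 2 T) : (Nat.card T).Coprime p := by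
  obtain ⟨n, hn⟩ := IsPGroup.iff_card.mp hT
  rw [hn]
  exact Nat.Coprime.pow_left _ ((Nat.coprime_primes Nat.prime_two hp.out).2 h.ne_two.symm)

theorem Ctx.comm_two (h : Ctx p G) (T : Sylow 2 G) : IsMulCommutative (T : Subgroup G) :=
  h.ab _ (h.coprime_of_two T.isPGroup')

theorem Ctx.comm_T (h : Ctx p G) (T : Sylow 2 G) {a b : G} (ha : a ∈ (T : Subgroup G)) (hb : b ∈ (T : Subgroup G)) :
    a * b = b * a := by
  have h4 := (h.comm_two T).is_comm.comm ⟨a, ha⟩ ⟨b, hb⟩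
  exact congrArg Subtype.val h4

theorem coprime_zpowers {x : G} (hx : ¬ p ∣ orderOf x) : (Nat.card (zpowers x)).Coprime p := by
  rw [Nat.card_zpowers, Nat.coprime_comm, hp.out.coprime_iff_not_dvd]
  exact hx

/-- `p'`-elements normalizing a `p'`-group centralize it -/
theorem Ctx.comm_elem (h : Ctx p G) {A : Subgroup G} (hA : (Nat.card A).Coprime p) {x a : G}
    (hx : ¬ p ∣ orderOf x) (hxA : x ∈ normalizer (A : Set G)) (ha : a ∈ A) : a * x = x * a :=
  h.comm hA (coprime_zpowers hx) (by rwa [zpowers_le]) ha (mem_zpowers x)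

/-- a `p`-element of the normalizer of `T` moves the given element -/
theorem Ctx.exists_moving (h : Ctx p G) (T : Sylow 2 G) {t : G} (ht : t ∈ (T : Subgroup G)) (ht1 : t ≠ 1) :
    ∃ y ∈ normalizer ((T : Subgroup G) : Set G), (∃ k, orderOf y = p ^ k) ∧ y * t ≠ t * y := by
  haveI := h.simple
  haveI : Fact (Nat.Prime 2) := ⟨Nat.prime_two⟩
  by_contra hcon
  push Not at hcon
  apply ht1
  apply H58.AbSyl.eq_one_of_fixed (H58.AbSyl.commutator_eq_top h.nab) T (h.comm_two T) ht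
  intro n hn
  obtain ⟨x, y, hx, hy, hxy, -, hxk, hyp, -, -⟩ := H71.Basic.exists_pPart n (isOfFinOrder_of_finite n) p hp.out
  have hxN : x ∈ normalizer ((T : Subgroup G) : Set G) := (zpowers_le.2 hn) hx
  have hyN : y ∈ normalizer ((T : Subgroup G) : Set G) := (zpowers_le.2 hn) hy
  have h1 := hcon x hxN hxk
  have h2 := h.comm_elem (h.coprime_of_two T.isPGroup') hyp hyN ht
  rw [← hxy, mul_assoc, ← h2, ← mul_assoc, h1, mul_assoc]

theorem Ctx.exists_invol (h : Ctx p G) (T : Sylow 2 G) : ∃ t ∈ (T : Subgroup G), t ≠ 1 ∧ t ^ 2 = 1 := by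
  haveI : Fact (Nat.Prime 2) := ⟨Nat.prime_two⟩
  have h1 : 2 ∣ Nat.card (T : Subgroup G) := by
    exact T.dvd_card_of_dvd_card h.even
  obtain ⟨x, hx⟩ := exists_prime_orderOf_dvd_card' (G := (T : Subgroup G)) 2 h1
  refine ⟨x, x.2, ?_, ?_⟩
  · intro hx1
    have : x = 1 := Subtype.ext hx1
    rw [this, orderOf_one] at hx
    omega
  · have h2 : x ^ 2 = 1 := orderOf_dvd_iff_pow_eq_one.1 (by rw [hx])
    exact_mod_cast congrArg Subtype.val h2

/-- at least six solutions of `x^2=1` in `T` -/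
theorem Ctx.six_le (h : Ctx p G) (T : Sylow 2 G) : 6 ≤ {x : G | x ∈ (T : Subgroup G) ∧ x ^ 2 = 1}.ncard := by
  classical
  obtain ⟨z, hz, hz1, hz2⟩ := h.exists_invol T
  obtain ⟨y, hy, ⟨k, hk⟩, hyz⟩ := h.exists_moving T hz hz1
  have hcomm : ∀ i : ℕ, 0 < i → i < 5 → y ^ i * z ≠ z * y ^ i := by
    intro i hi0 hi5 hc
    apply hyz
    have hcop : (orderOf y).Coprime i := by
      rw [hk]
      apply Nat.Coprime.pow_left
      rw [hp.out.coprime_iff_not_dvd]
      intro hd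
      have := Nat.le_of_dvd hi0 hd
      have := h.p5
      omega
    obtain ⟨j, hj⟩ := exists_pow_eq_self_of_coprime (x := y) hcop.symm
    have h1 : Commute (y ^ i) z := hc
    have h2 := h1.pow_left j
    rw [hj] at h2
    exact h2
  let f : Fin 5 → G := fun i => y ^ (i : ℕ) * z * (y ^ (i : ℕ))⁻¹
  have hf : Function.Injective f := by
    have key : ∀ i j : ℕ, i < j → j < 5 → y ^ i * z * (y ^ i)⁻¹ ≠ y ^ j * z * (y ^ j)⁻¹ := by
      intro i j hij hj5 he
      apply hcomm (j - i) (by omega) (by omega)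
      have h1 : y ^ j = y ^ i * y ^ (j - i) := by rw [← pow_add]; congr 1; omega
      rw [h1] at he
      have h2 : z = y ^ (j - i) * z * (y ^ (j - i))⁻¹ := by
        have h3 : y ^ i * z * (y ^ i)⁻¹ = y ^ i * (y ^ (j - i) * z * (y ^ (j - i))⁻¹) * (y ^ i)⁻¹ := by
          rw [he]; group
        exact mul_left_cancel (mul_right_cancel h3)
      conv_rhs => rw [h2]
      group
    intro i j hij
    rcases lt_trichotomy (i : ℕ) (j : ℕ) with hlt | heq | hgt
    · exact absurd hij (key i j hlt j.2)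
    · exact Fin.ext heq
    · exact absurd hij.symm (key j i hgt i.2)
  have hsub : (insert 1 (Set.range f)) ⊆ {x : G | x ∈ (T : Subgroup G) ∧ x ^ 2 = 1} := by
    intro x hx
    rcases hx with rfl | ⟨i, rfl⟩
    · exact ⟨one_mem _, one_pow _⟩
    · refine ⟨?_, ?_⟩
      · exact (mem_normalizer_iff.1 (pow_mem hy i) z).1 hz
      · show (y ^ (i : ℕ) * z * (y ^ (i : ℕ))⁻¹) ^ 2 = 1
        rw [conj_pow, hz2]; group
  have h1 : (1 : G) ∉ Set.range f := by
    rintro ⟨i, hi⟩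
    apply hz1
    have h2 : y ^ (i : ℕ) * z * (y ^ (i : ℕ))⁻¹ = 1 := hi
    rw [mul_inv_eq_one] at h2
    exact mul_eq_left.mp h2
  have h3 : (insert 1 (Set.range f)).ncard = 6 := by
    rw [Set.ncard_insert_of_notMem h1 (Set.toFinite _), Set.ncard_eq_toFinset_card']
    rw [Set.toFinset_range, Finset.card_image_of_injective _ hf]
    simp
  rw [← h3]
  exact Set.ncard_le_ncard hsub (Set.toFinite _)

theorem Ctx.exists_pair (h : Ctx p G) (T : Sylow 2 G) (a : G) :
    ∃ x ∈ (T : Subgroup G), ∃ y ∈ (T : Subgroup G), x ^ 2 = 1 ∧ y ^ 2 = 1 ∧ x ≠ 1 ∧ y ≠ 1 ∧ x ≠ y ∧ x ≠ a ∧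
      y ≠ a ∧ x * y ≠ a := by
  classical
  have h6 := h.six_le T
  obtain ⟨x, ⟨hx, hx2⟩, hxn⟩ := Set.exists_mem_notMem_of_ncard_lt_ncard
    (s := ({1, a} : Set G)) (t := {x : G | x ∈ (T : Subgroup G) ∧ x ^ 2 = 1}) (by
      have := Set.ncard_insert_le (1 : G) {a}
      have := Set.ncard_singleton a
      omega)
  obtain ⟨y, ⟨hy, hy2⟩, hyn⟩ := Set.exists_mem_notMem_of_ncard_lt_ncard
    (s := ({1, a, x, x * a} : Set G)) (t := {x : G | x ∈ (T : Subgroup G) ∧ x ^ 2 = 1}) (by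
      have := Set.ncard_insert_le (1 : G) {a, x, x * a}
      have := Set.ncard_insert_le (a : G) {x, x * a}
      have := Set.ncard_insert_le (x : G) {x * a}
      have := Set.ncard_singleton (x * a)
      omega)
  simp only [Set.mem_insert_iff, Set.mem_singleton_iff, not_or] at hxn hyn
  refine ⟨x, hx, y, hy, hx2, hy2, hxn.1, hyn.1, fun h => hyn.2.2.1 h.symm, hxn.2, hyn.2.1, ?_⟩
  intro h1
  apply hyn.2.2.2
  rw [← h1, ← mul_assoc, ← sq, hx2, one_mul]

/-- the four-group generated by two commuting involutions -/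
def four (x y : G) (hx : x * x = 1) (hy : y * y = 1) (hxy : x * y = y * x) : Subgroup G where
  carrier := {z | z = 1 ∨ z = x ∨ z = y ∨ z = x * y}
  one_mem' := Or.inl rfl
  mul_mem' := by
    have e1 : x * (x * y) = y := by rw [← mul_assoc, hx, one_mul]
    have e2 : y * (x * y) = x := by rw [← mul_assoc, ← hxy, mul_assoc, hy, mul_one]
    have e3 : x * y * x = y := by rw [mul_assoc, ← hxy, e1]
    have e4 : x * y * y = x := by rw [mul_assoc, hy, mul_one]
    have e5 : x * y * (x * y) = 1 := by rw [← mul_assoc, e3, hy]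
    rintro a b (rfl | rfl | rfl | rfl) (rfl | rfl | rfl | rfl) <;>
      simp [hx, hy, ← hxy, e1, e2, e3, e4, e5]
  inv_mem' := by
    have e3 : x * y * x = y := by rw [mul_assoc, ← hxy, ← mul_assoc, hx, one_mul]
    have e5 : x * y * (x * y) = 1 := by rw [← mul_assoc, e3, hy]
    rintro a (rfl | rfl | rfl | rfl)
    · left; exact inv_one
    · right; left; exact inv_eq_of_mul_eq_one_left hx
    · right; right; left; exact inv_eq_of_mul_eq_one_left hy
    · right; right; right; exact inv_eq_of_mul_eq_one_left e5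

omit [Finite G] in
theorem mem_four {x y : G} {hx : x * x = 1} {hy : y * y = 1} {hxy : x * y = y * x} {z : G} :
    z ∈ four x y hx hy hxy ↔ z = 1 ∨ z = x ∨ z = y ∨ z = x * y := Iff.rfl

theorem not_cyclic_four {x y : G} {hx : x * x = 1} {hy : y * y = 1} {hxy : x * y = y * x} (hx1 : x ≠ 1)
    (hy1 : y ≠ 1) (hne : x ≠ y) : ¬ IsCyclic (four x y hx hy hxy) :=
  H11.NormalRankOne.not_isCyclic_of_two (z := x) (w := y) (Or.inr (Or.inl rfl)) (Or.inr (Or.inr (Or.inl rfl)))
    hne hx1 hy1 (by rw [sq, hx]) (by rw [sq, hy])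

theorem Ctx.four_le (h : Ctx p G) (T : Sylow 2 G) {x y : G} {hx : x * x = 1} {hy : y * y = 1}
    {hxy : x * y = y * x} (hxT : x ∈ (T : Subgroup G)) (hyT : y ∈ (T : Subgroup G)) :
    four x y hx hy hxy ≤ (T : Subgroup G) := by
  rintro z (rfl | rfl | rfl | rfl)
  · exact one_mem _
  · exact hxT
  · exact hyT
  · exact mul_mem hxT hyT

theorem Ctx.isMulCommutative_of_le (h : Ctx p G) (T : Sylow 2 G) {A : Subgroup G} (hA : A ≤ (T : Subgroup G)) :
    IsMulCommutative A :=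
  ⟨⟨fun a b => Subtype.ext (h.comm_T T (hA a.2) (hA b.2))⟩⟩

theorem coprime_of_odd {T K : Subgroup G} (hT : IsPGroup 2 T) (hK : Odd (Nat.card K)) :
    (Nat.card T).Coprime (Nat.card K) := by
  obtain ⟨n, hn⟩ := IsPGroup.iff_card.mp hT
  rw [hn]
  exact Nat.Coprime.pow_left _ (Nat.coprime_two_left.2 hK)

/-- a noncyclic subgroup of `T` has a nontrivial element with nontrivial fixed points -/
theorem Ctx.exists_fixed (h : Ctx p G) (T : Sylow 2 G) {A K : Subgroup G} (hAT : A ≤ (T : Subgroup G))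
    (hA : ¬ IsCyclic A) (hK : A ≤ normalizer (K : Set G)) (hodd : Odd (Nat.card K)) (hK1 : K ≠ ⊥) :
    ∃ a ∈ A, a ≠ 1 ∧ K ⊓ centralizer {a} ≠ ⊥ := by
  by_contra hcon
  push Not at hcon
  apply hK1
  rw [← H2.GenCent.main A K (h.isMulCommutative_of_le T hAT) hA hK
    (coprime_of_odd (T.isPGroup'.to_le hAT) hodd)]
  rw [eq_bot_iff]
  exact iSup₂_le fun a ha => (hcon a ha.1 ha.2).le

omit [Finite G] in
theorem le_normalizer_centralizer_of_comm {A : Subgroup G} (hA : IsMulCommutative A) {a : G} (ha : a ∈ A) :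
    A ≤ normalizer ((centralizer {a} : Subgroup G) : Set G) := by
  have h1 : A ≤ centralizer {a} := by
    intro x hx
    rw [mem_centralizer_singleton_iff]
    exact congrArg Subtype.val (hA.is_comm.comm ⟨x, hx⟩ ⟨a, ha⟩)
  exact h1.trans le_normalizer

/-- two nontrivial `T`-invariant subgroups of odd order have nontrivial fixed points for a common
involution -/
theorem Ctx.two (h : Ctx p G) (T : Sylow 2 G) {Q₁ Q₂ : Subgroup G}
    (h1 : (T : Subgroup G) ≤ normalizer (Q₁ : Set G)) (h2 : (T : Subgroup G) ≤ normalizer (Q₂ : Set G))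
    (ho1 : Odd (Nat.card Q₁)) (ho2 : Odd (Nat.card Q₂)) (hn1 : Q₁ ≠ ⊥) (hn2 : Q₂ ≠ ⊥) :
    ∃ t ∈ (T : Subgroup G), t ≠ 1 ∧ Q₁ ⊓ centralizer {t} ≠ ⊥ ∧ Q₂ ⊓ centralizer {t} ≠ ⊥ := by
  have hsq : ∀ {x : G}, x ^ 2 = 1 → x * x = 1 := fun hx => by rw [← sq, hx]
  have hTT : ∀ {a : G}, a ∈ (T : Subgroup G) → (T : Subgroup G) ≤ normalizer ((centralizer {a} : Subgroup G) : Set G) :=
    fun ha => le_normalizer_centralizer_of_comm (h.comm_two T) ha
  obtain ⟨x, hx, y, hy, hx2, hy2, hx1, hy1, hxy, -⟩ := h.exists_pair T 1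
  have hle := h.four_le T (hx := hsq hx2) (hy := hsq hy2) (hxy := h.comm_T T hx hy) hx hy
  obtain ⟨a, ha, ha1, hQa⟩ := h.exists_fixed T hle (not_cyclic_four hx1 hy1 hxy) (hle.trans h1) ho1 hn1
  have haT := hle ha
  have ha2 : a ^ 2 = 1 := by
    have e3 : x * y * x = y := by rw [mul_assoc, ← h.comm_T T hx hy, ← mul_assoc, hsq hx2, one_mul]
    rcases ha with h0 | h0 | h0 | h0
    · rw [h0]; exact one_pow _
    · rw [h0]; exact hx2
    · rw [h0]; exact hy2
    · rw [h0, sq, ← mul_assoc, e3, hsq hy2]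
  obtain ⟨u, hu, v, hv, hu2, hv2, hu1, hv1, huv, hua, hva, huva⟩ := h.exists_pair T a
  have hle' := h.four_le T (hx := hsq hu2) (hy := hsq hv2) (hxy := h.comm_T T hu hv) hu hv
  have hTa : (T : Subgroup G) ≤ normalizer ((Q₁ ⊓ centralizer {a} : Subgroup G) : Set G) :=
    H1.Coprime2.le_normalizer_inf h1 (hTT haT)
  obtain ⟨b, hb, hb1, hQb⟩ := h.exists_fixed T (K := Q₁ ⊓ centralizer {a}) hle'
    (not_cyclic_four hu1 hv1 huv) (hle'.trans hTa) (ho1.of_dvd_nat (card_dvd_of_le inf_le_left)) hQa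
  have hbT := hle' hb
  have hb2 : b ^ 2 = 1 := by
    have e3 : u * v * u = v := by rw [mul_assoc, ← h.comm_T T hu hv, ← mul_assoc, hsq hu2, one_mul]
    rcases hb with h0 | h0 | h0 | h0
    · rw [h0]; exact one_pow _
    · rw [h0]; exact hu2
    · rw [h0]; exact hv2
    · rw [h0, sq, ← mul_assoc, e3, hsq hv2]
  have hba : a ≠ b := by
    rintro rfl
    rcases hb with h0 | h0 | h0 | h0
    · exact ha1 h0
    · exact hua h0.symm
    · exact hva h0.symm
    · exact huva h0.symm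
  have hle'' := h.four_le T (hx := hsq ha2) (hy := hsq hb2) (hxy := h.comm_T T haT hbT) haT hbT
  obtain ⟨c, hc, hc1, hQc⟩ := h.exists_fixed T hle'' (not_cyclic_four ha1 hb1 hba) (hle''.trans h2) ho2 hn2
  refine ⟨c, hle'' hc, hc1, ?_, hQc⟩
  intro hbot
  apply hQb
  rw [eq_bot_iff, ← hbot]
  rintro z ⟨⟨hz1, hz2⟩, hz3⟩
  refine ⟨hz1, ?_⟩
  have hza : z * a = a * z := mem_centralizer_singleton_iff.1 hz2
  have hzb : z * b = b * z := mem_centralizer_singleton_iff.1 hz3
  show z ∈ centralizer {c}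
  rw [mem_centralizer_singleton_iff]
  rcases hc with h0 | h0 | h0 | h0
  · rw [h0, mul_one, one_mul]
  · rw [h0, hza]
  · rw [h0, hzb]
  · rw [h0, ← mul_assoc, hza, mul_assoc, hzb, mul_assoc]

end H69.PPA
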