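import Cfsg.Agent.Lib.H69.PPA1
import Cfsg.Agent.Lib.H11.InvSub
import Cfsg.Agent.Lib.H69.EvenNormalizer
import Cfsg.Agent.Lib.H13.Cores

/-!
Groups all of whose `p'`-subgroups are abelian (S1936), part 2: the transitivity theorem for the maximal
`T`-invariant `p`-subgroups.
-/

set_option autoImplicit false
set_option linter.all false

namespace H69.PPA

open Subgroup H1.Coprime2
open scoped Pointwise commutatorElement

universe u

variable {G : Type u} [Group G] [Finite G] {p : ℕ} [hp : Fact p.Prime]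

/-- the largest normal subgroup of odd order of `X` -/
def O2 (X : Subgroup G) : Subgroup G := (Cfsg.pPrimeCore 2 X).map X.subtype

omit [Finite G] in
theorem O2_le (X : Subgroup G) : O2 X ≤ X := map_subtype_le _

theorem odd_O2 (X : Subgroup G) : Odd (Nat.card (O2 X)) := by
  have h1 := H1.Cores.coprime_card_pPrimeCore (G := X) 2
  rw [O2, card_map_of_injective X.subtype_injective]
  exact Nat.coprime_two_right.1 h1

theorem normalizer_le_O2 (X : Subgroup G) : normalizer (X : Set G) ≤ normalizer (O2 X : Set G) := by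
  haveI := H1.Cores.pPrimeCore_characteristic (G := X) 2
  exact H13.Cores.normalizer_le_normalizer_map X _

theorem le_normalizer_O2 (X : Subgroup G) : X ≤ normalizer (O2 X : Set G) :=
  le_normalizer.trans (normalizer_le_O2 X)

theorem smul_O2 (X : Subgroup G) (g : G) : MulAut.conj g • O2 X = O2 (MulAut.conj g • X) := by
  have h1 := H1.Cores.map_equiv_pPrimeCore (G := X) 2 (Subgroup.equivSMul (MulAut.conj g) X)
  rw [O2, O2, ← h1]
  ext x
  rw [H1.SZ.mem_conj_smul]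
  constructor
  · rintro ⟨y, hy, hyx⟩
    refine ⟨Subgroup.equivSMul (MulAut.conj g) X y, mem_map_of_mem _ hy, ?_⟩
    show g * (y : G) * g⁻¹ = x
    have h2 : (y : G) = g⁻¹ * x * g := hyx
    rw [h2]; group
  · rintro ⟨_, ⟨y, hy, rfl⟩, hyx⟩
    refine ⟨y, hy, ?_⟩
    have h2 : g * (y : G) * g⁻¹ = x := hyx
    show (y : G) = g⁻¹ * x * g
    rw [← h2]; group

theorem Ctx.top_ne (h : Ctx p G) : (⊥ : Subgroup G) ≠ ⊤ := by
  haveI := h.simple
  exact bot_ne_top

theorem Ctx.eq_top (h : Ctx p G) {N : Subgroup G} (hN : N.Normal) (h1 : N ≠ ⊥) : N = ⊤ :=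
  (h.simple.eq_bot_or_eq_top_of_normal N hN).resolve_left h1

theorem Ctx.normalizer_ne_top (h : Ctx p G) {N : Subgroup G} (h1 : N ≠ ⊥) (h2 : N ≠ ⊤) :
    normalizer (N : Set G) ≠ ⊤ := by
  intro h3
  exact h2 (h.eq_top (normalizer_eq_top_iff.1 h3) h1)

theorem Ctx.centralizer_ne_top (h : Ctx p G) {t : G} (ht : t ≠ 1) : centralizer {t} ≠ ⊤ := by
  haveI := h.simple
  intro h3
  have h1 : t ∈ center G := by
    rw [mem_center_iff]
    intro g
    have h2 : g ∈ centralizer {t} := by rw [h3]; trivial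
    exact mem_centralizer_singleton_iff.1 h2
  rw [H58.AbSyl.center_eq_bot h.nab] at h1
  exact ht h1

theorem Ctx.solvable (h : Ctx p G) {N : Subgroup G} (h1 : N ≠ ⊤) : Group.IsSolvable N := h.solv N h1

theorem Ctx.not_solvable (h : Ctx p G) : ¬ Group.IsSolvable G := by
  intro h1
  haveI := h.simple
  apply h.nab
  have h2 := (IsSimpleGroup.comm_iff_isSolvable (G := G)).2 h1
  exact ⟨⟨h2⟩⟩

theorem Ctx.ne_top_of_isPGroup (h : Ctx p G) {q : ℕ} [hq : Fact q.Prime] {Q : Subgroup G} (hQ : IsPGroup q Q) :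
    Q ≠ ⊤ := by
  rintro rfl
  apply h.not_solvable
  have h1 : IsPGroup q G := hQ.of_equiv topEquiv
  haveI := h1.isNilpotent
  infer_instance

theorem Ctx.odd_of_isPGroup (h : Ctx p G) {Q : Subgroup G} (hQ : IsPGroup p Q) : Odd (Nat.card Q) := by
  obtain ⟨n, hn⟩ := IsPGroup.iff_card.mp hQ
  rw [hn]
  exact (hp.out.odd_of_ne_two h.ne_two).pow

theorem Ctx.solvable_T (h : Ctx p G) (T : Sylow 2 G) : Group.IsSolvable (T : Subgroup G) := by
  haveI := T.isPGroup'.isNilpotent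
  infer_instance

/-! ### the structure of the proper subgroups containing `T` -/

theorem Ctx.decomp (h : Ctx p G) (T : Sylow 2 G) {X : Subgroup G} (hX : X ≠ ⊤) (hT : (T : Subgroup G) ≤ X)
    {x : G} (hx : x ∈ X) : ∃ o ∈ O2 X, ∃ n ∈ X ⊓ normalizer ((T : Subgroup G) : Set G), x = o * n := by
  haveI : Fact (Nat.Prime 2) := ⟨Nat.prime_two⟩
  have hcomm : IsMulCommutative ((T.subtype hT : Sylow 2 X) : Subgroup X) := by
    refine ⟨⟨fun a b => Subtype.ext (Subtype.ext ?_)⟩⟩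
    exact h.comm_T T a.2 b.2
  set S : Sylow 2 X := T.subtype hT with hS
  have hn := H1.Solv.sylow_sup_pPrimeCore_normal (h.solv X hX) 2 S hcomm
  have hfr : normalizer ((S : Subgroup X) : Set X) ⊔ ((S : Subgroup X) ⊔ Cfsg.pPrimeCore 2 X) = ⊤ :=
    Sylow.normalizer_sup_eq_top' S le_sup_left
  have hfr2 : Cfsg.pPrimeCore 2 X ⊔ normalizer ((S : Subgroup X) : Set X) = ⊤ := by
    rw [eq_top_iff, ← hfr]
    exact sup_le le_sup_right (sup_le (le_normalizer.trans le_sup_right) le_sup_left)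
  haveI := H1.Cores.pPrimeCore_normal (G := X) 2
  have hx' : (⟨x, hx⟩ : X) ∈ (Cfsg.pPrimeCore 2 X ⊔ normalizer ((S : Subgroup X) : Set X) : Subgroup X) := by
    rw [hfr2]; trivial
  obtain ⟨o, ho, n, hn', hon⟩ := Subgroup.mem_sup_of_normal_left.1 hx'
  refine ⟨o, ⟨o, ho, rfl⟩, n, ⟨n.2, ?_⟩, ?_⟩
  · show (n : G) ∈ normalizer ((T : Subgroup G) : Set G)
    rw [mem_normalizer_iff]
    intro y
    have hmem : ∀ y : G, ∀ hy : y ∈ X, y ∈ (T : Subgroup G) ↔ (⟨y, hy⟩ : X) ∈ (S : Subgroup X) := fun y hy => Iff.rfl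
    constructor
    · intro hy
      have h1 := (mem_normalizer_iff.1 hn' ⟨y, hT hy⟩).1 ((hmem y (hT hy)).1 hy)
      exact h1
    · intro hy
      have hyX : y ∈ X := by
        have h2 : y = (n : G)⁻¹ * ((n : G) * y * (n : G)⁻¹) * n := by group
        rw [h2]
        exact mul_mem (mul_mem (inv_mem n.2) (hT hy)) n.2
      exact (hmem y hyX).2 ((mem_normalizer_iff.1 hn' ⟨y, hyX⟩).2 hy)
  · exact (congrArg Subtype.val hon).symm

theorem Ctx.le_O2 (h : Ctx p G) (T : Sylow 2 G) {X : Subgroup G} (hX : X ≠ ⊤) (hT : (T : Subgroup G) ≤ X)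
    {K : Subgroup G} (hKX : K ≤ X) (hTK : (T : Subgroup G) ≤ normalizer (K : Set G)) (hK : Odd (Nat.card K)) :
    K ≤ O2 X := by
  haveI : Fact (Nat.Prime 2) := ⟨Nat.prime_two⟩
  have h1 := H11.InvSub.le_pPrimeCore_of_sylow (h.solv X hX) 2 (T.subtype hT)
    ((T.subtype hT : Sylow 2 X) : Subgroup X) (K.subgroupOf X) le_rfl le_normalizer inf_le_left
    (by rw [H1.SZ.card_subgroupOf_of_le hKX]; exact Nat.coprime_two_right.2 hK)
    (by
      intro t ht
      have ht' : (t : G) ∈ (T : Subgroup G) := ht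
      rw [mem_normalizer_iff]
      intro y
      rw [mem_subgroupOf, mem_subgroupOf]
      exact mem_normalizer_iff.1 (hTK ht') y)
  have h2 := map_mono (f := X.subtype) h1
  rwa [map_subgroupOf_eq_of_le hKX] at h2

/-! ### commutators with `T` -/

theorem not_dvd_index_of_isSylIn {r : ℕ} [hr : Fact r.Prime] {K R C : Subgroup G} (hR : IsSylIn r K R) (hRC : R ≤ C) :
    ¬ r ∣ (C.subgroupOf K).index := by
  obtain ⟨P, hP⟩ := hR.exists_sylow
  have h1 : (P : Subgroup K) ≤ C.subgroupOf K := by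
    intro x hx
    rw [mem_subgroupOf]
    apply hRC
    rw [← hP]
    exact ⟨x, hx, rfl⟩
  intro h2
  exact P.not_dvd_index (h2.trans (index_dvd_of_le h1))

/-- `[K,T]` lies in every `T`-invariant Sylow `p`-subgroup -/
theorem Ctx.commutator_le (h : Ctx p G) (T : Sylow 2 G) {K Q : Subgroup G}
    (hTK : (T : Subgroup G) ≤ normalizer (K : Set G)) (hK : Odd (Nat.card K))
    (hQ : IsSylIn p K Q) (hTQ : (T : Subgroup G) ≤ normalizer (Q : Set G)) : ⁅K, (T : Subgroup G)⁆ ≤ Q := by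
  have hcop := coprime_of_odd T.isPGroup' hK
  set C := K ⊓ centralizer ((T : Subgroup G) : Set G) with hC
  have hidx : (Q.subgroupOf K).index.Coprime (C.subgroupOf K).index := by
    apply Nat.coprime_of_dvd
    intro r hr h1 h2
    haveI : Fact r.Prime := ⟨hr⟩
    by_cases hrp : r = p
    · subst hrp
      exact not_dvd_index_of_isSylIn hQ le_rfl h1
    · obtain ⟨R, hR, hTR⟩ := exists_invariant_sylow (T : Subgroup G) K hTK hcop (Or.inl (h.solvable_T T)) r
      refine not_dvd_index_of_isSylIn hR (le_inf hR.1 ?_) h2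
      intro x hx
      rw [mem_centralizer_iff]
      intro t ht
      refine (h.comm (A := R) (B := (T : Subgroup G)) ?_ (h.coprime_of_two T.isPGroup') hTR hx ht).symm
      obtain ⟨n, hn⟩ := IsPGroup.iff_card.mp hR.isPGroup
      rw [hn]
      exact Nat.Coprime.pow_left _ ((Nat.coprime_primes hr hp.out).2 hrp)
  rw [Subgroup.commutator_le]
  intro k hk t ht
  obtain ⟨q, hq, c, hc, hqc⟩ := H1.Solv.exists_mul_of_coprime_index hidx ⟨k, hk⟩
  have hq' : (q : G) ∈ Q := hq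
  have hc' : (c : G) ∈ C := hc
  have h1 : k = q * c := congrArg Subtype.val hqc
  have h2 : t * c = c * t := mem_centralizer_iff.1 hc'.2 t ht
  have h3 : ⁅k, t⁆ = q * (t * (q : G)⁻¹ * t⁻¹) := by
    rw [commutatorElement_def, h1, mul_inv_rev]
    calc (q : G) * c * t * ((c : G)⁻¹ * (q : G)⁻¹) * t⁻¹ = q * (c * t) * (c : G)⁻¹ * (q : G)⁻¹ * t⁻¹ := by group
      _ = q * (t * c) * (c : G)⁻¹ * (q : G)⁻¹ * t⁻¹ := by rw [h2]
      _ = _ := by group
  rw [h3]
  exact mul_mem hq' ((mem_normalizer_iff.1 (hTQ ht) _).1 (inv_mem hq'))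

theorem Ctx.isPGroup_commutator (h : Ctx p G) (T : Sylow 2 G) {K : Subgroup G}
    (hTK : (T : Subgroup G) ≤ normalizer (K : Set G)) (hK : Odd (Nat.card K)) :
    IsPGroup p (⁅K, (T : Subgroup G)⁆ : Subgroup G) := by
  obtain ⟨Q, hQ, hTQ⟩ := exists_invariant_sylow (T : Subgroup G) K hTK (coprime_of_odd T.isPGroup' hK)
    (Or.inl (h.solvable_T T)) p
  exact hQ.isPGroup.to_le (h.commutator_le T hTK hK hQ hTQ)

/-! ### the transitivity theorem -/

/-- maximal `T`-invariant `p`-subgroups -/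
def MaxInv (p : ℕ) (T Q : Subgroup G) : Prop :=
  IsPGroup p Q ∧ T ≤ normalizer (Q : Set G) ∧
    ∀ R : Subgroup G, IsPGroup p R → T ≤ normalizer (R : Set G) → Q ≤ R → Q = R

theorem exists_maxInv {T Q : Subgroup G} (hQ : IsPGroup p Q) (hT : T ≤ normalizer (Q : Set G)) :
    ∃ R, MaxInv p T R ∧ Q ≤ R := by
  obtain ⟨V, ⟨hUV, hVp, hVA⟩, hmax⟩ := (Set.toFinite {V : Subgroup G | Q ≤ V ∧
    IsPGroup p V ∧ T ≤ normalizer (V : Set G)}).exists_maximal ⟨Q, le_rfl, hQ, hT⟩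
  refine ⟨V, ⟨hVp, hVA, ?_⟩, hUV⟩
  intro R hR hTR hVR
  exact le_antisymm hVR (hmax ⟨hUV.trans hVR, hR, hTR⟩ hVR)

omit [Finite G] hp in
theorem isPGroup_smul {Q : Subgroup G} (hQ : IsPGroup p Q) (g : G) : IsPGroup p (MulAut.conj g • Q : Subgroup G) :=
  hQ.of_equiv (Subgroup.equivSMul (MulAut.conj g) Q)

omit [Finite G] in
theorem smul_normalizer {Q : Subgroup G} (g : G) :
    MulAut.conj g • normalizer (Q : Set G) = normalizer ((MulAut.conj g • Q : Subgroup G) : Set G) := by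
  ext x
  rw [H1.SZ.mem_conj_smul, ← H1.SZ.conj_smul_eq_iff, ← H1.SZ.conj_smul_eq_iff, ← H1.SZ.conj_mul_smul]
  constructor
  · intro h1
    have h2 := congrArg (fun K => MulAut.conj g • K) h1
    rw [← H1.SZ.conj_mul_smul] at h2
    convert h2 using 2
    group
  · intro h1
    have h2 := congrArg (fun K => MulAut.conj g⁻¹ • K) h1
    rw [← H1.SZ.conj_mul_smul, ← H1.SZ.conj_mul_smul, inv_mul_cancel, map_one, one_smul] at h2
    convert h2 using 2
    group

omit [Finite G] in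
theorem smul_eq_of_mem_centralizer {T : Subgroup G} {c : G} (hc : c ∈ centralizer (T : Set G)) :
    MulAut.conj c • T = T := by
  apply H1.SZ.conj_smul_eq_of_mem_normalizer
  exact (centralizer_le_normalizer (T : Set G)) hc

omit [Finite G] in
theorem MaxInv.smul {T Q : Subgroup G} (hQ : MaxInv p T Q) {c : G} (hc : c ∈ normalizer (T : Set G)) :
    MaxInv p T (MulAut.conj c • Q) := by
  obtain ⟨h1, h2, h3⟩ := hQ
  have hcT : MulAut.conj c • T = T := H1.SZ.conj_smul_eq_of_mem_normalizer hc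
  have hcT' : MulAut.conj c⁻¹ • T = T := H1.SZ.conj_smul_eq_of_mem_normalizer (inv_mem hc)
  refine ⟨isPGroup_smul h1 c, ?_, ?_⟩
  · rw [← smul_normalizer, ← hcT]
    exact pointwise_smul_le_pointwise_smul_iff.2 h2
  · intro R hR hTR hle
    have h4 := h3 (MulAut.conj c⁻¹ • R) (isPGroup_smul hR _) (by
      rw [← smul_normalizer, ← hcT']
      exact pointwise_smul_le_pointwise_smul_iff.2 hTR) (by
      have := (pointwise_smul_le_pointwise_smul_iff (a := MulAut.conj c⁻¹)).2 hle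
      rwa [← H1.SZ.conj_mul_smul, inv_mul_cancel, map_one, one_smul] at this)
    rw [h4, ← H1.SZ.conj_mul_smul, mul_inv_cancel, map_one, one_smul]

/-- the local situation: a proper overgroup `X` of `T` in which both `Q₁` and `Q₂` are larger than `D` -/
theorem Ctx.exists_local (h : Ctx p G) (T : Sylow 2 G) {Q₁ Q₂ : Subgroup G} (h1 : MaxInv p (T : Subgroup G) Q₁)
    (h2 : MaxInv p (T : Subgroup G) Q₂) (hne : Q₁ ≠ Q₂) :
    ∃ X : Subgroup G, X ≠ ⊤ ∧ (T : Subgroup G) ≤ X ∧ Q₁ ⊓ Q₂ < Q₁ ⊓ X ∧ Q₁ ⊓ Q₂ < Q₂ ⊓ X := by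
  set D := Q₁ ⊓ Q₂ with hD
  have hD1 : D < Q₁ := by
    refine lt_of_le_of_ne inf_le_left ?_
    intro he
    exact hne (h1.2.2 Q₂ h2.1 h2.2.1 (inf_eq_left.1 he))
  have hD2 : D < Q₂ := by
    refine lt_of_le_of_ne inf_le_right ?_
    intro he
    exact hne (h2.2.2 Q₁ h1.1 h1.2.1 (inf_eq_right.1 he)).symm
  by_cases hDb : D = ⊥
  · rw [hDb] at hD1 hD2 ⊢
    obtain ⟨t, ht, ht1, ha, hb⟩ := h.two T h1.2.1 h2.2.1 (h.odd_of_isPGroup h1.1) (h.odd_of_isPGroup h2.1)
      hD1.ne' hD2.ne'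
    refine ⟨centralizer {t}, h.centralizer_ne_top ht1, ?_, bot_lt_iff_ne_bot.2 ha, bot_lt_iff_ne_bot.2 hb⟩
    intro x hx
    rw [mem_centralizer_singleton_iff]
    exact h.comm_T T hx ht
  · refine ⟨normalizer (D : Set G), h.normalizer_ne_top hDb
      (h.ne_top_of_isPGroup (h1.1.to_le inf_le_left)), le_normalizer_inf h1.2.1 h2.2.1, ?_, ?_⟩
    · obtain ⟨R, hR1, hR2, hR3⟩ := H69.EvenNormalizer.exists_gt_le_normalizer D Q₁ h1.1 hD1
      exact hR1.trans_le (le_inf hR2 hR3)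
    · obtain ⟨R, hR1, hR2, hR3⟩ := H69.EvenNormalizer.exists_gt_le_normalizer D Q₂ h2.1 hD2
      exact hR1.trans_le (le_inf hR2 hR3)

/-- **Thompson transitivity**: the maximal `T`-invariant `p`-subgroups are conjugate under `C(T)` -/
theorem Ctx.transitive (h : Ctx p G) (T : Sylow 2 G) : ∀ (n : ℕ) (Q₁ Q₂ : Subgroup G),
    MaxInv p (T : Subgroup G) Q₁ → MaxInv p (T : Subgroup G) Q₂ →
    Nat.card G - Nat.card (Q₁ ⊓ Q₂ : Subgroup G) ≤ n →
    ∃ c ∈ centralizer ((T : Subgroup G) : Set G), MulAut.conj c • Q₁ = Q₂ := by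
  intro n
  induction n with
  | zero =>
    intro Q₁ Q₂ h1 h2 hn
    exfalso
    have h3 : Nat.card G ≤ Nat.card (Q₁ ⊓ Q₂ : Subgroup G) := by omega
    have h4 : Q₁ ⊓ Q₂ = ⊤ := by
      apply Subgroup.eq_top_of_card_eq
      exact le_antisymm (Subgroup.card_le_card_group _) h3
    have h5 : Q₁ = ⊤ := by
      rw [eq_top_iff, ← h4]
      exact inf_le_left
    exact h.ne_top_of_isPGroup h1.1 h5
  | succ n ih =>
    intro Q₁ Q₂ h1 h2 hn
    by_cases hne : Q₁ = Q₂
    · exact ⟨1, one_mem _, by rw [map_one, one_smul, hne]⟩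
    obtain ⟨X, hX, hTX, hl1, hl2⟩ := h.exists_local T h1 h2 hne
    have hlt : ∀ {A : Subgroup G}, Q₁ ⊓ Q₂ < A → Nat.card G - Nat.card A ≤ n := by
      intro A hA
      have h3 : Nat.card (Q₁ ⊓ Q₂ : Subgroup G) < Nat.card A := by
        apply lt_of_le_of_ne (Subgroup.card_le_of_le hA.le)
        intro he
        exact hA.ne (Subgroup.eq_of_le_of_card_ge hA.le he.ge)
      omega
    have hTO : (T : Subgroup G) ≤ normalizer (O2 X : Set G) := hTX.trans (le_normalizer_O2 X)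
    have hcop := coprime_of_odd T.isPGroup' (odd_O2 X)
    have hA : ∀ {Q : Subgroup G}, MaxInv p (T : Subgroup G) Q → ∃ B, IsSylIn p (O2 X) B ∧ Q ⊓ X ≤ B ∧
        (T : Subgroup G) ≤ normalizer (B : Set G) := by
      intro Q hQ
      have h4 : (T : Subgroup G) ≤ normalizer ((Q ⊓ X : Subgroup G) : Set G) :=
        le_normalizer_inf hQ.2.1 (hTX.trans le_normalizer)
      exact exists_invariant_sylow_ge (T : Subgroup G) (O2 X) hTO hcop (Or.inl (h.solvable_T T)) p (Q ⊓ X)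
        (h.le_O2 T hX hTX inf_le_right h4 (h.odd_of_isPGroup (hQ.1.to_le inf_le_left)))
        (hQ.1.to_le inf_le_left) h4
    obtain ⟨B₁, hB1, hQB1, hTB1⟩ := hA h1
    obtain ⟨B₂, hB2, hQB2, hTB2⟩ := hA h2
    obtain ⟨c, hc, hcB⟩ := conj_invariant_sylow (T : Subgroup G) (O2 X) hTO hcop (Or.inl (h.solvable_T T)) p
      B₁ B₂ hB1 hB2 hTB1 hTB2
    obtain ⟨Q₃, h3, hB3⟩ := exists_maxInv hB1.isPGroup hTB1
    have h3' := h3.smul ((centralizer_le_normalizer ((T : Subgroup G) : Set G)) hc.2)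
    obtain ⟨c1, hc1, hq1⟩ := ih Q₁ Q₃ h1 h3 (hlt (hl1.trans_le (le_inf inf_le_left (hQB1.trans hB3))))
    have hB2Q : B₂ ≤ MulAut.conj c • Q₃ := by
      rw [← hcB]
      exact pointwise_smul_le_pointwise_smul_iff.2 hB3
    obtain ⟨c2, hc2, hq2⟩ := ih (MulAut.conj c • Q₃) Q₂ h3' h2
      (hlt (hl2.trans_le (le_inf (hQB2.trans hB2Q) inf_le_left)))
    refine ⟨c2 * (c * c1), mul_mem hc2 (mul_mem hc.2 hc1), ?_⟩
    rw [H1.SZ.conj_mul_smul, H1.SZ.conj_mul_smul, hq1, hq2]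

/-- a `p`-subgroup normalized by `T` and `C(T)` lies in all maximal `T`-invariant `p`-subgroups -/
theorem Ctx.le_maxInv (h : Ctx p G) (T : Sylow 2 G) {S Q : Subgroup G} (hS : IsPGroup p S)
    (hTS : (T : Subgroup G) ≤ normalizer (S : Set G))
    (hCS : centralizer ((T : Subgroup G) : Set G) ≤ normalizer (S : Set G)) (hQ : MaxInv p (T : Subgroup G) Q) :
    S ≤ Q := by
  obtain ⟨R, hR, hSR⟩ := exists_maxInv hS hTS
  obtain ⟨c, hc, hcR⟩ := h.transitive T _ R Q hR hQ le_rfl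
  rw [← hcR, ← H1.SZ.conj_smul_eq_of_mem_normalizer (hCS hc)]
  exact pointwise_smul_le_pointwise_smul_iff.2 hSR

end H69.PPA
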