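import Cfsg.Agent.Lib.H69.PPA2
import Cfsg.Agent.Lib.H65.PBasic2
import Cfsg.Agent.Lib.H39.SylowAux

/-!
Groups all of whose `p'`-subgroups are abelian (S1936), part 3: the maximal subgroup `M` containing the
centralizers of all involutions of `T`.
-/

set_option autoImplicit false
set_option linter.all false

namespace H69.PPA

open Subgroup H1.Coprime2
open scoped Pointwise commutatorElement

universe u

variable {G : Type u} [Group G] [Finite G] {p : ℕ} [hp : Fact p.Prime]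

/-- `[O(C(t)), T]` -/
def th (T : Subgroup G) (t : G) : Subgroup G := ⁅O2 (centralizer {t}), T⁆

/-- the subgroup generated by all `[O(C(t)), T]` -/
def R0 (T : Subgroup G) : Subgroup G := ⨆ t ∈ {t : G | t ∈ T ∧ t ≠ 1}, th T t

omit [Finite G] in
theorem th_le_R0 {T : Subgroup G} {t : G} (ht : t ∈ T) (ht1 : t ≠ 1) : th T t ≤ R0 T :=
  le_iSup₂_of_le (f := fun (a : G) (_ : a ∈ {t : G | t ∈ T ∧ t ≠ 1}) => th T a) t ⟨ht, ht1⟩ le_rfl

theorem Ctx.le_centralizer_single (h : Ctx p G) (T : Sylow 2 G) {t : G} (ht : t ∈ (T : Subgroup G)) :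
    (T : Subgroup G) ≤ centralizer {t} := by
  intro x hx
  rw [mem_centralizer_singleton_iff]
  exact h.comm_T T hx ht

theorem Ctx.le_norm_O2c (h : Ctx p G) (T : Sylow 2 G) {t : G} (ht : t ∈ (T : Subgroup G)) :
    (T : Subgroup G) ≤ normalizer (O2 (centralizer {t}) : Set G) :=
  (h.le_centralizer_single T ht).trans (le_normalizer_O2 _)

theorem Ctx.th_le (h : Ctx p G) (T : Sylow 2 G) {t : G} (ht : t ∈ (T : Subgroup G)) (ht1 : t ≠ 1)
    {Q : Subgroup G} (hQ : MaxInv p (T : Subgroup G) Q) : th (T : Subgroup G) t ≤ Q := by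
  apply h.le_maxInv T _ _ _ hQ
  · exact h.isPGroup_commutator T (h.le_norm_O2c T ht) (odd_O2 _)
  · exact le_normalizer_commutator (h.le_norm_O2c T ht) le_normalizer
  · refine le_normalizer_commutator ?_ (centralizer_le_normalizer _)
    refine le_trans ?_ (le_normalizer_O2 _)
    apply centralizer_le
    rintro x hx
    rw [Set.mem_singleton_iff.1 hx]
    exact ht

theorem Ctx.R0_le (h : Ctx p G) (T : Sylow 2 G) {Q : Subgroup G} (hQ : MaxInv p (T : Subgroup G) Q) :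
    R0 (T : Subgroup G) ≤ Q :=
  iSup₂_le fun t ht => h.th_le T ht.1 ht.2 hQ

theorem Ctx.isPGroup_R0 (h : Ctx p G) (T : Sylow 2 G) : IsPGroup p (R0 (T : Subgroup G)) := by
  obtain ⟨Q, hQ, -⟩ := exists_maxInv (T := (T : Subgroup G)) (IsPGroup.of_bot (p := p) (G := G)) (by
    rw [normalizer_eq_top]; exact le_top)
  exact hQ.1.to_le (h.R0_le T hQ)

omit [Finite G] in
theorem smul_centralizer_single (g t : G) :
    MulAut.conj g • (centralizer {t} : Subgroup G) = centralizer {g * t * g⁻¹} := by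
  ext x
  rw [H1.SZ.mem_conj_smul, mem_centralizer_singleton_iff, mem_centralizer_singleton_iff]
  constructor
  · intro h1
    calc x * (g * t * g⁻¹) = g * ((g⁻¹ * x * g) * t) * g⁻¹ := by group
      _ = g * (t * (g⁻¹ * x * g)) * g⁻¹ := by rw [h1]
      _ = _ := by group
  · intro h1
    calc g⁻¹ * x * g * t = g⁻¹ * (x * (g * t * g⁻¹)) * g := by group
      _ = g⁻¹ * ((g * t * g⁻¹) * x) * g := by rw [h1]
      _ = _ := by group

theorem smul_th {T : Subgroup G} {n t : G} (hn : n ∈ normalizer (T : Set G)) :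
    MulAut.conj n • th T t = th T (n * t * n⁻¹) := by
  rw [th, th, ← smul_centralizer_single, ← smul_O2]
  have h1 : MulAut.conj n • T = T := H1.SZ.conj_smul_eq_of_mem_normalizer hn
  conv_rhs => rw [← h1]
  rw [H1.SZ.conj_smul_eq_map, H1.SZ.conj_smul_eq_map, H1.SZ.conj_smul_eq_map, map_commutator]

theorem normalizer_le_R0 (T : Subgroup G) : normalizer (T : Set G) ≤ normalizer (R0 T : Set G) := by
  have key : ∀ n ∈ normalizer (T : Set G), MulAut.conj n • R0 T ≤ R0 T := by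
    intro n hn
    rw [H1.SZ.conj_smul_eq_map, map_le_iff_le_comap]
    refine iSup₂_le fun t ht => ?_
    rw [← map_le_iff_le_comap, ← H1.SZ.conj_smul_eq_map, smul_th hn]
    apply th_le_R0
    · exact (mem_normalizer_iff.1 hn t).1 ht.1
    · intro h1
      rw [mul_inv_eq_one] at h1
      exact ht.2 (mul_eq_left.mp h1)
  intro n hn
  apply H1.SZ.mem_normalizer_of_conj_smul_eq
  apply Subgroup.eq_of_le_of_card_ge (key n hn)
  rw [H1.SZ.card_conj_smul]

/-- if `T` centralizes `R0` then `R0 = 1` -/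
theorem Ctx.R0_eq_bot (h : Ctx p G) (T : Sylow 2 G)
    (h1 : (T : Subgroup G) ≤ centralizer (R0 (T : Subgroup G) : Set G)) : R0 (T : Subgroup G) = ⊥ := by
  rw [eq_bot_iff]
  refine iSup₂_le fun t ht => ?_
  have h2 := commutator_commutator_eq (T : Subgroup G) (O2 (centralizer {t})) (h.le_norm_O2c T ht.1)
    (coprime_of_odd T.isPGroup' (odd_O2 _)) (Or.inl (h.solvable_T T))
  rw [th, ← h2, Subgroup.commutator_comm, le_bot_iff, commutator_eq_bot_iff_le_centralizer]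
  exact h1.trans (centralizer_le (th_le_R0 ht.1 ht.2))

/-- the properties of `M` -/
structure Emb (T M : Subgroup G) : Prop where
  ne_top : M ≠ ⊤
  nt : normalizer (T : Set G) ≤ M
  cent : ∀ t ∈ T, t ≠ 1 → centralizer {t} ≤ M

theorem Ctx.T_ne_bot (h : Ctx p G) (T : Sylow 2 G) : (T : Subgroup G) ≠ ⊥ := by
  obtain ⟨t, ht, ht1, -⟩ := h.exists_invol T
  intro h1
  rw [h1] at ht
  exact ht1 ht

theorem Ctx.exists_emb (h : Ctx p G) (T : Sylow 2 G) : ∃ M : Subgroup G, Emb (T : Subgroup G) M ∧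
    ((R0 (T : Subgroup G) = ⊥ ∧ M = normalizer ((T : Subgroup G) : Set G)) ∨
      (R0 (T : Subgroup G) ≠ ⊥ ∧ M = normalizer (R0 (T : Subgroup G) : Set G))) := by
  haveI : Fact (Nat.Prime 2) := ⟨Nat.prime_two⟩
  have key : ∀ M : Subgroup G, M ≠ ⊤ → normalizer ((T : Subgroup G) : Set G) ≤ M →
      R0 (T : Subgroup G) ≤ M → Emb (T : Subgroup G) M := by
    intro M hM hNM hR
    refine ⟨hM, hNM, ?_⟩
    intro t ht ht1 x hx
    obtain ⟨o, ho, n, hn, rfl⟩ := h.decomp T (h.centralizer_ne_top ht1) (h.le_centralizer_single T ht) hx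
    refine mul_mem ?_ (hNM hn.2)
    obtain ⟨y, hy, c, hc, rfl⟩ := exists_mul_of_mem (T : Subgroup G) (O2 (centralizer {t})) (h.le_norm_O2c T ht)
      (coprime_of_odd T.isPGroup' (odd_O2 _)) (Or.inl (h.solvable_T T)) ho
    exact mul_mem (hR (th_le_R0 ht ht1 hy)) (hNM ((centralizer_le_normalizer _) hc.2))
  by_cases h1 : R0 (T : Subgroup G) = ⊥
  · refine ⟨_, key (normalizer ((T : Subgroup G) : Set G)) ?_ le_rfl (by rw [h1]; exact bot_le), Or.inl ⟨h1, rfl⟩⟩
    exact h.normalizer_ne_top (h.T_ne_bot T) (h.ne_top_of_isPGroup T.isPGroup')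
  · refine ⟨_, key (normalizer (R0 (T : Subgroup G) : Set G)) ?_ (normalizer_le_R0 _) le_normalizer,
      Or.inr ⟨h1, rfl⟩⟩
    exact h.normalizer_ne_top h1 (h.ne_top_of_isPGroup (h.isPGroup_R0 T))

/-! ### consequences of the embedding -/

theorem Emb.le (T : Subgroup G) {M : Subgroup G} (hM : Emb T M) : T ≤ M := le_normalizer.trans hM.nt

/-- `M` contains every proper subgroup containing `T` -/
theorem Emb.u1 (h : Ctx p G) (T : Sylow 2 G) {M : Subgroup G} (hM : Emb (T : Subgroup G) M) {Y : Subgroup G}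
    (hY : Y ≠ ⊤) (hTY : (T : Subgroup G) ≤ Y) : Y ≤ M := by
  intro y hy
  obtain ⟨o, ho, n, hn, rfl⟩ := h.decomp T hY hTY hy
  refine mul_mem ?_ (hM.nt hn.2)
  have hsq : ∀ {x : G}, x ^ 2 = 1 → x * x = 1 := fun hx => by rw [← sq, hx]
  obtain ⟨a, ha, b, hb, ha2, hb2, ha1, hb1, hab, -⟩ := h.exists_pair T 1
  have hnc : ¬ IsCyclic (T : Subgroup G) := H11.NormalRankOne.not_isCyclic_of_two ha hb hab ha1 hb1 ha2 hb2
  have h1 := H2.GenCent.main (T : Subgroup G) (O2 Y) (h.comm_two T) hnc (hTY.trans (le_normalizer_O2 Y))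
    (coprime_of_odd T.isPGroup' (odd_O2 Y))
  rw [← h1] at ho
  have h2 : H2.GenCent.gen (T : Subgroup G) (O2 Y) ≤ M :=
    iSup₂_le fun t ht => inf_le_right.trans (hM.cent t ht.1 ht.2)
  exact h2 ho

omit hp in
/-- a 2-element of `M` is conjugate in `M` into `T` -/
theorem exists_conj_mem (T : Sylow 2 G) {M : Subgroup G} (hTM : (T : Subgroup G) ≤ M) {t : G} (ht : t ∈ M)
    (ht2 : t ^ 2 = 1) : ∃ m ∈ M, m * t * m⁻¹ ∈ (T : Subgroup G) := by
  haveI : Fact (Nat.Prime 2) := ⟨Nat.prime_two⟩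
  have hpz : IsPGroup 2 (zpowers (⟨t, ht⟩ : M)) := by
    apply IsPGroup.of_card (n := (Nat.card (zpowers (⟨t, ht⟩ : M))).factorization 2)
    rw [Nat.card_zpowers]
    have h1 : orderOf (⟨t, ht⟩ : M) ∣ 2 ^ 1 := by
      apply orderOf_dvd_of_pow_eq_one
      apply Subtype.ext
      rw [pow_one]
      exact ht2
    obtain ⟨k, -, hk⟩ := (Nat.dvd_prime_pow Nat.prime_two).1 h1
    rw [hk, Nat.Prime.factorization_pow Nat.prime_two]
    simp
  obtain ⟨P, hP⟩ := hpz.exists_le_sylow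
  obtain ⟨m, hm⟩ := MulAction.exists_smul_eq M P (T.subtype hTM)
  refine ⟨m, m.2, ?_⟩
  have h2 : m * ⟨t, ht⟩ * m⁻¹ ∈ ((T.subtype hTM : Sylow 2 M) : Subgroup M) := by
    rw [← hm, Sylow.coe_subgroup_smul]
    rw [H1.SZ.mem_conj_smul]
    have : m⁻¹ * (m * ⟨t, ht⟩ * m⁻¹) * m = ⟨t, ht⟩ := by group
    rw [this]
    exact hP (mem_zpowers _)
  exact h2

theorem Emb.cent_of_mem (T : Sylow 2 G) {M : Subgroup G} (hM : Emb (T : Subgroup G) M) {t : G} (ht : t ∈ M)
    (ht1 : t ≠ 1) (ht2 : t ^ 2 = 1) : centralizer {t} ≤ M := by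
  obtain ⟨m, hm, hmt⟩ := exists_conj_mem T (Emb.le _ hM) ht ht2
  intro x hx
  have h1 : m * x * m⁻¹ ∈ centralizer {m * t * m⁻¹} := by
    rw [← smul_centralizer_single, H1.SZ.mem_conj_smul]
    have : m⁻¹ * (m * x * m⁻¹) * m = x := by group
    rwa [this]
  have h2 := hM.cent _ hmt (by
    intro h3
    rw [mul_inv_eq_one] at h3
    exact ht1 (mul_eq_left.mp h3)) h1
  have h3 : x = m⁻¹ * (m * x * m⁻¹) * m := by group
  rw [h3]
  exact mul_mem (mul_mem (inv_mem hm) h2) hm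

theorem Emb.odd_mul (T : Sylow 2 G) {M : Subgroup G} (hM : Emb (T : Subgroup G) M) {t s : G} (ht : t ∈ M)
    (ht1 : t ≠ 1) (ht2 : t ^ 2 = 1) (hs : s ∉ M) (hs2 : s ^ 2 = 1) : Odd (orderOf (t * s)) := by
  rcases Nat.even_or_odd (orderOf (t * s)) with he | ho
  · exfalso
    obtain ⟨j, hj, hjt, hjs⟩ := H59.Invol.exists_comm_invol_of_even ht2 hs2 (orderOf_pos _).ne' he
    set w := (t * s) ^ j with hw
    have hw1 : w ≠ 1 := by
      intro h1
      rw [h1, orderOf_one] at hj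
      omega
    have hw2 : w ^ 2 = 1 := orderOf_dvd_iff_pow_eq_one.1 (by rw [hj])
    have h1 : w ∈ M := Emb.cent_of_mem T hM ht ht1 ht2 (mem_centralizer_singleton_iff.2 hjt.eq)
    exact hs (Emb.cent_of_mem T hM h1 hw1 hw2 (mem_centralizer_singleton_iff.2 hjs.eq.symm))
  · exact ho

theorem Emb.exists_outside (h : Ctx p G) (T : Sylow 2 G) {M : Subgroup G} (hM : Emb (T : Subgroup G) M) :
    ∃ s : G, s ∉ M ∧ s ^ 2 = 1 := by
  by_contra hcon
  push Not at hcon
  obtain ⟨t, ht, ht1, ht2⟩ := h.exists_invol T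
  have h1 : normalClosure {t} ≤ M := by
    rw [normalClosure, closure_le]
    intro x hx
    rw [Group.mem_conjugatesOfSet_iff] at hx
    obtain ⟨a, ha, hax⟩ := hx
    rw [Set.mem_singleton_iff.1 ha] at hax
    obtain ⟨g, rfl⟩ := isConj_iff.1 hax
    by_contra hx
    apply hcon _ hx
    rw [conj_pow, ht2]; group
  have h2 : normalClosure {t} ≠ ⊥ := by
    intro h3
    have h4 : t ∈ normalClosure {t} := subset_normalClosure rfl
    rw [h3] at h4
    exact ht1 h4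
  have h3 := h.eq_top normalClosure_normal h2
  rw [h3] at h1
  exact hM.ne_top (top_le_iff.1 h1)

theorem Emb.isConj (h : Ctx p G) (T : Sylow 2 G) {M : Subgroup G} (hM : Emb (T : Subgroup G) M) {t s : G}
    (ht1 : t ≠ 1) (ht2 : t ^ 2 = 1) (hs1 : s ≠ 1) (hs2 : s ^ 2 = 1) : IsConj t s := by
  have key : ∀ {t s : G}, t ∈ M → t ≠ 1 → t ^ 2 = 1 → s ∉ M → s ^ 2 = 1 → IsConj t s :=
    fun ht ht1 ht2 hs hs2 => H59.Invol.isConj_of_odd ht2 hs2 (Emb.odd_mul T hM ht ht1 ht2 hs hs2)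
  obtain ⟨a, ha, ha1, ha2⟩ := h.exists_invol T
  have haM := Emb.le _ hM ha
  obtain ⟨b, hb, hb2⟩ := Emb.exists_outside h T hM
  have key2 : ∀ {t : G}, t ≠ 1 → t ^ 2 = 1 → IsConj a t := by
    intro t ht1 ht2
    by_cases ht : t ∈ M
    · exact (key haM ha1 ha2 hb hb2).trans (key ht ht1 ht2 hb hb2).symm
    · exact key haM ha1 ha2 ht ht2
  exact (key2 ht1 ht2).symm.trans (key2 hs1 hs2)

/-- `N(T)` is transitive on the involutions of `T` -/
theorem Emb.fusion (h : Ctx p G) (T : Sylow 2 G) {M : Subgroup G} (hM : Emb (T : Subgroup G) M) {t s : G}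
    (ht : t ∈ (T : Subgroup G)) (hs : s ∈ (T : Subgroup G))
    (ht1 : t ≠ 1) (ht2 : t ^ 2 = 1) (hs1 : s ≠ 1) (hs2 : s ^ 2 = 1) :
    ∃ n ∈ normalizer ((T : Subgroup G) : Set G), n * t * n⁻¹ = s := by
  haveI : Fact (Nat.Prime 2) := ⟨Nat.prime_two⟩
  obtain ⟨g, hg⟩ := isConj_iff.1 (Emb.isConj h T hM ht1 ht2 hs1 hs2)
  obtain ⟨n, hn, h1⟩ := H2.Control.normalizer_control_of_abelian T (h.comm_two T) t ht g (by rw [hg]; exact hs)
  exact ⟨n, hn, by rw [h1, hg]⟩

end H69.PPA
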