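import Cfsg.Agent.Lib.H69.PPA3

/-!
Groups all of whose `p'`-subgroups are abelian (S1936), part 4: `T` is elementary abelian of order `p+1`.
-/

set_option autoImplicit false
set_option linter.all false

namespace H69.PPA

open Subgroup H1.Coprime2
open scoped Pointwise commutatorElement

universe u

/-- `2^a = p^k + 1` with `p` odd and `a ≥ 2` forces `k ≤ 1` -/
theorem arith {a p k : ℕ} (hp : p.Prime) (h2 : p ≠ 2) (ha : 2 ≤ a) (h : 2 ^ a = p ^ k + 1) : k ≤ 1 := by
  have hodd : Odd p := hp.odd_of_ne_two h2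
  have h4 : 4 ∣ 2 ^ a := pow_dvd_pow 2 ha
  rcases Nat.even_or_odd k with ⟨m, hm⟩ | ⟨m, hm⟩
  · exfalso
    have h5 : p ^ k % 4 = 1 := by
      have h6 : Odd (p ^ m) := hodd.pow
      obtain ⟨c, hc⟩ := h6
      have h7 : p ^ k = (2 * c + 1) * (2 * c + 1) := by rw [hm, pow_add, hc]
      rw [h7]
      have : (2 * c + 1) * (2 * c + 1) = 4 * (c * c + c) + 1 := by ring
      rw [this]; omega
    omega
  · -- `p + 1` is a power of 2
    have h5 : p + 1 ∣ p ^ k + 1 ^ k := Odd.nat_add_dvd_pow_add_pow p 1 ⟨m, hm⟩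
    rw [one_pow, ← h] at h5
    obtain ⟨b, hb, hpb⟩ := (Nat.dvd_prime_pow Nat.prime_two).1 h5
    have hb2 : 2 ≤ b := by
      by_contra hlt
      have hp2 := hp.two_le
      interval_cases b
      · simp at hpb; omega
      · simp at hpb; omega
    -- p^2 ≡ 1 mod 2^(b+1)
    have h6 : p ^ 2 ≡ 1 [MOD 2 ^ (b + 1)] := by
      have h7 : p = 2 ^ b - 1 := by omega
      have h8 : 1 ≤ 2 ^ b := Nat.one_le_two_pow
      obtain ⟨d, hd⟩ : ∃ d, b = d + 2 := ⟨b - 2, by omega⟩
      have h9 : p ^ 2 = 1 + 2 ^ (b + 1) * (2 ^ (b - 1) - 1) := by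
        subst hd
        have e1 : (2 : ℕ) ^ (d + 2) = 4 * 2 ^ d := by ring
        have e2 : (2 : ℕ) ^ (d + 2 + 1) = 8 * 2 ^ d := by ring
        have e3 : (2 : ℕ) ^ (d + 2 - 1) = 2 * 2 ^ d := by
          rw [show d + 2 - 1 = d + 1 by omega]; ring
        have e4 : 1 ≤ 2 ^ d := Nat.one_le_two_pow
        rw [h7, e1, e2, e3]
        generalize (2 : ℕ) ^ d = x at *
        obtain ⟨y, rfl⟩ : ∃ y, x = y + 1 := ⟨x - 1, by omega⟩
        have e5 : 4 * (y + 1) - 1 = 4 * y + 3 := by omega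
        have e6 : 2 * (y + 1) - 1 = 2 * y + 1 := by omega
        rw [e5, e6]; ring
      rw [h9]
      exact (Nat.modEq_iff_dvd' (by omega)).2 (by simp) |>.symm
    have h7 : p ^ k ≡ p [MOD 2 ^ (b + 1)] := by
      have e : p ^ k = (p ^ 2) ^ m * p := by rw [hm, pow_succ, pow_mul]
      rw [e]
      have := (h6.pow m).mul_right p
      simpa using this
    by_contra hk
    have hab : b < a := by
      rw [← Nat.pow_lt_pow_iff_right (a := 2) (by norm_num), h, ← hpb]
      have : p ^ 1 < p ^ k := Nat.pow_lt_pow_right hp.one_lt (by omega)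
      rw [pow_one] at this
      omega
    have h8 : (2 : ℕ) ^ (b + 1) ∣ 2 ^ a := pow_dvd_pow 2 hab
    have h9 : p ^ k + 1 ≡ p + 1 [MOD 2 ^ (b + 1)] := h7.add_right 1
    rw [← h, hpb] at h9
    have h10 : 2 ^ b ≡ 0 [MOD 2 ^ (b + 1)] := h9.symm.trans ((Nat.modEq_zero_iff_dvd).2 h8)
    rw [Nat.modEq_zero_iff_dvd] at h10
    have h11 := Nat.le_of_dvd (by positivity) h10
    have h12 : (2 : ℕ) ^ b < 2 ^ (b + 1) := Nat.pow_lt_pow_right (by norm_num) (by omega)
    omega

variable {G : Type u} [Group G] [Finite G] {p : ℕ} [hp : Fact p.Prime]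

/-- orbit-stabilizer for conjugation by a subgroup -/
theorem ncard_conj (N : Subgroup G) (t : G) :
    {x : G | ∃ n ∈ N, n * t * n⁻¹ = x}.ncard = ((centralizer {t}).subgroupOf N).index := by
  letI : MulAction N G := MulAction.compHom G (MulAut.conj.comp N.subtype)
  have hsm : ∀ (n : N) (x : G), n • x = (n : G) * x * (n : G)⁻¹ := fun n x => rfl
  have h1 := MulAction.index_stabilizer N t
  have h2 : MulAction.stabilizer N t = (centralizer {t}).subgroupOf N := by
    ext n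
    rw [MulAction.mem_stabilizer_iff, hsm, mem_subgroupOf, mem_centralizer_singleton_iff, mul_inv_eq_iff_eq_mul]
  have h3 : MulAction.orbit N t = {x : G | ∃ n ∈ N, n * t * n⁻¹ = x} := by
    ext x
    constructor
    · rintro ⟨n, hn⟩
      exact ⟨n, n.2, hn⟩
    · rintro ⟨n, hn, rfl⟩
      exact ⟨⟨n, hn⟩, rfl⟩
  rw [← h2, h1, h3]

/-- the subgroup of the solutions of `x^2=1` in `T` -/
def Om (h : Ctx p G) (T : Sylow 2 G) : Subgroup G where
  carrier := {x | x ∈ (T : Subgroup G) ∧ x ^ 2 = 1}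
  one_mem' := ⟨one_mem _, one_pow _⟩
  mul_mem' := by
    rintro a b ⟨ha, ha2⟩ ⟨hb, hb2⟩
    refine ⟨mul_mem ha hb, ?_⟩
    have : Commute a b := h.comm_T T ha hb
    rw [this.mul_pow, ha2, hb2, one_mul]
  inv_mem' := by
    rintro a ⟨ha, ha2⟩
    exact ⟨inv_mem ha, by rw [inv_pow, ha2, inv_one]⟩

theorem mem_Om {h : Ctx p G} {T : Sylow 2 G} {x : G} : x ∈ Om h T ↔ x ∈ (T : Subgroup G) ∧ x ^ 2 = 1 := Iff.rfl

/-- index of `C(T)` in `N(T)` is a power of `p` -/
theorem Ctx.index_pow (h : Ctx p G) (T : Sylow 2 G) :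
    ∃ k, ((centralizer ((T : Subgroup G) : Set G)).subgroupOf (normalizer ((T : Subgroup G) : Set G))).index = p ^ k := by
  haveI : ((centralizer ((T : Subgroup G) : Set G)).subgroupOf (normalizer ((T : Subgroup G) : Set G))).Normal :=
    inferInstance
  apply H39.SylowAux.index_pow_of_coprime_mem
  intro x hx
  rw [mem_subgroupOf, mem_centralizer_iff]
  intro t ht
  apply h.comm_elem (h.coprime_of_two T.isPGroup') _ x.2 ht
  rw [orderOf_coe, ← hp.out.coprime_iff_not_dvd]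
  exact hx.symm

theorem Emb.card_Om (h : Ctx p G) (T : Sylow 2 G) {M : Subgroup G} (hM : Emb (T : Subgroup G) M) :
    Nat.card (Om h T) = p + 1 := by
  haveI : Fact (Nat.Prime 2) := ⟨Nat.prime_two⟩
  obtain ⟨t, ht, ht1, ht2⟩ := h.exists_invol T
  set N := normalizer ((T : Subgroup G) : Set G) with hN
  have hset : {x : G | ∃ n ∈ N, n * t * n⁻¹ = x} = (Om h T : Set G) \ {1} := by
    ext x
    constructor
    · rintro ⟨n, hn, rfl⟩
      refine ⟨⟨(mem_normalizer_iff.1 hn t).1 ht, by rw [conj_pow, ht2]; group⟩, ?_⟩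
      intro h1
      rw [Set.mem_singleton_iff, mul_inv_eq_one] at h1
      exact ht1 (mul_eq_left.mp h1)
    · rintro ⟨⟨hx, hx2⟩, hx1⟩
      exact Emb.fusion h T hM ht hx ht1 ht2 hx1 hx2
  have h1 := ncard_conj N t
  rw [hset] at h1
  have h2 : ((Om h T : Set G) \ {1}).ncard + 1 = Nat.card (Om h T) := by
    rw [Set.ncard_diff_singleton_add_one (one_mem (Om h T)) (Set.toFinite _)]
    rfl
  have h3 : ((centralizer {t}).subgroupOf N).index ∣
      ((centralizer ((T : Subgroup G) : Set G)).subgroupOf N).index := by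
    apply index_dvd_of_le
    intro x hx
    rw [mem_subgroupOf] at hx ⊢
    exact mem_centralizer_singleton_iff.2 (mem_centralizer_iff.1 hx t ht).symm
  obtain ⟨k, hk⟩ := h.index_pow T
  rw [hk] at h3
  obtain ⟨j, -, hj⟩ := (Nat.dvd_prime_pow hp.out).1 h3
  rw [hj] at h1
  have h4 : IsPGroup 2 (Om h T) := T.isPGroup'.to_le (fun x hx => hx.1)
  obtain ⟨a, ha⟩ := IsPGroup.iff_card.mp h4
  have h6 := h.six_le T
  have h6' : {x : G | x ∈ (T : Subgroup G) ∧ x ^ 2 = 1}.ncard = Nat.card (Om h T) := rfl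
  rw [h6'] at h6
  have h7 : 2 ^ a = p ^ j + 1 := by rw [← ha, ← h2, h1]
  have h8 : 2 ≤ a := by
    by_contra hlt
    rw [ha] at h6
    interval_cases a <;> omega
  have h9 := arith hp.out h.ne_two h8 h7
  have h10 : j = 1 := by
    have h11 : j ≠ 0 := by
      rintro rfl
      rw [← ha, pow_zero] at h7
      omega
    omega
  rw [← h2, h1, h10, pow_one]

/-- `T` is elementary abelian -/
theorem Emb.sq (h : Ctx p G) (T : Sylow 2 G) {M : Subgroup G} (hM : Emb (T : Subgroup G) M) {x : G}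
    (hx : x ∈ (T : Subgroup G)) : x ^ 2 = 1 := by
  haveI : Fact (Nat.Prime 2) := ⟨Nat.prime_two⟩
  have h1 := h.ex _ (h.coprime_of_two T.isPGroup') x hx
  have h2 := Emb.card_Om h T hM
  have h4 : IsPGroup 2 (Om h T) := T.isPGroup'.to_le (fun x hx => hx.1)
  obtain ⟨a, ha⟩ := IsPGroup.iff_card.mp h4
  have h5 := h.p5
  have ha2 : 2 ≤ a := by
    by_contra hlt
    rw [ha] at h2
    interval_cases a <;> omega
  obtain ⟨d, rfl⟩ : ∃ d, a = d + 2 := ⟨a - 2, by omega⟩
  have h6 : p - 1 = 2 * (2 * 2 ^ d - 1) := by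
    rw [h2] at ha
    have : (2 : ℕ) ^ (d + 2) = 4 * 2 ^ d := by ring
    omega
  obtain ⟨k, hk⟩ := T.isPGroup' ⟨x, hx⟩
  have hk' : x ^ 2 ^ k = 1 := congrArg Subtype.val hk
  have h7 : orderOf x ∣ 2 ^ k := orderOf_dvd_of_pow_eq_one hk'
  have h8 : orderOf x ∣ 2 * (2 * 2 ^ d - 1) := by rw [← h6]; exact orderOf_dvd_of_pow_eq_one h1
  have h9 : Nat.Coprime (orderOf x) (2 * 2 ^ d - 1) := by
    apply Nat.Coprime.coprime_dvd_left h7
    apply Nat.Coprime.pow_left
    rw [Nat.coprime_two_left]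
    have : 1 ≤ 2 ^ d := Nat.one_le_two_pow
    exact ⟨2 ^ d - 1, by omega⟩
  exact orderOf_dvd_iff_pow_eq_one.1 (h9.dvd_of_dvd_mul_right h8)

theorem Emb.card_T (h : Ctx p G) (T : Sylow 2 G) {M : Subgroup G} (hM : Emb (T : Subgroup G) M) :
    Nat.card (T : Subgroup G) = p + 1 := by
  rw [← Emb.card_Om h T hM]
  congr 2
  ext x
  exact ⟨fun hx => ⟨hx, Emb.sq h T hM hx⟩, fun hx => hx.1⟩

/-- an element normalizing `T` and centralizing a nontrivial element of `T` centralizes `T` -/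
theorem Emb.semireg (h : Ctx p G) (T : Sylow 2 G) {M : Subgroup G} (hM : Emb (T : Subgroup G) M) {t n : G}
    (ht : t ∈ (T : Subgroup G)) (ht1 : t ≠ 1) (hn : n ∈ normalizer ((T : Subgroup G) : Set G))
    (hnt : n * t = t * n) : n ∈ centralizer ((T : Subgroup G) : Set G) := by
  haveI : Fact (Nat.Prime 2) := ⟨Nat.prime_two⟩
  obtain ⟨x, y, hx, hy, hxy, -, ⟨k, hxk⟩, hyp, -, -⟩ := H71.Basic.exists_pPart n (isOfFinOrder_of_finite n) p hp.out
  have hxN : x ∈ normalizer ((T : Subgroup G) : Set G) := (zpowers_le.2 hn) hx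
  have hyN : y ∈ normalizer ((T : Subgroup G) : Set G) := (zpowers_le.2 hn) hy
  have hyC : y ∈ centralizer ((T : Subgroup G) : Set G) := by
    rw [mem_centralizer_iff]
    intro s hs
    exact h.comm_elem (h.coprime_of_two T.isPGroup') hyp hyN hs
  rw [← hxy]
  refine mul_mem ?_ hyC
  have hpx : IsPGroup p (zpowers x) := IsPGroup.of_card (n := k) (by rw [Nat.card_zpowers, hxk])
  have h1 := H65.PBasic2.card_modEq_card_inf_centralizer (zpowers x) (T : Subgroup G) hpx (by rwa [zpowers_le])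
  rw [H65.PBasic2.centralizer_zpowers, Emb.card_T h T hM] at h1
  set D := (T : Subgroup G) ⊓ centralizer {x} with hD
  have htD : t ∈ D := by
    refine ⟨ht, ?_⟩
    show t ∈ centralizer {x}
    rw [mem_centralizer_singleton_iff]
    have h2 : Commute n t := hnt
    obtain ⟨i, rfl⟩ := mem_zpowers_iff.1 hx
    exact (h2.zpow_left i).symm.eq
  have hD1 : 1 < Nat.card D := by
    rw [Finite.one_lt_card_iff_nontrivial]
    exact ⟨⟨1, one_mem _⟩, ⟨t, htD⟩, fun h3 => ht1 (congrArg Subtype.val h3).symm⟩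
  have hDT : D = (T : Subgroup G) := by
    have h3 : 1 ≡ Nat.card D [MOD p] := by
      have : p + 1 ≡ 1 [MOD p] := by simp [Nat.ModEq]
      exact this.symm.trans h1
    have h4 := (Nat.modEq_iff_dvd' hD1.le).1 h3
    have h5 := Nat.le_of_dvd (by omega) h4
    have h7 : Nat.card (T : Subgroup G) ≤ Nat.card D := by
      rw [Emb.card_T h T hM]; omega
    exact Subgroup.eq_of_le_of_card_ge inf_le_left h7
  have h6 : (T : Subgroup G) ≤ centralizer {x} := by rw [← hDT]; exact inf_le_right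
  rw [mem_centralizer_iff]
  intro s hs
  exact mem_centralizer_singleton_iff.1 (h6 hs)

/-- `N(T)/C(T)` has order `p`, so `[N(T),N(T)] ≤ C(T)` -/
theorem Emb.index_eq (h : Ctx p G) (T : Sylow 2 G) {M : Subgroup G} (hM : Emb (T : Subgroup G) M) :
    ((centralizer ((T : Subgroup G) : Set G)).subgroupOf (normalizer ((T : Subgroup G) : Set G))).index = p := by
  obtain ⟨t, ht, ht1, ht2⟩ := h.exists_invol T
  set N := normalizer ((T : Subgroup G) : Set G) with hN
  have hset : {x : G | ∃ n ∈ N, n * t * n⁻¹ = x} = ((T : Subgroup G) : Set G) \ {1} := by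
    ext x
    constructor
    · rintro ⟨n, hn, rfl⟩
      refine ⟨(mem_normalizer_iff.1 hn t).1 ht, ?_⟩
      intro h1
      rw [Set.mem_singleton_iff, mul_inv_eq_one] at h1
      exact ht1 (mul_eq_left.mp h1)
    · rintro ⟨hx, hx1⟩
      exact Emb.fusion h T hM ht hx ht1 ht2 hx1 (Emb.sq h T hM hx)
  have h1 := ncard_conj N t
  rw [hset] at h1
  have h2 : (((T : Subgroup G) : Set G) \ {1}).ncard + 1 = Nat.card (T : Subgroup G) := by
    rw [Set.ncard_diff_singleton_add_one (one_mem (T : Subgroup G)) (Set.toFinite _)]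
    rfl
  have h3 : (centralizer {t}).subgroupOf N = (centralizer ((T : Subgroup G) : Set G)).subgroupOf N := by
    apply le_antisymm
    · intro x hx
      rw [mem_subgroupOf] at hx ⊢
      exact Emb.semireg h T hM ht ht1 x.2 (mem_centralizer_singleton_iff.1 hx)
    · intro x hx
      rw [mem_subgroupOf] at hx ⊢
      exact mem_centralizer_singleton_iff.2 (mem_centralizer_iff.1 hx t ht).symm
  rw [← h3, ← h1]
  rw [Emb.card_T h T hM] at h2
  omega

theorem Emb.commutator_le (h : Ctx p G) (T : Sylow 2 G) {M : Subgroup G} (hM : Emb (T : Subgroup G) M) :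
    ⁅normalizer ((T : Subgroup G) : Set G), normalizer ((T : Subgroup G) : Set G)⁆ ≤
      centralizer ((T : Subgroup G) : Set G) := by
  set N := normalizer ((T : Subgroup G) : Set G) with hN
  set C := (centralizer ((T : Subgroup G) : Set G)).subgroupOf N with hC
  haveI : C.Normal := inferInstance
  have h1 : Nat.card (N ⧸ C) = p := by
    rw [← index_eq_card]
    exact Emb.index_eq h T hM
  haveI : IsCyclic (N ⧸ C) := isCyclic_of_prime_card h1
  rw [Subgroup.commutator_le]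
  intro a ha b hb
  have h2 : ((⁅(⟨a, ha⟩ : N), (⟨b, hb⟩ : N)⁆ : N) : N ⧸ C) = 1 := by
    letI := IsCyclic.commGroup (α := N ⧸ C)
    rw [commutatorElement_def]
    have h3 : ((⟨a, ha⟩ : N) : N ⧸ C) * ((⟨b, hb⟩ : N) : N ⧸ C) = ((⟨b, hb⟩ : N) : N ⧸ C) * ((⟨a, ha⟩ : N) : N ⧸ C) :=
      mul_comm _ _
    rw [QuotientGroup.mk_mul, QuotientGroup.mk_mul, QuotientGroup.mk_mul, h3, QuotientGroup.mk_inv,
      QuotientGroup.mk_inv]
    group
  have h4 := (QuotientGroup.eq_one_iff (N := C) (⁅(⟨a, ha⟩ : N), (⟨b, hb⟩ : N)⁆ : N)).1 h2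
  rw [hC, mem_subgroupOf] at h4
  exact h4

end H69.PPA
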