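import Cfsg.Agent.Lib.H69.PPA4
import Cfsg.Agent.Lib.H81.InvertSylow
import Cfsg.Agent.Lib.H73.FrobClass

/-!
Groups all of whose `p'`-subgroups are abelian (S1936), part 5: the case in which `N(T)` itself contains the
centralizers of the involutions; a counting argument.
-/

set_option autoImplicit false
set_option linter.all false

namespace H69.PPA

open Subgroup H1.Coprime2
open scoped Pointwise commutatorElement

universe u

variable {G : Type u} [Group G] [Finite G] {p : ℕ} [hp : Fact p.Prime]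

omit [Finite G] in
theorem eq_one_of_inv {y : G} (hy : Odd (orderOf y)) (h : y = y⁻¹) : y = 1 := by
  have h1 : y ^ 2 = 1 := by rw [sq]; nth_rw 2 [h]; exact mul_inv_cancel y
  have h2 := orderOf_dvd_of_pow_eq_one h1
  have h3 : (orderOf y).Coprime 2 := Nat.coprime_two_right.2 hy
  exact orderOf_eq_one_iff.1 (Nat.Coprime.eq_one_of_dvd h3 h2)

omit hp in
theorem mem_T_of_sq (T : Sylow 2 G) {u : G} (hu : u ∈ normalizer ((T : Subgroup G) : Set G)) (hu2 : u ^ 2 = 1) :
    u ∈ (T : Subgroup G) := by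
  obtain ⟨m, hm, h1⟩ := exists_conj_mem T le_normalizer hu hu2
  exact (mem_normalizer_iff.1 hm u).2 h1

theorem Ctx.zpowers_ne_top (h : Ctx p G) (y : G) : zpowers y ≠ ⊤ := by
  intro h1
  apply h.nab
  refine ⟨⟨fun a b => ?_⟩⟩
  have ha : a ∈ zpowers y := by rw [h1]; trivial
  have hb : b ∈ zpowers y := by rw [h1]; trivial
  obtain ⟨i, rfl⟩ := mem_zpowers_iff.1 ha
  obtain ⟨j, rfl⟩ := mem_zpowers_iff.1 hb
  exact ((Commute.refl y).zpow_zpow i j).eq

namespace CaseA

theorem cent (h : Ctx p G) (T : Sylow 2 G)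
    (hM : Emb (T : Subgroup G) (normalizer ((T : Subgroup G) : Set G))) {t : G}
    (ht : t ∈ (T : Subgroup G)) (ht1 : t ≠ 1) {x : G} (hx : x * t = t * x) :
    x ∈ centralizer ((T : Subgroup G) : Set G) := by
  exact Emb.semireg h T hM ht ht1 (hM.cent t ht ht1 (mem_centralizer_singleton_iff.2 hx)) hx

/-- the centralizer of an element centralizing `T` lies in `N(T)` -/
theorem le_of_mem (h : Ctx p G) (T : Sylow 2 G)
    (hM : Emb (T : Subgroup G) (normalizer ((T : Subgroup G) : Set G))) {c : G} (hc1 : c ≠ 1)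
    (hc : c ∈ centralizer ((T : Subgroup G) : Set G)) : centralizer {c} ≤ normalizer ((T : Subgroup G) : Set G) := by
  apply Emb.u1 h T hM (h.centralizer_ne_top hc1)
  intro t ht
  exact mem_centralizer_singleton_iff.2 (mem_centralizer_iff.1 hc t ht)

theorem odd_cent (h : Ctx p G) (T : Sylow 2 G)
    (hM : Emb (T : Subgroup G) (normalizer ((T : Subgroup G) : Set G))) {t y : G}
    (ht : t ∈ (T : Subgroup G)) (ht1 : t ≠ 1) (hy : Odd (orderOf y)) (hy1 : y ≠ 1) (hty : t * y * t⁻¹ = y⁻¹) :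
    Odd (Nat.card (centralizer {y})) := by
  haveI : Fact (Nat.Prime 2) := ⟨Nat.prime_two⟩
  by_contra hev
  rw [Nat.not_odd_iff_even, even_iff_two_dvd] at hev
  obtain ⟨⟨u, huy⟩, hu⟩ := exists_prime_orderOf_dvd_card' 2 hev
  rw [Subgroup.orderOf_mk] at hu
  have ht2 := Emb.sq h T hM ht
  have hu1 : u ≠ 1 := by rintro rfl; rw [orderOf_one] at hu; omega
  have hu2 : u ^ 2 = 1 := orderOf_dvd_iff_pow_eq_one.1 (by rw [hu])
  obtain ⟨g, hg⟩ := isConj_iff.1 (Emb.isConj h T hM ht1 ht2 hu1 hu2)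
  set y' := g⁻¹ * y * g with hy'
  have hy'1 : y' ≠ 1 := by
    intro h1
    apply hy1
    have : y = g * y' * g⁻¹ := by rw [hy']; group
    rw [this, h1]; group
  have hyu : u * y = y * u := mem_centralizer_singleton_iff.1 huy
  have hy't : y' * t = t * y' := by
    have e1 : t = g⁻¹ * u * g := by rw [← hg]; group
    rw [e1, hy']
    calc g⁻¹ * y * g * (g⁻¹ * u * g) = g⁻¹ * (y * u) * g := by group
      _ = g⁻¹ * (u * y) * g := by rw [hyu]
      _ = _ := by group
  have hy'T := cent h T hM ht ht1 hy't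
  have hzb : zpowers y' ≠ ⊥ := by rw [Ne, zpowers_eq_bot]; exact hy'1
  have hle := Emb.u1 h T hM (h.normalizer_ne_top hzb (h.zpowers_ne_top y')) (by
    refine le_trans ?_ (centralizer_le_normalizer _)
    rw [H65.PBasic2.centralizer_zpowers]
    intro s hs
    exact mem_centralizer_singleton_iff.2 (mem_centralizer_iff.1 hy'T s hs))
  have e2 : g⁻¹ * t * g * y' * (g⁻¹ * t * g)⁻¹ = y'⁻¹ := by
    rw [hy']
    calc g⁻¹ * t * g * (g⁻¹ * y * g) * (g⁻¹ * t * g)⁻¹ = g⁻¹ * (t * y * t⁻¹) * g := by group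
      _ = g⁻¹ * y⁻¹ * g := by rw [hty]
      _ = _ := by group
  have ht'N : g⁻¹ * t * g ∈ normalizer ((zpowers y' : Subgroup G) : Set G) := by
    rw [← H1.SZ.conj_smul_eq_iff, H1.SZ.conj_smul_eq_map, MonoidHom.map_zpowers]
    show zpowers (g⁻¹ * t * g * y' * (g⁻¹ * t * g)⁻¹) = zpowers y'
    rw [e2, zpowers_inv]
  have ht'T : g⁻¹ * t * g ∈ (T : Subgroup G) := by
    apply mem_T_of_sq T (hle ht'N)
    have : (g⁻¹ * t * g) ^ 2 = g⁻¹ * t ^ 2 * g := by rw [sq, sq]; group
    rw [this, ht2]; group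
  have h3 := mem_centralizer_iff.1 hy'T _ ht'T
  rw [h3] at e2
  have h4 : y' = y'⁻¹ := by rw [← e2]; group
  apply hy'1
  apply eq_one_of_inv _ h4
  have h5 : orderOf y' = orderOf y := by
    have h6 := orderOf_injective (MulAut.conj g⁻¹).toMonoidHom (MulAut.conj g⁻¹).injective y
    rw [← h6]
    congr 1
    show g⁻¹ * y * g = g⁻¹ * y * g⁻¹⁻¹
    rw [inv_inv]
  rw [h5]; exact hy

theorem fpf (h : Ctx p G) (T : Sylow 2 G)
    (hM : Emb (T : Subgroup G) (normalizer ((T : Subgroup G) : Set G))) {t y c : G}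
    (ht : t ∈ (T : Subgroup G)) (ht1 : t ≠ 1) (hy : Odd (orderOf y)) (hy1 : y ≠ 1) (hty : t * y * t⁻¹ = y⁻¹)
    (hcy : c * y = y * c) (hct : c * t = t * c) : c = 1 := by
  by_contra hc1
  have hcT := cent h T hM ht ht1 hct
  have hyN := le_of_mem h T hM hc1 hcT (mem_centralizer_singleton_iff.2 hcy.symm)
  have h1 : y * t * y⁻¹ ∈ (T : Subgroup G) := (mem_normalizer_iff.1 hyN t).1 ht
  have h2 : y * y ∈ (T : Subgroup G) := by
    have h3 : y * y = y * t * y⁻¹ * t⁻¹ := by
      have h4 : y * t * y⁻¹ * t⁻¹ = y * (t * y * t⁻¹)⁻¹ := by group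
      rw [h4, hty, inv_inv]
    rw [h3]
    exact mul_mem h1 (inv_mem ht)
  have h3 := Emb.sq h T hM h2
  have h4 : y ^ 4 = 1 := by
    rw [← sq, ← pow_mul] at h3
    exact h3
  have h5 := orderOf_dvd_of_pow_eq_one h4
  have h6 : (orderOf y).Coprime (2 ^ 2) := Nat.Coprime.pow_right 2 (Nat.coprime_two_right.2 hy)
  exact hy1 (orderOf_eq_one_iff.1 (Nat.Coprime.eq_one_of_dvd h6 h5))

theorem inv_cent (h : Ctx p G) (T : Sylow 2 G)
    (hM : Emb (T : Subgroup G) (normalizer ((T : Subgroup G) : Set G))) {t y : G}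
    (ht : t ∈ (T : Subgroup G)) (ht1 : t ≠ 1) (hy : Odd (orderOf y)) (hy1 : y ≠ 1) (hty : t * y * t⁻¹ = y⁻¹)
    {c : G} (hc : c * y = y * c) : t * c * t⁻¹ = c⁻¹ := by
  have ht2 := Emb.sq h T hM ht
  refine H81.InvertSylow.inverts_of_fixedPointFree (centralizer {y}) (by rw [← sq, ht2]) ?_ ?_ c
    (mem_centralizer_singleton_iff.2 hc)
  · intro x hx
    rw [mem_centralizer_singleton_iff] at hx ⊢
    have h1 : (t * x * t⁻¹) * (t * y * t⁻¹) = (t * y * t⁻¹) * (t * x * t⁻¹) := by
      calc (t * x * t⁻¹) * (t * y * t⁻¹) = t * (x * y) * t⁻¹ := by group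
        _ = t * (y * x) * t⁻¹ := by rw [hx]
        _ = _ := by group
    rw [hty] at h1
    calc t * x * t⁻¹ * y = y * (y⁻¹ * (t * x * t⁻¹)) * y := by group
      _ = y * ((t * x * t⁻¹) * y⁻¹) * y := by rw [h1]
      _ = _ := by group
  · intro x hx hxt
    rw [mem_centralizer_singleton_iff] at hx
    exact fpf h T hM ht ht1 hy hy1 hty hx (mul_inv_eq_iff_eq_mul.1 hxt).symm

theorem isPGroup_cent (h : Ctx p G) (T : Sylow 2 G)
    (hM : Emb (T : Subgroup G) (normalizer ((T : Subgroup G) : Set G))) {t y : G}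
    (ht : t ∈ (T : Subgroup G)) (ht1 : t ≠ 1) (hy : Odd (orderOf y)) (hy1 : y ≠ 1) (hty : t * y * t⁻¹ = y⁻¹) :
    IsPGroup p (centralizer {y}) := by
  haveI : Fact (Nat.Prime 2) := ⟨Nat.prime_two⟩
  have ht2 := Emb.sq h T hM ht
  have hodd := odd_cent h T hM ht ht1 hy hy1 hty
  rintro ⟨c, hc⟩
  obtain ⟨x, w, hx, hw, hxw, -, ⟨k, hxk⟩, hwp, -, -⟩ := H71.Basic.exists_pPart c (isOfFinOrder_of_finite c) p hp.out
  have hwC : w ∈ centralizer {y} := (zpowers_le.2 hc) hw
  have htw := inv_cent h T hM ht ht1 hy hy1 hty (mem_centralizer_singleton_iff.1 hwC)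
  have h2 : t ∈ normalizer ((zpowers w : Subgroup G) : Set G) := by
    rw [← H1.SZ.conj_smul_eq_iff, H1.SZ.conj_smul_eq_map, MonoidHom.map_zpowers]
    show zpowers (t * w * t⁻¹) = zpowers w
    rw [htw, zpowers_inv]
  have h3 : ¬ p ∣ orderOf t := by
    intro h4
    have h5 := h4.trans (orderOf_dvd_of_pow_eq_one ht2)
    have := Nat.le_of_dvd (by norm_num) h5
    have := h.p5
    omega
  have h4 := h.comm_elem (coprime_zpowers hwp) h3 h2 (mem_zpowers w)
  have h5 : w = w⁻¹ := by
    rw [← htw, ← h4]; group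
  have h6 : w = 1 := by
    apply eq_one_of_inv _ h5
    exact hodd.of_dvd_nat (Subgroup.orderOf_dvd_natCard _ hwC)
  refine ⟨k, ?_⟩
  apply Subtype.ext
  show c ^ p ^ k = 1
  rw [← hxw, h6, mul_one, ← hxk]
  exact pow_orderOf_eq_one x

theorem sylow (h : Ctx p G) (T : Sylow 2 G)
    (hM : Emb (T : Subgroup G) (normalizer ((T : Subgroup G) : Set G))) {t y : G}
    (ht : t ∈ (T : Subgroup G)) (ht1 : t ≠ 1) (hy : Odd (orderOf y)) (hy1 : y ≠ 1) (hty : t * y * t⁻¹ = y⁻¹) :
    ∃ S : Sylow p G, (S : Subgroup G) = centralizer {y} := by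
  have hcomm : ∀ {y : G}, Odd (orderOf y) → y ≠ 1 → t * y * t⁻¹ = y⁻¹ → ∀ a b : G, a * y = y * a → b * y = y * b →
      a * b = b * a := by
    intro y hy hy1 hty a b ha hb
    have e1 := inv_cent h T hM ht ht1 hy hy1 hty ha
    have e2 := inv_cent h T hM ht ht1 hy hy1 hty hb
    have e3 := inv_cent h T hM ht ht1 hy hy1 hty (c := a * b) (by rw [mul_assoc, hb, ← mul_assoc, ha, mul_assoc])
    have e4 : t * (a * b) * t⁻¹ = (t * a * t⁻¹) * (t * b * t⁻¹) := by group
    rw [e3, e1, e2, ← mul_inv_rev] at e4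
    exact inv_injective e4
  have hpC := isPGroup_cent h T hM ht ht1 hy hy1 hty
  obtain ⟨S, hS⟩ := hpC.exists_le_sylow
  refine ⟨S, le_antisymm ?_ hS⟩
  have hyS : y ∈ (S : Subgroup G) := hS (mem_centralizer_singleton_iff.2 rfl)
  haveI : Nontrivial (S : Subgroup G) := ⟨⟨1, one_mem _⟩, ⟨y, hyS⟩, fun h1 => hy1 (congrArg Subtype.val h1).symm⟩
  haveI := S.isPGroup'.center_nontrivial
  obtain ⟨⟨z, hz⟩, hz1⟩ := exists_ne (1 : center (S : Subgroup G))
  have hz1' : (z : G) ≠ 1 := fun h1 => hz1 (Subtype.ext (Subtype.ext h1))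
  have hzc : ∀ s ∈ (S : Subgroup G), s * (z : G) = z * s := fun s hs =>
    congrArg Subtype.val (mem_center_iff.1 hz ⟨s, hs⟩)
  have hzy : (z : G) * y = y * z := (hzc y hyS).symm
  have hzt := inv_cent h T hM ht ht1 hy hy1 hty hzy
  have hzodd : Odd (orderOf (z : G)) :=
    (h.odd_of_isPGroup S.isPGroup').of_dvd_nat (Subgroup.orderOf_dvd_natCard _ z.2)
  have hpz := isPGroup_cent h T hM ht ht1 hzodd hz1' hzt
  have hSz : (S : Subgroup G) ≤ centralizer {(z : G)} := by
    intro s hs
    exact mem_centralizer_singleton_iff.2 (hzc s hs)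
  intro s hs
  rw [mem_centralizer_singleton_iff]
  exact hcomm hzodd hz1' hzt s y (hzc s hs) (hzc y hyS)

theorem exists_inverted (h : Ctx p G) (T : Sylow 2 G)
    (hM : Emb (T : Subgroup G) (normalizer ((T : Subgroup G) : Set G))) {t : G}
    (ht : t ∈ (T : Subgroup G)) (ht1 : t ≠ 1) : ∃ y : G, Odd (orderOf y) ∧ y ≠ 1 ∧ t * y * t⁻¹ = y⁻¹ := by
  have ht2 := Emb.sq h T hM ht
  obtain ⟨s, hs, hs2⟩ := Emb.exists_outside h T hM
  refine ⟨t * s, Emb.odd_mul T hM (le_normalizer ht) ht1 ht2 hs hs2, ?_, H59.Invol.conj_mul_eq_inv ht2 hs2⟩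
  intro h1
  apply hs
  have h2 : s = t⁻¹ := (inv_eq_of_mul_eq_one_right h1).symm
  rw [h2]
  exact inv_mem (le_normalizer ht)

theorem not_dvd (h : Ctx p G) (T : Sylow 2 G)
    (hM : Emb (T : Subgroup G) (normalizer ((T : Subgroup G) : Set G))) :
    ¬ p ∣ Nat.card (centralizer ((T : Subgroup G) : Set G)) := by
  intro hd
  obtain ⟨t, ht, ht1, ht2⟩ := h.exists_invol T
  obtain ⟨y, hy, hy1, hty⟩ := exists_inverted h T hM ht ht1
  obtain ⟨S, hS⟩ := sylow h T hM ht ht1 hy hy1 hty
  obtain ⟨⟨k, hk⟩, hko⟩ := exists_prime_orderOf_dvd_card' p hd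
  rw [Subgroup.orderOf_mk] at hko
  have hpk : IsPGroup p (zpowers k) := IsPGroup.of_card (n := 1) (by rw [Nat.card_zpowers, hko, pow_one])
  obtain ⟨P, hP⟩ := hpk.exists_le_sylow
  obtain ⟨g, hg⟩ := MulAction.exists_smul_eq G P S
  have hkS : g * k * g⁻¹ ∈ (S : Subgroup G) := by
    rw [← hg, Sylow.coe_subgroup_smul, H1.SZ.mem_conj_smul]
    have : g⁻¹ * (g * k * g⁻¹) * g = k := by group
    rw [this]
    exact hP (mem_zpowers k)
  set k' := g * k * g⁻¹ with hk'
  have hk'1 : k' ≠ 1 := by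
    intro h1
    have : k = 1 := by
      have : k = g⁻¹ * k' * g := by rw [hk']; group
      rw [this, h1]; group
    rw [this, orderOf_one] at hko
    have := h.p5
    omega
  have hk'odd : Odd (orderOf k') :=
    (h.odd_of_isPGroup S.isPGroup').of_dvd_nat (Subgroup.orderOf_dvd_natCard _ hkS)
  rw [hS, mem_centralizer_singleton_iff] at hkS
  have hk't := inv_cent h T hM ht ht1 hy hy1 hty hkS
  have h1 := isPGroup_cent h T hM ht ht1 hk'odd hk'1 hk't
  have h2 : g * t * g⁻¹ ∈ centralizer {k'} := by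
    rw [mem_centralizer_singleton_iff, hk']
    have h3 := mem_centralizer_iff.1 hk t ht
    calc g * t * g⁻¹ * (g * k * g⁻¹) = g * (t * k) * g⁻¹ := by group
      _ = g * (k * t) * g⁻¹ := by rw [h3]
      _ = _ := by group
  have h3 := h.odd_of_isPGroup h1
  have h4 : Odd (orderOf (g * t * g⁻¹)) := h3.of_dvd_nat (Subgroup.orderOf_dvd_natCard _ h2)
  have h5 : (g * t * g⁻¹) ^ 2 = 1 := by rw [conj_pow, ht2]; group
  have h6 : g * t * g⁻¹ = 1 := by
    apply eq_one_of_inv h4
    rw [eq_inv_iff_mul_eq_one, ← sq, h5]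
  rw [mul_inv_eq_one] at h6
  exact ht1 (mul_eq_left.mp h6)

theorem card_filter_conj [Fintype G] {A : Finset G} (R : G → G → Prop) [DecidableRel R]
    (hA : ∀ g a : G, a ∈ A → g * a * g⁻¹ ∈ A)
    (hR : ∀ g a b : G, R a b → R (g * a * g⁻¹) (g * b * g⁻¹)) (g b : G) :
    (A.filter (fun a => R a (g * b * g⁻¹))).card = (A.filter (fun a => R a b)).card := by
  apply Finset.card_nbij' (fun a => g⁻¹ * a * g) (fun a => g * a * g⁻¹)
  · intro a ha
    rw [Finset.mem_coe, Finset.mem_filter] at ha ⊢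
    refine ⟨?_, ?_⟩
    · have := hA g⁻¹ a ha.1
      rwa [inv_inv] at this
    · have := hR g⁻¹ _ _ ha.2
      rw [inv_inv] at this
      have e : g⁻¹ * (g * b * g⁻¹) * g = b := by group
      rwa [e] at this
  · intro a ha
    rw [Finset.mem_coe, Finset.mem_filter] at ha ⊢
    exact ⟨hA g a ha.1, hR g _ _ ha.2⟩
  · intro a _
    show g * (g⁻¹ * a * g) * g⁻¹ = a
    group
  · intro a _
    show g⁻¹ * (g * a * g⁻¹) * g = a
    group

theorem false (h : Ctx p G) (T : Sylow 2 G)
    (hM : Emb (T : Subgroup G) (normalizer ((T : Subgroup G) : Set G))) : False := by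
  classical
  haveI : Fintype G := Fintype.ofFinite G
  have hp5 := h.p5
  obtain ⟨t, ht, ht1, ht2⟩ := h.exists_invol T
  obtain ⟨y, hy, hy1, hty⟩ := exists_inverted h T hM ht ht1
  obtain ⟨S, hS⟩ := sylow h T hM ht ht1 hy hy1 hty
  set q := Nat.card (S : Subgroup G) with hq
  have hyS : y ∈ (S : Subgroup G) := by rw [hS]; exact mem_centralizer_singleton_iff.2 rfl
  have hpq : p ∣ q := by
    obtain ⟨n, hn⟩ := IsPGroup.iff_card.mp S.isPGroup'
    have hn0 : n ≠ 0 := by
      rintro rfl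
      rw [pow_zero] at hn
      have := Subgroup.card_eq_one.1 hn
      rw [this] at hyS
      exact hy1 hyS
    rw [hq, hn]
    exact dvd_pow_self p hn0
  have hqpos : 0 < q := Nat.card_pos
  let I : Finset G := Finset.univ.filter (fun s => s ≠ 1 ∧ s ^ 2 = 1)
  let Pf : Finset G := Finset.univ.filter (fun x => x ≠ 1 ∧ ∃ k, orderOf x = p ^ k)
  have hmI : ∀ s, s ∈ I ↔ s ≠ 1 ∧ s ^ 2 = 1 := fun s => by simp [I]
  have hmP : ∀ s, s ∈ Pf ↔ s ≠ 1 ∧ ∃ k, orderOf s = p ^ k := fun s => by simp [Pf]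
  let R : G → G → Prop := fun s x => s * x * s⁻¹ = x⁻¹
  have hR : ∀ g a b : G, R a b → R (g * a * g⁻¹) (g * b * g⁻¹) := by
    intro g a b hab
    show g * a * g⁻¹ * (g * b * g⁻¹) * (g * a * g⁻¹)⁻¹ = (g * b * g⁻¹)⁻¹
    have hab' : a * b * a⁻¹ = b⁻¹ := hab
    calc g * a * g⁻¹ * (g * b * g⁻¹) * (g * a * g⁻¹)⁻¹ = g * (a * b * a⁻¹) * g⁻¹ := by group
      _ = g * b⁻¹ * g⁻¹ := by rw [hab']
      _ = _ := by group
  have hIc : ∀ g a : G, a ∈ I → g * a * g⁻¹ ∈ I := by
    intro g a ha
    rw [hmI] at ha ⊢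
    refine ⟨fun h1 => ha.1 ?_, by rw [conj_pow, ha.2]; group⟩
    rw [mul_inv_eq_one] at h1
    exact mul_eq_left.mp h1
  have hordc : ∀ g a : G, orderOf (g * a * g⁻¹) = orderOf a := fun g a =>
    orderOf_injective (MulAut.conj g).toMonoidHom (MulAut.conj g).injective a
  have hPc : ∀ g a : G, a ∈ Pf → g * a * g⁻¹ ∈ Pf := by
    intro g a ha
    rw [hmP] at ha ⊢
    refine ⟨fun h1 => ha.1 ?_, by rw [hordc]; exact ha.2⟩
    rw [mul_inv_eq_one] at h1
    exact mul_eq_left.mp h1
  -- the number of involutions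
  have hcI : I.card * Nat.card (centralizer ((T : Subgroup G) : Set G)) = Nat.card G := by
    have h1 := ncard_conj (⊤ : Subgroup G) t
    have h2 : {x : G | ∃ n ∈ (⊤ : Subgroup G), n * t * n⁻¹ = x} = (I : Set G) := by
      ext x
      rw [Finset.mem_coe, hmI]
      constructor
      · rintro ⟨n, -, rfl⟩
        rw [← hmI]
        exact hIc n t ((hmI t).2 ⟨ht1, ht2⟩)
      · rintro ⟨hx1, hx2⟩
        obtain ⟨g, hg⟩ := isConj_iff.1 (Emb.isConj h T hM ht1 ht2 hx1 hx2)
        exact ⟨g, trivial, hg⟩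
    rw [h2, Set.ncard_coe_finset] at h1
    have h3 : (centralizer {t} : Subgroup G) = centralizer ((T : Subgroup G) : Set G) := by
      apply le_antisymm
      · intro x hx
        exact cent h T hM ht ht1 (mem_centralizer_singleton_iff.1 hx)
      · intro x hx
        exact mem_centralizer_singleton_iff.2 (mem_centralizer_iff.1 hx t ht).symm
    have h4 := (centralizer {t} : Subgroup G).index_mul_card
    have h5 : ((centralizer {t}).subgroupOf (⊤ : Subgroup G)).index = (centralizer {t} : Subgroup G).index :=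
      Subgroup.relIndex_top_right _
    rw [h5] at h1
    rw [← h1, h3] at h4
    exact h4
  have hqI : q ∣ I.card := by
    have h1 : q ∣ I.card * Nat.card (centralizer ((T : Subgroup G) : Set G)) := by
      rw [hcI]; exact Subgroup.card_subgroup_dvd_card _
    have h2 : Nat.Coprime q (Nat.card (centralizer ((T : Subgroup G) : Set G))) := by
      obtain ⟨n, hn⟩ := IsPGroup.iff_card.mp S.isPGroup'
      rw [hq, hn]
      exact Nat.Coprime.pow_left _ ((Nat.Prime.coprime_iff_not_dvd hp.out).2 (not_dvd h T hM))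
    exact h2.dvd_of_dvd_mul_right h1
  -- the number of `p`-elements inverted by an involution
  have hcomm : (I.filter (fun u => t * u = u * t)).card = p := by
    have h1 : ((I.filter (fun u => t * u = u * t) : Finset G) : Set G) = ((T : Subgroup G) : Set G) \ {1} := by
      ext x
      rw [Finset.mem_coe, Finset.mem_filter, hmI]
      constructor
      · rintro ⟨⟨hx1, hx2⟩, hx⟩
        refine ⟨?_, hx1⟩
        have h2 := cent h T hM ht ht1 hx.symm
        exact mem_T_of_sq T ((centralizer_le_normalizer _) h2) hx2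
      · rintro ⟨hx, hx1⟩
        exact ⟨⟨hx1, Emb.sq h T hM hx⟩, h.comm_T T ht hx⟩
    have h2 : (((T : Subgroup G) : Set G) \ {1}).ncard + 1 = Nat.card (T : Subgroup G) := by
      rw [Set.ncard_diff_singleton_add_one (one_mem (T : Subgroup G)) (Set.toFinite _)]
      rfl
    rw [← Set.ncard_coe_finset, h1]
    rw [Emb.card_T h T hM] at h2
    omega
  have hI2 : (I.filter (fun u => ¬ t * u = u * t)).card + p = I.card := by
    have := Finset.card_filter_add_card_filter_not (s := I) (fun u => t * u = u * t)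
    omega
  have htR : (Pf.filter (fun x => R t x)).card = (I.filter (fun u => ¬ t * u = u * t)).card := by
    have htt : t * t = 1 := by rw [← sq, ht2]
    have htinv : t⁻¹ = t := inv_eq_of_mul_eq_one_left htt
    symm
    apply Finset.card_nbij' (fun u => t * u) (fun x => t * x)
    · intro u hu
      rw [Finset.mem_coe, Finset.mem_filter, hmI] at hu
      obtain ⟨⟨hu1, hu2⟩, hut⟩ := hu
      have hodd : Odd (orderOf (t * u)) := by
        rcases Nat.even_or_odd (orderOf (t * u)) with he | ho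
        · exfalso
          obtain ⟨j, hj, hjt, hju⟩ := H59.Invol.exists_comm_invol_of_even ht2 hu2 (orderOf_pos _).ne' he
          set w := (t * u) ^ j with hw
          have hw1 : w ≠ 1 := by
            intro h1
            rw [h1, orderOf_one] at hj
            omega
          have hw2 : w ^ 2 = 1 := orderOf_dvd_iff_pow_eq_one.1 (by rw [hj])
          have h2 := cent h T hM ht ht1 hjt.eq
          have h3 := mem_T_of_sq T ((centralizer_le_normalizer _) h2) hw2
          have h4 := cent h T hM h3 hw1 hju.eq.symm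
          exact hut (mem_centralizer_iff.1 h4 t ht)
        · exact ho
      have hinv : t * (t * u) * t⁻¹ = (t * u)⁻¹ := H59.Invol.conj_mul_eq_inv ht2 hu2
      have hne : t * u ≠ 1 := by
        intro h1
        apply hut
        have h2 : u = t⁻¹ := (inv_eq_of_mul_eq_one_right h1).symm
        rw [h2]; group
      rw [Finset.mem_coe, Finset.mem_filter, hmP]
      refine ⟨⟨hne, ?_⟩, hinv⟩
      have h1 := isPGroup_cent h T hM ht ht1 hodd hne hinv
      obtain ⟨k, hk⟩ := h1 ⟨t * u, mem_centralizer_singleton_iff.2 rfl⟩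
      have hk' : (t * u) ^ p ^ k = 1 := congrArg Subtype.val hk
      obtain ⟨j, -, hj⟩ := (Nat.dvd_prime_pow hp.out).1 (orderOf_dvd_of_pow_eq_one hk')
      exact ⟨j, hj⟩
    · intro x hx
      rw [Finset.mem_coe, Finset.mem_filter, hmP] at hx
      obtain ⟨⟨hx1, k, hk⟩, hxt⟩ := hx
      have hxt' : t * x * t⁻¹ = x⁻¹ := hxt
      have hxodd : Odd (orderOf x) := by rw [hk]; exact (hp.out.odd_of_ne_two h.ne_two).pow
      rw [Finset.mem_coe, Finset.mem_filter, hmI]
      refine ⟨⟨?_, ?_⟩, ?_⟩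
      · intro h1
        apply hx1
        apply eq_one_of_inv hxodd
        have h2 : x = t⁻¹ := (inv_eq_of_mul_eq_one_right h1).symm
        rw [h2, inv_inv, htinv]
      · rw [sq]
        calc t * x * (t * x) = (t * x * t⁻¹) * (t * t) * x := by group
          _ = 1 := by rw [hxt', htt]; group
      · intro h1
        apply hx1
        apply eq_one_of_inv hxodd
        rw [← hxt']
        have h2 : t * (t * x) * t⁻¹ = t * x := by rw [h1]; group
        calc x = t⁻¹ * (t * x) := by group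
          _ = t⁻¹ * (t * (t * x) * t⁻¹) := by rw [h2]
          _ = _ := by group
    · intro u _
      show t * (t * u) = u
      rw [← mul_assoc, htt, one_mul]
    · intro u _
      show t * (t * u) = u
      rw [← mul_assoc, htt, one_mul]
  have hrow : ∀ s ∈ I, (Pf.filter (fun x => R s x)).card = I.card - p := by
    intro s hs
    rw [hmI] at hs
    obtain ⟨g, hg⟩ := isConj_iff.1 (Emb.isConj h T hM ht1 ht2 hs.1 hs.2)
    have h1 := card_filter_conj (A := Pf) (fun x s => R s x) hPc (fun g a b hab => hR g b a hab) g t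
    rw [hg] at h1
    rw [h1, htR]
    omega
  -- the number of involutions inverting a `p`-element
  have hcol : ∀ x ∈ Pf, (I.filter (fun s => R s x)).card = q := by
    intro x hx
    rw [hmP] at hx
    obtain ⟨hx1, k, hk⟩ := hx
    have hpk : IsPGroup p (zpowers x) := IsPGroup.of_card (n := k) (by rw [Nat.card_zpowers, hk])
    obtain ⟨P, hP⟩ := hpk.exists_le_sylow
    obtain ⟨g, hg⟩ := MulAction.exists_smul_eq G P S
    have hkS : g * x * g⁻¹ ∈ (S : Subgroup G) := by
      rw [← hg, Sylow.coe_subgroup_smul, H1.SZ.mem_conj_smul]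
      have : g⁻¹ * (g * x * g⁻¹) * g = x := by group
      rw [this]
      exact hP (mem_zpowers x)
    rw [← card_filter_conj (A := I) R hIc hR g x]
    have hx'1 : g * x * g⁻¹ ≠ 1 := by
      intro h1
      rw [mul_inv_eq_one] at h1
      exact hx1 (mul_eq_left.mp h1)
    generalize g * x * g⁻¹ = z at hkS hx'1
    have hzodd : Odd (orderOf z) :=
      (h.odd_of_isPGroup S.isPGroup').of_dvd_nat (Subgroup.orderOf_dvd_natCard _ hkS)
    rw [hS, mem_centralizer_singleton_iff] at hkS
    have hzt := inv_cent h T hM ht ht1 hy hy1 hty hkS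
    obtain ⟨S', hS'⟩ := sylow h T hM ht ht1 hzodd hx'1 hzt
    have hcard : Nat.card (centralizer {z} : Subgroup G) = q := by
      rw [← hS', hq]
      exact S'.card_eq_multiplicity.trans S.card_eq_multiplicity.symm
    have hodd := odd_cent h T hM ht ht1 hzodd hx'1 hzt
    have htt : t * t = 1 := by rw [← sq, ht2]
    have h1 : (I.filter (fun s => R s z)) = (Finset.univ.filter (fun c => c ∈ centralizer {z})).image (fun c => t * c) := by
      ext s
      rw [Finset.mem_filter, hmI, Finset.mem_image]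
      constructor
      · rintro ⟨⟨hs1, hs2⟩, hs⟩
        have hs' : s * z * s⁻¹ = z⁻¹ := hs
        refine ⟨t * s, ?_, by rw [← mul_assoc, htt, one_mul]⟩
        rw [Finset.mem_filter, mem_centralizer_singleton_iff]
        refine ⟨Finset.mem_univ _, ?_⟩
        have h2 : t * (s * z * s⁻¹) * t⁻¹ = z := by
          rw [hs']
          calc t * z⁻¹ * t⁻¹ = (t * z * t⁻¹)⁻¹ := by group
            _ = z := by rw [hzt, inv_inv]
        calc t * s * z = (t * (s * z * s⁻¹) * t⁻¹) * (t * s) := by group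
          _ = z * (t * s) := by rw [h2]
      · rintro ⟨c, hc, rfl⟩
        rw [Finset.mem_filter] at hc
        have hc' := mem_centralizer_singleton_iff.1 hc.2
        have htc := inv_cent h T hM ht ht1 hzodd hx'1 hzt hc'
        refine ⟨⟨?_, ?_⟩, ?_⟩
        · intro h2
          have h3 : c = t⁻¹ := (inv_eq_of_mul_eq_one_right h2).symm
          have h4 : Odd (orderOf c) := hodd.of_dvd_nat (Subgroup.orderOf_dvd_natCard _ hc.2)
          apply ht1
          apply eq_one_of_inv
          · rw [h3, orderOf_inv] at h4; exact h4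
          · exact (inv_eq_of_mul_eq_one_left htt).symm
        · rw [sq]
          calc t * c * (t * c) = (t * c * t⁻¹) * (t * t) * c := by group
            _ = 1 := by rw [htc, htt]; group
        · show t * c * z * (t * c)⁻¹ = z⁻¹
          calc t * c * z * (t * c)⁻¹ = t * (c * z) * c⁻¹ * t⁻¹ := by group
            _ = t * (z * c) * c⁻¹ * t⁻¹ := by rw [hc']
            _ = t * z * t⁻¹ := by group
            _ = z⁻¹ := hzt
    rw [h1, Finset.card_image_of_injective _ (mul_right_injective t), ← hcard]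
    rw [Nat.card_eq_fintype_card, Fintype.card_subtype]
  -- double counting
  have hdc : I.card * (I.card - p) = Pf.card * q := by
    have h1 := Finset.sum_card_bipartiteAbove_eq_sum_card_bipartiteBelow (s := I) (t := Pf) R
    have h2 : ∑ a ∈ I, (Pf.bipartiteAbove R a).card = I.card * (I.card - p) := by
      rw [Finset.sum_const_nat (m := I.card - p)]
      intro s hs
      exact hrow s hs
    have h3 : ∑ b ∈ Pf, (I.bipartiteBelow R b).card = Pf.card * q := by
      rw [Finset.sum_const_nat (m := q)]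
      intro x hx
      exact hcol x hx
    rw [← h2, ← h3, h1]
  -- the number of `p`-elements
  have hfrob : p ∣ Pf.card + 1 := by
    have h1 := H73.FrobClass.main (Nat.card G) G rfl q 1 (one_mem _)
    have h2 : Nat.gcd q (Nat.card G) = q := Nat.gcd_eq_left (Subgroup.card_subgroup_dvd_card _)
    rw [h2] at h1
    have h3 : Nat.card {x : G // x ^ q = 1} = Pf.card + 1 := by
      rw [Nat.card_eq_fintype_card, Fintype.card_subtype]
      have h4 : (Finset.univ.filter (fun x : G => x ^ q = 1)) = insert 1 Pf := by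
        ext x
        rw [Finset.mem_filter, Finset.mem_insert, hmP]
        constructor
        · rintro ⟨-, hx⟩
          by_cases hx1 : x = 1
          · exact Or.inl hx1
          · right
            refine ⟨hx1, ?_⟩
            obtain ⟨n, hn⟩ := IsPGroup.iff_card.mp S.isPGroup'
            rw [← hq] at hn
            rw [hn] at hx
            obtain ⟨j, -, hj⟩ := (Nat.dvd_prime_pow hp.out).1 (orderOf_dvd_of_pow_eq_one hx)
            exact ⟨j, hj⟩
        · rintro (rfl | ⟨hx1, k, hk⟩)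
          · exact ⟨Finset.mem_univ _, one_pow _⟩
          · refine ⟨Finset.mem_univ _, ?_⟩
            rw [← orderOf_dvd_iff_pow_eq_one]
            have hpk : IsPGroup p (zpowers x) := IsPGroup.of_card (n := k) (by rw [Nat.card_zpowers, hk])
            obtain ⟨P, hP⟩ := hpk.exists_le_sylow
            rw [← Nat.card_zpowers, hq, S.card_eq_multiplicity.trans P.card_eq_multiplicity.symm]
            exact Subgroup.card_dvd_of_le hP
      rw [h4, Finset.card_insert_of_notMem]
      rw [hmP]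
      exact fun h5 => h5.1 rfl
    rw [h3] at h1
    exact hpq.trans h1
  obtain ⟨m, hm⟩ := hqI
  have h1 : m * (I.card - p) = Pf.card := by
    have h2 : q * (m * (I.card - p)) = q * Pf.card := by
      rw [← mul_assoc, ← hm, hdc, mul_comm]
    exact Nat.eq_of_mul_eq_mul_left hqpos h2
  have h2 : p ∣ I.card := hpq.trans ⟨m, hm⟩
  have h3 : p ∣ I.card - p := Nat.dvd_sub h2 (dvd_refl p)
  have h4 : p ∣ Pf.card := by rw [← h1]; exact h3.mul_left m
  have h5 : p ∣ 1 := (Nat.dvd_add_right h4).1 hfrob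
  have := Nat.le_of_dvd (by norm_num) h5
  omega

end CaseA

end H69.PPA
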