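import Mathlib

/-!
Sylow `p`-subgroups as direct factors.
-/

set_option autoImplicit false

namespace H69.SylowFactor

universe u

variable {G : Type u} [Group G]

/-- an element lies in `C` as soon as all its powers of prime power order do. -/
theorem mem_of_prime_powers [Finite G] (C : Subgroup G) (k : G)
    (h : ∀ (q b i : ℕ), q.Prime → q ∣ orderOf k → orderOf (k ^ i) = q ^ b → k ^ i ∈ C) : k ∈ C := by
  have h0 : orderOf k ≠ 0 := (orderOf_pos k).ne'
  have key : orderOf k ∣ Nat.card (Subgroup.zpowers k ⊓ C : Subgroup G) := by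
    rw [Nat.dvd_iff_prime_pow_dvd_dvd]
    intro q b hq hqb
    rcases Nat.eq_zero_or_pos b with rfl | hb
    · simp
    obtain ⟨m, hm⟩ := hqb
    have hm0 : m ≠ 0 := by
      rintro rfl
      rw [mul_zero] at hm
      exact h0 hm
    have h1 : orderOf (k ^ m) = q ^ b := by
      rw [orderOf_pow_of_dvd hm0 (by rw [hm]; exact dvd_mul_left _ _), hm]
      exact Nat.mul_div_cancel _ (Nat.pos_of_ne_zero hm0)
    have h2 : k ^ m ∈ C := h q b m hq (by
      rw [hm]
      exact (dvd_pow_self q hb.ne').trans (dvd_mul_right _ _)) h1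
    have h3 : k ^ m ∈ (Subgroup.zpowers k ⊓ C : Subgroup G) :=
      ⟨Subgroup.pow_mem _ (Subgroup.mem_zpowers k) m, h2⟩
    rw [← h1, ← Subgroup.orderOf_mk (k ^ m) h3]
    exact orderOf_dvd_natCard _
  have h1 : (Subgroup.zpowers k ⊓ C : Subgroup G) = Subgroup.zpowers k := by
    apply Subgroup.eq_of_le_of_card_ge inf_le_left
    rw [Nat.card_zpowers]
    exact Nat.le_of_dvd Nat.card_pos key
  have h2 : k ∈ (Subgroup.zpowers k ⊓ C : Subgroup G) := by
    rw [h1]
    exact Subgroup.mem_zpowers k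
  exact h2.2

/-- If all `p`-elements commute with all elements of `q`-power order, `q ≠ p`, then a Sylow
`p`-subgroup is a direct factor. -/
theorem direct_factor_of_commute [Finite G] (p : ℕ) [Fact p.Prime]
    (h : ∀ x y : G, (∃ a : ℕ, orderOf x = p ^ a) → (∃ q b : ℕ, q.Prime ∧ q ≠ p ∧ orderOf y = q ^ b) →
      x * y = y * x) :
    ∃ (P : Sylow p G) (K : Subgroup G), (P : Subgroup G).Normal ∧ K.Normal ∧
      (P : Subgroup G) ⊓ K = ⊥ ∧ (P : Subgroup G) ⊔ K = ⊤ := by
  have hp : p.Prime := Fact.out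
  obtain ⟨P⟩ : Nonempty (Sylow p G) := inferInstance
  have hP : ∀ x ∈ (P : Subgroup G), ∃ a : ℕ, orderOf x = p ^ a := by
    intro x hx
    obtain ⟨k, hk⟩ := P.isPGroup' ⟨x, hx⟩
    have hk' : x ^ p ^ k = 1 := congrArg Subtype.val hk
    obtain ⟨c, -, hc⟩ := (Nat.dvd_prime_pow hp).1 (orderOf_dvd_of_pow_eq_one hk')
    exact ⟨c, hc⟩
  have hcent : ∀ y : G, (∃ q b : ℕ, q.Prime ∧ q ≠ p ∧ orderOf y = q ^ b) →
      y ∈ Subgroup.centralizer ((P : Subgroup G) : Set G) := by
    intro y hy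
    rw [Subgroup.mem_centralizer_iff]
    intro x hx
    exact h x y (hP x hx) hy
  have hnorm : (P : Subgroup G).Normal := by
    rw [← Subgroup.normalizer_eq_top_iff]
    apply Subgroup.eq_top_of_card_eq
    apply Nat.dvd_antisymm (Subgroup.card_subgroup_dvd_card _)
    rw [Nat.dvd_iff_prime_pow_dvd_dvd]
    intro q b hq hqb
    by_cases hqp : q = p
    · subst hqp
      have h1 : q ^ b ∣ Nat.card (P : Subgroup G) := P.pow_dvd_card_of_pow_dvd_card hqb
      exact h1.trans (Subgroup.card_dvd_of_le Subgroup.le_normalizer)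
    · have hqf : Fact q.Prime := ⟨hq⟩
      obtain ⟨Q, hQ⟩ := Sylow.exists_subgroup_card_pow_prime q hqb
      rw [← hQ]
      apply Subgroup.card_dvd_of_le
      refine le_trans ?_ (Subgroup.centralizer_le_normalizer _)
      intro y hy
      apply hcent y
      refine ⟨q, ?_⟩
      have h1 : orderOf (⟨y, hy⟩ : Q) ∣ q ^ b := by
        rw [← hQ]
        exact orderOf_dvd_natCard _
      obtain ⟨c, -, hc⟩ := (Nat.dvd_prime_pow hq).1 h1
      rw [Subgroup.orderOf_mk] at hc
      exact ⟨c, hq, hqp, hc⟩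
  have hcop : (Nat.card (P : Subgroup G)).Coprime (P : Subgroup G).index := P.card_coprime_index
  obtain ⟨K, hK⟩ := Subgroup.exists_right_complement'_of_coprime hcop
  have hKidx : Nat.card K = (P : Subgroup G).index := hK.symm.index_eq_card.symm
  have hKc : K ≤ Subgroup.centralizer ((P : Subgroup G) : Set G) := by
    intro k hk
    apply mem_of_prime_powers
    intro q b i hq hqk hqb
    apply hcent
    refine ⟨q, b, hq, ?_, hqb⟩
    rintro rfl
    apply P.not_dvd_index
    rw [← hKidx]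
    refine hqk.trans ?_
    rw [← Subgroup.orderOf_mk k hk]
    exact orderOf_dvd_natCard _
  refine ⟨P, K, hnorm, ?_, hK.disjoint.eq_bot, hK.sup_eq_top⟩
  rw [← Subgroup.normalizer_eq_top_iff, eq_top_iff, ← hK.sup_eq_top]
  refine sup_le ?_ Subgroup.le_normalizer
  refine le_trans ?_ (Subgroup.centralizer_le_normalizer _)
  rw [Subgroup.le_centralizer_iff]
  exact hKc

theorem mem_left {p : ℕ} [Fact p.Prime] [Finite G] (P : Sylow p G) (hP : (P : Subgroup G).Normal)
    (x : G) (hx : ∃ a : ℕ, orderOf x = p ^ a) : x ∈ (P : Subgroup G) := by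
  obtain ⟨a, ha⟩ := hx
  have h6 : IsPGroup p (Subgroup.zpowers x) := by
    rw [IsPGroup.iff_card]
    exact ⟨a, by rw [Nat.card_zpowers, ha]⟩
  have h7 : Subgroup.zpowers x ⊓ Subgroup.normalizer ((P : Subgroup G) : Set G) =
      Subgroup.zpowers x ⊓ (P : Subgroup G) := h6.inf_normalizer_sylow P
  rw [Subgroup.normalizer_eq_top_iff.2 hP] at h7
  have h8 : x ∈ Subgroup.zpowers x ⊓ (⊤ : Subgroup G) := ⟨Subgroup.mem_zpowers x, Subgroup.mem_top x⟩
  rw [h7] at h8
  exact h8.2

theorem mem_right {p : ℕ} [Fact p.Prime] [Finite G] (P : Sylow p G) (K : Subgroup G)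
    (hK : K.Normal) (hPK : (P : Subgroup G) ⊓ K = ⊥) (hPK' : (P : Subgroup G) ⊔ K = ⊤)
    (y : G) (hy : ∃ q b : ℕ, q.Prime ∧ q ≠ p ∧ orderOf y = q ^ b) : y ∈ K := by
  have hp : p.Prime := Fact.out
  obtain ⟨q, b, hq, hqp, hy⟩ := hy
  have hcomp : Subgroup.IsComplement' K (P : Subgroup G) := by
    apply Subgroup.isComplement'_of_disjoint_and_mul_eq_univ
    · rw [disjoint_iff, inf_comm]; exact hPK
    · rw [← Subgroup.normal_mul, sup_comm, hPK']
      rfl
  have hidx : K.index = Nat.card (P : Subgroup G) := hcomp.symm.index_eq_card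
  obtain ⟨n, hn⟩ := P.isPGroup'.exists_card_eq
  have h1 : (QuotientGroup.mk' K y) ^ (p ^ n) = 1 := by
    rw [← hn, ← hidx, Subgroup.index]
    exact pow_card_eq_one'
  have h2 : (QuotientGroup.mk' K y) ^ (q ^ b) = 1 := by
    rw [← map_pow, ← hy, pow_orderOf_eq_one, map_one]
  have h3 : QuotientGroup.mk' K y = 1 := by
    rw [← orderOf_eq_one_iff]
    have h4 := Nat.dvd_gcd (orderOf_dvd_of_pow_eq_one h1) (orderOf_dvd_of_pow_eq_one h2)
    have h5 : Nat.gcd (p ^ n) (q ^ b) = 1 :=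
      Nat.Coprime.pow _ _ ((Nat.coprime_primes hp hq).2 (Ne.symm hqp))
    rw [h5] at h4
    exact Nat.dvd_one.1 h4
  exact (QuotientGroup.eq_one_iff y).1 h3

end H69.SylowFactor
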