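import Mathlib

/-!
Elementary facts about subgroups with trivial intersection, in terms of `MulAut.conj g • P`.
-/

set_option autoImplicit false

open scoped Pointwise

namespace H69.TISub

universe u

variable {G : Type u} [Group G]

theorem mem_conj_smul {g x : G} {H : Subgroup G} : x ∈ MulAut.conj g • H ↔ g⁻¹ * x * g ∈ H := by
  rw [Subgroup.mem_pointwise_smul_iff_inv_smul_mem, ← map_inv, MulAut.smul_def, MulAut.conj_apply,
    inv_inv]

theorem mem_normalizer_iff_smul {g : G} {H : Subgroup G} :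
    g ∈ Subgroup.normalizer (H : Set G) ↔ MulAut.conj g • H = H := by
  rw [Subgroup.mem_normalizer_iff'']
  constructor
  · intro h
    ext x
    rw [mem_conj_smul]
    exact (h x).symm
  · intro h x
    have := (SetLike.ext_iff.1 h x).symm
    rwa [mem_conj_smul] at this

/-- reformulation of the trivial intersection property. -/
def TI (P : Subgroup G) : Prop :=
  ∀ g x : G, x ∈ P → x ≠ 1 → g⁻¹ * x * g ∈ P → MulAut.conj g • P = P

theorem ti_iff {P : Subgroup G} :
    (∀ g : G, g ∉ Subgroup.normalizer (P : Set G) → P ⊓ (MulAut.conj g • P) = ⊥) ↔ TI P := by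
  constructor
  · intro h g x hx hx1 hgx
    by_contra hne
    have h1 := h g (by rwa [mem_normalizer_iff_smul])
    have h2 : x ∈ P ⊓ (MulAut.conj g • P) := ⟨hx, mem_conj_smul.2 hgx⟩
    rw [h1] at h2
    exact hx1 (Subgroup.mem_bot.1 h2)
  · intro h g hg
    rw [Subgroup.eq_bot_iff_forall]
    intro x hx
    by_contra hx1
    exact hg (mem_normalizer_iff_smul.2 (h g x hx.1 hx1 (mem_conj_smul.1 hx.2)))

theorem TI.conj {P : Subgroup G} (h : TI P) (a : G) : TI (MulAut.conj a • P) := by
  intro g x hx hx1 hgx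
  rw [mem_conj_smul] at hx hgx
  have h1 := h (a⁻¹ * g * a) (a⁻¹ * x * a) hx (by
    intro h1
    apply hx1
    have : x = a * (a⁻¹ * x * a) * a⁻¹ := by group
    rw [this, h1]; group) (by
    have : (a⁻¹ * g * a)⁻¹ * (a⁻¹ * x * a) * (a⁻¹ * g * a) = a⁻¹ * (g⁻¹ * x * g) * a := by group
    rw [this]; exact hgx)
  have h2 : MulAut.conj g * MulAut.conj a = MulAut.conj a * MulAut.conj (a⁻¹ * g * a) := by
    rw [← map_mul, ← map_mul]
    congr 1
    group
  rw [smul_smul, h2, ← smul_smul, h1]

end H69.TISub
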